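import Mathlib
import Cfsg.Prelude.Def_BaumannBlocks
import Cfsg.Agent.Lib.H73.Cocycle
import Cfsg.Agent.Lib.H88.Tate
import Cfsg.Agent.Lib.H88.FocalGroup
import Cfsg.Agent.Lib.H2.Residual
import Cfsg.Agent.Lib.H1.Frat
import Cfsg.Agent.Lib.H52.WC

/-!
# The Hall-Wielandt theorem (H73.HallWielandt)
-/

set_option autoImplicit false

namespace H73.HallWielandt

open H73.Cocycle
open scoped Pointwise

/-- `(-1)^(p-1-k) * choose (p-1) k = 1` in `ZMod p`. -/
theorem choose_pred {p : ℕ} [hp : Fact p.Prime] {k : ℕ} (hk : k < p) :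
    (((p - 1).choose k : ℕ) : ZMod p) = (-1) ^ k := by
  induction k with
  | zero => simp
  | succ k ih =>
    have h1 := ih (by lia)
    have h2 : p.choose (k + 1) = (p - 1).choose k + (p - 1).choose (k + 1) := by
      have : p = (p - 1) + 1 := (Nat.sub_add_cancel hp.out.one_le).symm
      conv_lhs => rw [this]
      exact Nat.choose_succ_succ _ _
    have h3 : p ∣ p.choose (k + 1) := hp.out.dvd_choose_self (by lia) hk
    have h4 : ((p.choose (k + 1) : ℕ) : ZMod p) = 0 := (ZMod.natCast_eq_zero_iff _ _).2 h3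
    rw [h2, Nat.cast_add, h1] at h4
    rw [pow_succ]
    linear_combination h4

theorem sum_of_fwdDiff {p : ℕ} [hp : Fact p.Prime] (f : ℕ → ZMod p) :
    (fwdDiff 1)^[p - 1] f 0 = ∑ k ∈ Finset.range p, f k := by
  rw [fwdDiff_iter_eq_sum_shift, Nat.sub_add_cancel hp.out.one_le]
  apply Finset.sum_congr rfl
  intro k hk
  have hk' := Finset.mem_range.1 hk
  have h1 : ((-1 : ℤ) ^ (p - 1 - k) * ((p - 1).choose k : ℤ)) • f (0 + k • 1) =
      (((-1 : ZMod p) ^ (p - 1 - k)) * (((p - 1).choose k : ℕ) : ZMod p)) * f k := by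
    rw [zsmul_eq_mul]
    push_cast
    simp
  rw [h1, choose_pred hk', ← pow_add, Nat.sub_add_cancel (by lia)]
  have h2 : (-1 : ZMod p) ^ (p - 1) = 1 := by
    have := choose_pred (p := p) (k := p - 1) (by have := hp.out.one_le; lia)
    rw [Nat.choose_self] at this
    rw [← this]; simp
  rw [h2, one_mul]

variable {G : Type*} [Group G]

/-- The norm lemma: `θ` a function multiplicative on `S`, `z` normalizes `S`, and the iterated commutator of length
`p - 1` vanishes. -/
theorem norm_eq_zero {p : ℕ} [hp : Fact p.Prime] {S : Subgroup G} {z u : G} (θ : G → ZMod p)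
    (hθ : ∀ s, ∀ t ∈ S, θ (s * t) = θ s + θ t) (hz : ∀ s ∈ S, z⁻¹ * s * z ∈ S) (hu : u ∈ S)
    (h : (fun y : G => y⁻¹ * z⁻¹ * y * z)^[p - 1] u = 1) :
    ∑ i ∈ Finset.range p, θ ((z ^ i)⁻¹ * u * z ^ i) = 0 := by
  have hzi : ∀ (i : ℕ), ∀ s ∈ S, (z ^ i)⁻¹ * s * z ^ i ∈ S := by
    intro i
    induction i with
    | zero => intro s hs; simpa using hs
    | succ i ih =>
      intro s hs
      have h1 := hz _ (ih s hs)
      have h2 : (z ^ (i + 1))⁻¹ * s * z ^ (i + 1) = z⁻¹ * ((z ^ i)⁻¹ * s * z ^ i) * z := by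
        rw [pow_succ]; group
      rw [h2]; exact h1
  have h1 : θ 1 = 0 := by
    have := hθ 1 1 S.one_mem
    rw [mul_one] at this
    exact left_eq_add.1 this
  have hinv : ∀ s ∈ S, θ s⁻¹ = - θ s := by
    intro s hs
    have h2 := hθ s⁻¹ s hs
    rw [inv_mul_cancel, h1] at h2
    exact eq_neg_of_add_eq_zero_left h2.symm
  have hmem : ∀ s ∈ S, s⁻¹ * z⁻¹ * s * z ∈ S := by
    intro s hs
    have := S.mul_mem (S.inv_mem hs) (hz s hs)
    rw [← mul_assoc, ← mul_assoc] at this
    exact this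
  have key : ∀ n, ∀ s ∈ S, ∀ j, θ ((z ^ j)⁻¹ * ((fun y : G => y⁻¹ * z⁻¹ * y * z)^[n] s) * z ^ j) =
      (fwdDiff 1)^[n] (fun i => θ ((z ^ i)⁻¹ * s * z ^ i)) j := by
    intro n
    induction n with
    | zero => intro s _ j; rfl
    | succ n ih =>
      intro s hs j
      rw [Function.iterate_succ_apply, ih _ (hmem s hs), Function.iterate_succ_apply]
      refine congrFun (congrArg _ (funext fun i => ?_)) j
      rw [fwdDiff]
      have h3 : (z ^ i)⁻¹ * (s⁻¹ * z⁻¹ * s * z) * z ^ i =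
          ((z ^ i)⁻¹ * s * z ^ i)⁻¹ * ((z ^ (i + 1))⁻¹ * s * z ^ (i + 1)) := by
        rw [pow_succ' z i]
        group
      rw [h3, hθ _ _ (hzi (i + 1) s hs), hinv _ (hzi i s hs)]
      ring
  have h4 := key (p - 1) u hu 0
  rw [h, sum_of_fwdDiff] at h4
  rw [← h4]
  simpa using h1

/-- The contribution of a nontrivial `Q⟨u⟩`-orbit containing a fixed point of `u`. -/
theorem orbit_prod {Ω : Type*} [MulAction G Ω] [Finite G] {p : ℕ} [hp : Fact p.Prime]
    {c : G → Ω → Multiplicative (ZMod p)} (hc : IsCoc c) {T Q : Subgroup G} (hT : IsPGroup p T) (hQT : Q ≤ T)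
    {u : G} (huT : u ∈ T) (hTQ : T ≤ Q ⊔ Subgroup.zpowers u) {y : Ω} (huy : u • y = y)
    (hQy : ∃ q ∈ Q, q • y ≠ y)
    (hE : ∀ z ∈ Q, (fun y : G => y⁻¹ * z⁻¹ * y * z)^[p - 1] u = 1)
    {D : Finset Ω} (hD : ∀ x, x ∈ D ↔ x ∈ MulAction.orbit T y) : ∏ x ∈ D, c u x = 1 := by
  classical
  have hTnil : Group.IsNilpotent T := hT.isNilpotent
  have hT0 : MulAction.stabilizer T y ≠ ⊤ := by
    intro h
    obtain ⟨q, hq, hqy⟩ := hQy
    have : (⟨q, hQT hq⟩ : T) ∈ MulAction.stabilizer T y := by rw [h]; exact Subgroup.mem_top _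
    exact hqy (MulAction.mem_stabilizer_iff.1 this)
  obtain h | ⟨S', hS', hle⟩ := eq_top_or_exists_le_coatom (MulAction.stabilizer T y)
  · exact absurd h hT0
  have hn : S'.Normal := H1.Frat.normal_of_isCoatom hS'
  have hidx : S'.index = p := H1.Frat.index_eq_of_isCoatom hT hS'
  have hzex : ∃ z, ∃ hz : z ∈ Q, (⟨z, hQT hz⟩ : T) ∉ S' := by
    by_contra hcon
    push Not at hcon
    apply hS'.1
    have h1 : T ≤ S'.map T.subtype := by
      refine hTQ.trans (sup_le ?_ ?_)
      · intro q hq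
        exact ⟨⟨q, hQT hq⟩, hcon q hq, rfl⟩
      · rw [Subgroup.zpowers_le]
        exact ⟨⟨u, huT⟩, hle (MulAction.mem_stabilizer_iff.2 huy), rfl⟩
    rw [eq_top_iff]
    intro t _
    obtain ⟨t', ht', htt⟩ := h1 t.2
    have : t' = t := Subtype.ext htt
    rwa [← this]
  obtain ⟨z, hzQ, hzS⟩ := hzex
  obtain ⟨z', hz'⟩ : ∃ z' : T, z' = ⟨z, hQT hzQ⟩ := ⟨_, rfl⟩
  rw [← hz'] at hzS
  have hz'z : (z' : G) = z := by rw [hz']
  have hordz : orderOf (QuotientGroup.mk' S' z') = p := by
    have h1 : orderOf (QuotientGroup.mk' S' z') ∣ p := by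
      have := orderOf_dvd_natCard (QuotientGroup.mk' S' z')
      rwa [← Subgroup.index_eq_card, hidx] at this
    rcases (Nat.dvd_prime hp.out).1 h1 with h2 | h2
    · exfalso
      rw [orderOf_eq_one_iff] at h2
      exact hzS ((QuotientGroup.eq_one_iff z').1 h2)
    · exact h2
  have hgen : ∀ t : T, ∃ i < p, (QuotientGroup.mk' S' z') ^ i = QuotientGroup.mk' S' t := by
    intro t
    have h1 : Subgroup.zpowers (QuotientGroup.mk' S' z') = ⊤ := by
      apply Subgroup.eq_top_of_card_eq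
      rw [Nat.card_zpowers, hordz, ← Subgroup.index_eq_card, hidx]
    have h2 : QuotientGroup.mk' S' t ∈ Subgroup.zpowers (QuotientGroup.mk' S' z') := by
      rw [h1]; exact Subgroup.mem_top _
    rw [mem_zpowers_iff_mem_range_orderOf, hordz] at h2
    obtain ⟨i, hi, hit⟩ := Finset.mem_image.1 h2
    exact ⟨i, Finset.mem_range.1 hi, hit⟩
  -- `S` and `B`
  have hBex : ∃ B : Finset Ω, ∀ x, x ∈ B ↔ ∃ s : T, s ∈ S' ∧ s • y = x := by
    refine ⟨D.filter (fun x => ∃ s : T, s ∈ S' ∧ s • y = x), fun x => ?_⟩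
    rw [Finset.mem_filter]
    constructor
    · exact fun h => h.2
    · rintro ⟨s, hs, rfl⟩
      exact ⟨(hD _).2 ⟨s, rfl⟩, s, hs, rfl⟩
  obtain ⟨B, hB⟩ := hBex
  obtain ⟨S, hSdef⟩ : ∃ S, S = S'.map T.subtype := ⟨_, rfl⟩
  have hSmem : ∀ s : G, s ∈ S ↔ ∃ h : s ∈ T, (⟨s, h⟩ : T) ∈ S' := by
    intro s
    rw [hSdef]
    constructor
    · rintro ⟨s', hs', rfl⟩
      exact ⟨s'.2, hs'⟩
    · rintro ⟨h, hs⟩
      exact ⟨⟨s, h⟩, hs, rfl⟩
  have hSB : ∀ s ∈ S, ∀ x ∈ B, s • x ∈ B := by
    intro s hs x hx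
    obtain ⟨h1, h2⟩ := (hSmem s).1 hs
    obtain ⟨t, ht, rfl⟩ := (hB x).1 hx
    exact (hB _).2 ⟨⟨s, h1⟩ * t, S'.mul_mem h2 ht, by rw [mul_smul]; rfl⟩
  have hzS' : ∀ s ∈ S, z⁻¹ * s * z ∈ S := by
    intro s hs
    obtain ⟨h1, h2⟩ := (hSmem s).1 hs
    have h3 := hn.conj_mem _ h2 z'⁻¹
    rw [inv_inv] at h3
    rw [hSdef]
    exact ⟨_, h3, by rw [← hz'z]; rfl⟩
  have huS : u ∈ S := (hSmem u).2 ⟨huT, hle (MulAction.mem_stabilizer_iff.2 huy)⟩
  have hzi : ∀ (i : ℕ), ∀ s ∈ S, (z ^ i)⁻¹ * s * z ^ i ∈ S := by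
    intro i
    induction i with
    | zero => intro s hs; simpa using hs
    | succ i ih =>
      intro s hs
      have h1 := hzS' _ (ih s hs)
      have h2 : (z ^ (i + 1))⁻¹ * s * z ^ (i + 1) = z⁻¹ * ((z ^ i)⁻¹ * s * z ^ i) * z := by
        rw [pow_succ]; group
      rw [h2]; exact h1
  -- reindex
  have himage : D = (Finset.range p ×ˢ B).image (fun ib => z ^ ib.1 • ib.2) := by
    ext x
    rw [hD, Finset.mem_image]
    constructor
    · rintro ⟨t, rfl⟩
      obtain ⟨i, hi, hit⟩ := hgen t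
      rw [← map_pow] at hit
      have h1 : (z' ^ i)⁻¹ * t ∈ S' := QuotientGroup.eq.1 hit
      refine ⟨(i, ((z' ^ i)⁻¹ * t) • y), Finset.mem_product.2 ⟨Finset.mem_range.2 hi, (hB _).2 ⟨_, h1, rfl⟩⟩, ?_⟩
      show z ^ i • (((z' ^ i)⁻¹ * t : T) : G) • y = (t : G) • y
      rw [← mul_smul]
      congr 1
      rw [← hz'z]
      simp
    · rintro ⟨⟨i, b⟩, hib, rfl⟩
      obtain ⟨-, hb⟩ := Finset.mem_product.1 hib
      obtain ⟨s, hs, rfl⟩ := (hB b).1 hb
      refine ⟨z' ^ i * s, ?_⟩
      show ((z' ^ i * s : T) : G) • y = z ^ i • (s : G) • y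
      rw [← mul_smul, ← hz'z]
      simp
  rw [himage, Finset.prod_image, Finset.prod_product]
  · have h1 : ∀ i ∈ Finset.range p, ∏ b ∈ B, c u (z ^ i • b) = ∏ b ∈ B, c ((z ^ i)⁻¹ * u * z ^ i) b :=
      fun i _ => hc.prod_shift (hSB _ (hzi i u huS))
    rw [Finset.prod_congr rfl h1]
    have h2 := norm_eq_zero (p := p) (S := S) (z := z) (u := u)
      (fun g => Multiplicative.toAdd (∏ b ∈ B, c g b)) (by
        intro s t ht
        rw [hc.prod_mul (hSB t ht)]
        rfl) hzS' huS (hE z hzQ)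
    apply Multiplicative.toAdd.injective
    rw [toAdd_prod]
    exact h2
  · rintro ⟨i, b⟩ hib ⟨j, b'⟩ hjb hij
    obtain ⟨hi, hb⟩ := Finset.mem_product.1 (Finset.mem_coe.1 hib)
    obtain ⟨hj, hb'⟩ := Finset.mem_product.1 (Finset.mem_coe.1 hjb)
    obtain ⟨s, hs, rfl⟩ := (hB b).1 hb
    obtain ⟨s', hs', rfl⟩ := (hB b').1 hb'
    have h1 : (z' ^ i * s) • y = (z' ^ j * s') • y := by
      show ((z' ^ i * s : T) : G) • y = ((z' ^ j * s' : T) : G) • y
      have : z ^ i • (s : G) • y = z ^ j • (s' : G) • y := hij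
      rw [← mul_smul, ← mul_smul, ← hz'z] at this
      simpa using this
    have h2 : (z' ^ i * s)⁻¹ * (z' ^ j * s') ∈ S' := by
      apply hle
      rw [MulAction.mem_stabilizer_iff, mul_smul, ← h1, inv_smul_smul]
    have h3 : QuotientGroup.mk' S' (z' ^ i * s) = QuotientGroup.mk' S' (z' ^ j * s') := QuotientGroup.eq.2 h2
    rw [map_mul, map_mul] at h3
    have h4 : QuotientGroup.mk' S' s = 1 := (QuotientGroup.eq_one_iff s).2 hs
    have h5 : QuotientGroup.mk' S' s' = 1 := (QuotientGroup.eq_one_iff s').2 hs'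
    rw [h4, h5, mul_one, mul_one, map_pow, map_pow] at h3
    have hij' : i = j := pow_injOn_Iio_orderOf
      (by show i < _; rw [hordz]; exact Finset.mem_range.1 hi)
      (by show j < _; rw [hordz]; exact Finset.mem_range.1 hj) h3
    subst hij'
    have h6 : z ^ i • (s • y) = z ^ i • (s' • y) := hij
    rw [MulAction.injective _ h6]

section Main

variable [Finite G] {p : ℕ} [hp : Fact p.Prime]

theorem conj_eq_of_le_normalizer (P : Sylow p G) {Q : Subgroup G} (hQ : Cfsg.IsWeaklyClosed Q (P : Subgroup G))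
    {g : G} (hg : ∀ q ∈ Q, g⁻¹ * q * g ∈ Subgroup.normalizer (Q : Set G)) :
    g ∈ Subgroup.normalizer (Q : Set G) := by
  have hQp : IsPGroup p Q := P.2.to_le hQ.1
  have hWC : H52.WC.WC p Q := (H52.WC.iff_WC hQp).1 ⟨P, hQ⟩
  obtain ⟨k, hk, hkk⟩ := hWC.conj hQp (Subgroup.le_normalizer) (g := g⁻¹) (by
    intro x hx
    obtain ⟨q, hq, rfl⟩ := hx
    have := hg q hq
    simpa using this)
  have h1 : H52.Syl.cj k Q = Q := H52.Syl.cj_eq_of_mem_normalizer hk
  rw [h1] at hkk
  have := H52.Syl.mem_normalizer_of_cj_eq hkk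
  simpa using Subgroup.inv_mem _ this

/-- a homomorphism to an elementary abelian `p`-group is trivial if trivial on a Sylow `p`-subgroup -/
theorem eq_one_of_sylow {A : Type*} [Group A] (hA : IsPGroup p A) (P : Sylow p G) (f : G →* A)
    (h : ∀ x ∈ P, f x = 1) (g : G) : f g = 1 := by
  have h1 : (P : Subgroup G) ⊔ Cfsg.pResidual p G = ⊤ := H2.Residual.sylow_sup_residual P
  have h2 : (P : Subgroup G) ⊔ Cfsg.pResidual p G ≤ f.ker :=
    sup_le (fun x hx => h x hx) (H2.Residual.residual_le_ker f hA)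
  rw [h1] at h2
  exact h2 (Subgroup.mem_top g)

theorem main_aux (P : Sylow p G) (Q : Subgroup G) (hQ : Cfsg.IsWeaklyClosed Q (P : Subgroup G))
    (hE : ∀ u ∈ (P : Subgroup G), ∀ z ∈ Q, (fun y : G => y⁻¹ * z⁻¹ * y * z)^[p - 1] u = 1)
    [Fintype (G ⧸ Subgroup.normalizer (Q : Set G))]
    (φ : Subgroup.normalizer (Q : Set G) →* Multiplicative (ZMod p))
    (hφ : ∀ u : Subgroup.normalizer (Q : Set G), trans φ (u : G) = 1) : φ = 1 := by
  classical
  obtain ⟨H, hH⟩ : ∃ H, H = Subgroup.normalizer (Q : Set G) := ⟨_, rfl⟩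
  have hQp : IsPGroup p Q := P.2.to_le hQ.1
  have hWC : H52.WC.WC p Q := (H52.WC.iff_WC hQp).1 ⟨P, hQ⟩
  have hPH : (P : Subgroup G) ≤ Subgroup.normalizer (Q : Set G) := hWC.sylIn_le_normalizer P.2 hQ.1
  have hA : IsPGroup p (Multiplicative (ZMod p)) := by
    rw [IsPGroup.iff_card]
    exact ⟨1, by rw [pow_one]; exact Nat.card_zmod p⟩
  have hc := tc_isCoc φ
  by_contra hne
  -- an element of `P` of minimal order outside the kernel
  have hex : ∃ n, ∃ u, ∃ hu : u ∈ (P : Subgroup G), orderOf u = n ∧ φ ⟨u, hPH hu⟩ ≠ 1 := by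
    by_contra hcon
    push Not at hcon
    apply hne
    ext g
    rw [MonoidHom.one_apply]
    congr 1
    refine eq_one_of_sylow hA (P.subtype hPH) φ ?_ g
    intro x hx
    exact hcon _ x hx rfl
  obtain ⟨u, hu, hord, hφu⟩ := Nat.find_spec hex
  have hmin : ∀ v, ∀ hv : v ∈ (P : Subgroup G), orderOf v < orderOf u → φ ⟨v, hPH hv⟩ = 1 := by
    intro v hv hlt
    by_contra hcon
    exact Nat.find_min hex (by rw [← hord]; exact hlt) ⟨v, hv, rfl, hcon⟩
  have hmin' : ∀ v : Subgroup.normalizer (Q : Set G), (∃ k, orderOf v = p ^ k) → orderOf (v : G) < orderOf u → φ v = 1 := by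
    intro v hk hlt
    have h1 : IsPGroup p (Subgroup.zpowers v) := by
      obtain ⟨k, hk⟩ := hk
      rw [IsPGroup.iff_card]
      exact ⟨k, by rw [Nat.card_zpowers, hk]⟩
    obtain ⟨R, hR⟩ := h1.exists_le_sylow
    obtain ⟨g, hg⟩ := MulAction.exists_smul_eq (Subgroup.normalizer (Q : Set G)) R (P.subtype hPH)
    have h2 : g * v * g⁻¹ ∈ (P.subtype hPH : Subgroup (Subgroup.normalizer (Q : Set G))) := by
      have hg' : (P.subtype hPH : Subgroup (Subgroup.normalizer (Q : Set G))) = MulAut.conj g • (R : Subgroup (Subgroup.normalizer (Q : Set G))) := by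
        rw [← hg]; rfl
      rw [hg', Subgroup.mem_pointwise_smul_iff_inv_smul_mem]
      have : (MulAut.conj g)⁻¹ • (g * v * g⁻¹) = v := by
        rw [← map_inv, MulAut.smul_def, MulAut.conj_apply]
        group
      rw [this]
      exact hR (Subgroup.mem_zpowers v)
    have h3 : ((g * v * g⁻¹ : Subgroup.normalizer (Q : Set G)) : G) ∈ (P : Subgroup G) := h2
    have h4 : orderOf ((g * v * g⁻¹ : Subgroup.normalizer (Q : Set G)) : G) = orderOf (v : G) := by
      have : ((g * v * g⁻¹ : Subgroup.normalizer (Q : Set G)) : G) = MulAut.conj (g : G) (v : G) := rfl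
      rw [this]
      exact orderOf_injective (MulAut.conj (g : G)).toMonoidHom (MulAut.conj (g : G)).injective _
    have h5 := hmin _ h3 (by rw [h4]; exact hlt)
    have h6 : φ (g * v * g⁻¹) = 1 := h5
    rw [map_mul, map_mul, map_inv, mul_comm, ← mul_assoc, inv_mul_cancel, one_mul] at h6
    exact h6
  -- evaluate the transfer at `u`
  obtain ⟨T, hT⟩ : ∃ T, T = Q ⊔ Subgroup.zpowers u := ⟨_, rfl⟩
  have hQT : Q ≤ T := by rw [hT]; exact le_sup_left
  have huT : u ∈ T := by rw [hT]; exact Subgroup.mem_sup_right (Subgroup.mem_zpowers u)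
  have hTP : T ≤ P := by
    rw [hT]
    refine sup_le hQ.1 ?_
    rw [Subgroup.zpowers_le]
    exact hu
  have hTp : IsPGroup p T := P.2.to_le hTP
  have hV := hφ ⟨u, hPH hu⟩
  rw [trans_apply] at hV
  let Ω := G ⧸ Subgroup.normalizer (Q : Set G)
  let q : Ω → MulAction.orbitRel.Quotient T Ω := fun x => Quotient.mk _ x
  have hqq : ∀ x y : Ω, q x = q y ↔ x ∈ MulAction.orbit T y := by
    intro x y
    constructor
    · intro h
      rw [← MulAction.orbitRel_apply]
      exact Quotient.exact h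
    · intro h
      exact Quotient.sound h
  have hfib := Finset.prod_fiberwise_of_maps_to (s := (Finset.univ : Finset Ω)) (t := Finset.univ.image q) (g := q)
    (fun x hx => Finset.mem_image_of_mem q hx) (fun x => tc φ u x)
  rw [← hfib] at hV
  have hx0 : ∀ t ∈ T, t • ((1 : G) : Ω) = ((1 : G) : Ω) := by
    intro t ht
    show ((t * 1 : G) : Ω) = _
    rw [mul_one]
    apply QuotientGroup.eq.2
    simpa using Subgroup.inv_mem _ (hPH (hTP ht))
  rw [Finset.prod_eq_single (q ((1 : G) : Ω))] at hV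
  · have h1 : Finset.univ.filter (fun x : Ω => q x = q ((1 : G) : Ω)) = {((1 : G) : Ω)} := by
      ext x
      rw [Finset.mem_filter, Finset.mem_singleton, hqq]
      constructor
      · rintro ⟨-, t, rfl⟩
        exact hx0 t t.2
      · rintro rfl
        exact ⟨Finset.mem_univ _, MulAction.mem_orbit_self _⟩
    rw [h1, Finset.prod_singleton, tc_of_mem φ (hPH hu)] at hV
    exact hφu hV
  · intro ω hω hne
    obtain ⟨y, -, rfl⟩ := Finset.mem_image.1 hω
    have hyx : y ≠ ((1 : G) : Ω) := fun h => hne (by rw [h])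
    by_cases hfix : ∃ x : Ω, q x = q y ∧ u • x = x
    · obtain ⟨x, hxy, hux⟩ := hfix
      have hxx : x ≠ ((1 : G) : Ω) := by
        intro h
        rw [h] at hxy
        exact hne hxy.symm
      refine orbit_prod hc hTp hQT huT hT.le hux ?_ (fun z hz => hE u hu z hz) (D := Finset.univ.filter (fun x : Ω => q x = q y)) ?_
      · by_contra hcon
        push Not at hcon
        apply hxx
        have h1 : rep x ∈ Subgroup.normalizer (Q : Set G) := by
          apply conj_eq_of_le_normalizer P hQ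
          intro z hz
          have h2 := rep_mem z x
          rwa [hcon z hz] at h2
        have h3 := rep_mk x
        rw [← h3]
        apply QuotientGroup.eq.2
        simpa using Subgroup.inv_mem _ h1
      · intro w
        rw [Finset.mem_filter]
        exact ⟨fun h => (hqq w x).1 (h.2.trans hxy.symm), fun h => ⟨Finset.mem_univ _, ((hqq w x).2 h).trans hxy⟩⟩
    · push Not at hfix
      apply hc.prod_eq_one_of_cycles
      · intro x hx
        rw [Finset.mem_filter] at hx ⊢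
        refine ⟨Finset.mem_univ _, ?_⟩
        rw [← hx.2, hqq]
        exact ⟨⟨u, huT⟩, rfl⟩
      · intro x hx
        have hxy := (Finset.mem_filter.1 hx).2
        obtain ⟨n, hn⟩ : ∃ n, n = Function.minimalPeriod (u • ·) x := ⟨_, rfl⟩
        rw [← hn]
        have hper : (u ^ n) • x = x := by
          have h1 := Function.isPeriodicPt_minimalPeriod (u • ·) x
          rw [Function.IsPeriodicPt, Function.IsFixedPt, smul_iterate, ← hn] at h1
          exact h1
        have hndvd : n ∣ orderOf u := by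
          rw [hn]
          apply Function.IsPeriodicPt.minimalPeriod_dvd
          rw [Function.IsPeriodicPt, Function.IsFixedPt, smul_iterate]
          show u ^ orderOf u • x = x
          rw [pow_orderOf_eq_one, one_smul]
        have hn1 : n ≠ 1 := by
          intro h
          rw [h, pow_one] at hper
          exact hfix x hxy hper
        have hn0 : n ≠ 0 := by
          rintro rfl
          exact (orderOf_pos u).ne' (Nat.eq_zero_of_zero_dvd hndvd)
        obtain ⟨h1, h2⟩ := tc_of_smul_eq φ hper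
        rw [h2]
        have h3 : orderOf ((rep x)⁻¹ * u ^ n * rep x) = orderOf (u ^ n) := by
          have h4 : (rep x)⁻¹ * u ^ n * rep x = MulAut.conj (rep x)⁻¹ (u ^ n) := by
            rw [MulAut.conj_apply, inv_inv]
          rw [h4]
          exact orderOf_injective (MulAut.conj (rep x)⁻¹).toMonoidHom (MulAut.conj (rep x)⁻¹).injective _
        have h5 : orderOf (u ^ n) = orderOf u / n := orderOf_pow_of_dvd hn0 hndvd
        apply hmin'
        · rw [← Subgroup.orderOf_coe]
          show ∃ k, orderOf ((rep x)⁻¹ * u ^ n * rep x) = p ^ k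
          rw [h3]
          exact (IsPGroup.iff_orderOf.1 P.2 ⟨u ^ n, Subgroup.pow_mem _ hu n⟩).imp (fun k hk => by
            rw [← hk, ← Subgroup.orderOf_coe])
        · show orderOf ((rep x)⁻¹ * u ^ n * rep x) < orderOf u
          rw [h3, h5]
          exact Nat.div_lt_self (orderOf_pos u) (by lia)
  · intro h
    exact absurd (Finset.mem_image_of_mem q (Finset.mem_univ _)) h

/-- every homomorphism of `N(Q)` onto a group of order `p` extends to `G` -/
theorem exists_ext (P : Sylow p G) (Q : Subgroup G) (hQ : Cfsg.IsWeaklyClosed Q (P : Subgroup G))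
    (hE : ∀ u ∈ (P : Subgroup G), ∀ z ∈ Q, (fun y : G => y⁻¹ * z⁻¹ * y * z)^[p - 1] u = 1)
    (φ : Subgroup.normalizer (Q : Set G) →* Multiplicative (ZMod p)) :
    ∃ μ : G →* Multiplicative (ZMod p), ∀ h : Subgroup.normalizer (Q : Set G), μ (h : G) = φ h := by
  classical
  have : Fintype (G ⧸ Subgroup.normalizer (Q : Set G)) := Fintype.ofFinite _
  let Φ : (Subgroup.normalizer (Q : Set G) →* Multiplicative (ZMod p)) →*
      (Subgroup.normalizer (Q : Set G) →* Multiplicative (ZMod p)) :=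
    MonoidHom.mk' (fun φ => (trans φ).comp (Subgroup.normalizer (Q : Set G)).subtype) (by
      intro φ ψ
      rw [trans_mul]
      rfl)
  have hinj : Function.Injective Φ := by
    rw [injective_iff_map_eq_one]
    intro φ hφ
    apply main_aux P Q hQ hE φ
    intro u
    exact DFunLike.congr_fun hφ u
  have hfin : Finite (Subgroup.normalizer (Q : Set G) →* Multiplicative (ZMod p)) := by
    have : Finite (Multiplicative (ZMod p)) := inferInstanceAs (Finite (ZMod p))
    exact Finite.of_injective (fun f => (f : Subgroup.normalizer (Q : Set G) → Multiplicative (ZMod p)))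
      DFunLike.coe_injective
  obtain ⟨ψ, hψ⟩ := (Finite.injective_iff_surjective.1 hinj) φ
  refine ⟨trans ψ, fun h => ?_⟩
  rw [← hψ]
  rfl

/-- a nontrivial homomorphism with kernel a given maximal subgroup of a `p`-group -/
theorem exists_hom_of_coatom {X : Type*} [Group X] [Finite X] (hX : IsPGroup p X) {M : Subgroup X} (hM : IsCoatom M) :
    ∃ f : X →* Multiplicative (ZMod p), f.ker = M := by
  have : Group.IsNilpotent X := hX.isNilpotent
  have hn := H1.Frat.normal_of_isCoatom hM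
  have hidx := H1.Frat.index_eq_of_isCoatom hX hM
  have h1 : Nat.card (X ⧸ M) = p := by rw [← Subgroup.index_eq_card, hidx]
  have h2 : Nat.card (Multiplicative (ZMod p)) = p := Nat.card_zmod p
  let e := mulEquivOfPrimeCardEq h1 h2
  refine ⟨e.toMonoidHom.comp (QuotientGroup.mk' M), ?_⟩
  ext x
  rw [MonoidHom.mem_ker, MonoidHom.comp_apply]
  show e _ = 1 ↔ _
  rw [map_eq_one_iff e e.injective]
  exact QuotientGroup.eq_one_iff x

/-- from extension of homomorphisms to control of the `p`-residual -/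
theorem residual_of_ext (P : Sylow p G) {H : Subgroup G} (hPH : (P : Subgroup G) ≤ H)
    (hext : ∀ φ : H →* Multiplicative (ZMod p), ∃ μ : G →* Multiplicative (ZMod p), ∀ h : H, μ (h : G) = φ h) :
    Cfsg.pResidualOf p H = Cfsg.pResidual p G ⊓ H := by
  classical
  have hRle : Cfsg.pResidualOf p H ≤ Cfsg.pResidual p G := H2.Residual.map_residual_le H
  have hRH : Cfsg.pResidualOf p H ≤ H := Subgroup.map_subtype_le _
  have hA : IsPGroup p (Multiplicative (ZMod p)) := by
    rw [IsPGroup.iff_card]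
    exact ⟨1, by rw [pow_one]; exact Nat.card_zmod p⟩
  obtain ⟨U, hU⟩ : ∃ U, U = (P : Subgroup G) ⊓ Cfsg.pResidualOf p H := ⟨_, rfl⟩
  have hUN : (P : Subgroup G) ≤ Subgroup.normalizer (U : Set G) := by
    intro x hx
    rw [Subgroup.mem_normalizer_iff]
    have hN : ∀ y ∈ H, ∀ z ∈ Cfsg.pResidualOf p H, y * z * y⁻¹ ∈ Cfsg.pResidualOf p H := by
      rintro y hy _ ⟨z, hz, rfl⟩
      have : (Cfsg.pResidual p H).Normal := inferInstance
      exact ⟨_, this.conj_mem z hz ⟨y, hy⟩, rfl⟩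
    intro z
    rw [hU]
    constructor
    · rintro ⟨h1, h2⟩
      exact ⟨P.mul_mem (P.mul_mem hx h1) (P.inv_mem hx), hN x (hPH hx) z h2⟩
    · rintro ⟨h1, h2⟩
      have h3 := P.mul_mem (P.mul_mem (P.inv_mem hx) h1) hx
      have h4 := hN x⁻¹ (H.inv_mem (hPH hx)) _ h2
      rw [inv_inv] at h4
      have e : x⁻¹ * (x * z * x⁻¹) * x = z := by group
      rw [e] at h3 h4
      exact ⟨h3, h4⟩
  -- (a)
  have hX : IsPGroup p (H ⧸ Cfsg.pResidual p H) := H2.Residual.isPGroup_quotient_residual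
  have hFU : (P : Subgroup G) ⊓ Cfsg.pResidual p G ≤ (frattini P).map (P : Subgroup G).subtype ⊔ U := by
    rintro x ⟨hxP, hxR⟩
    by_contra hxW
    let π : P →* H ⧸ Cfsg.pResidual p H := (QuotientGroup.mk' _).comp (Subgroup.inclusion hPH)
    have hπ : Function.Surjective π := by
      have h1 : (P.subtype hPH : Subgroup H) ⊔ Cfsg.pResidual p H = ⊤ := H2.Residual.sylow_sup_residual _
      intro y
      obtain ⟨h, rfl⟩ := QuotientGroup.mk_surjective y
      have h2 : h ∈ (P.subtype hPH : Subgroup H) ⊔ Cfsg.pResidual p H := by rw [h1]; exact Subgroup.mem_top _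
      obtain ⟨a, ha, b, hb, rfl⟩ := Subgroup.mem_sup_of_normal_right.1 h2
      refine ⟨⟨a, ha⟩, ?_⟩
      show ((_ : H) : H ⧸ Cfsg.pResidual p H) = _
      apply QuotientGroup.eq.2
      have : (Subgroup.inclusion hPH ⟨(a : G), ha⟩)⁻¹ * (a * b) = b := by
        apply Subtype.ext
        show (a : G)⁻¹ * (a * b) = b
        group
      rw [this]
      exact hb
    obtain ⟨W, hW⟩ : ∃ W : Subgroup P, W = frattini P ⊔ U.subgroupOf P := ⟨_, rfl⟩
    have hxW' : (⟨x, hxP⟩ : P) ∉ W := by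
      intro h
      apply hxW
      have h1 : (frattini P).map (P : Subgroup G).subtype ⊔ U = W.map (P : Subgroup G).subtype := by
        rw [hW, Subgroup.map_sup, Subgroup.subgroupOf_map_subtype]
        rw [inf_eq_left.2 (by rw [hU]; exact inf_le_left)]
      rw [h1]
      exact ⟨_, h, rfl⟩
    have hPnil : Group.IsNilpotent P := P.2.isNilpotent
    have hfr : frattini (H ⧸ Cfsg.pResidual p H) ≤ W.map π := by
      apply H1.Frat.frattini_le_of_elementary (p := p)
      · have h1 : commutator (H ⧸ Cfsg.pResidual p H) = (commutator P).map π := by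
          rw [commutator_def, commutator_def, Subgroup.map_commutator, Subgroup.map_top_of_surjective π hπ]
        rw [h1]
        apply Subgroup.map_mono
        exact H1.Frat.commutator_le_frattini.trans (by rw [hW]; exact le_sup_left)
      · intro y
        obtain ⟨z, rfl⟩ := hπ y
        refine ⟨z ^ p, ?_, map_pow π z p⟩
        rw [hW]
        exact Subgroup.mem_sup_left (H1.Frat.pow_mem_frattini P.2 z)
    have hxf : π ⟨x, hxP⟩ ∉ frattini (H ⧸ Cfsg.pResidual p H) := by
      intro h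
      obtain ⟨w, hw, hwx⟩ := hfr h
      apply hxW'
      have h1 : (Subgroup.inclusion hPH w)⁻¹ * Subgroup.inclusion hPH ⟨x, hxP⟩ ∈ Cfsg.pResidual p H :=
        QuotientGroup.eq.1 hwx
      have h2 : w⁻¹ * ⟨x, hxP⟩ ∈ W := by
        rw [hW]
        apply Subgroup.mem_sup_right
        rw [Subgroup.mem_subgroupOf, hU]
        refine ⟨Subtype.property _, ?_⟩
        exact ⟨_, h1, rfl⟩
      have h3 := W.mul_mem hw h2
      rwa [mul_inv_cancel_left] at h3
    rw [H1.Frat.mem_frattini_iff] at hxf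
    push Not at hxf
    obtain ⟨M, hM, hxM⟩ := hxf
    obtain ⟨f, hf⟩ := exists_hom_of_coatom hX hM
    obtain ⟨μ, hμ⟩ := hext (f.comp (QuotientGroup.mk' _))
    have h1 : μ x = 1 := H2.Residual.residual_le_ker μ hA hxR
    have h2 := hμ ⟨x, hPH hxP⟩
    have h3 : f (π ⟨x, hxP⟩) = 1 := by
      rw [← h1]
      exact h2.symm
    apply hxM
    rw [← hf]
    exact h3
  -- (b)
  have hb : (P : Subgroup G) ⊓ Cfsg.pResidual p G ≤ U := by
    have h1 := H88.FocalGroup.hyp_eq P
    have h2 := H88.Tate.hyp_le_of_frattini P.2 (H86.FusGroup.group_isSaturated P) (U := U)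
      (by rw [h1, hU]; exact inf_le_inf_left _ hRle) hUN (by rw [h1]; exact hFU)
    rwa [h1] at h2
  -- (c)
  apply le_antisymm (le_inf hRle hRH)
  obtain ⟨K, hK⟩ : ∃ K, K = (Cfsg.pResidual p G).subgroupOf H := ⟨_, rfl⟩
  have hKn : K.Normal := by rw [hK]; infer_instance
  have hle : K ≤ Cfsg.pResidual p H := by
    rw [← Subgroup.relIndex_eq_one]
    obtain ⟨k, hk⟩ := H2.Residual.exists_index_residual (G := H) (p := p)
    have h1 : (Cfsg.pResidual p H).relIndex K ∣ p ^ k := by
      rw [← hk]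
      exact Subgroup.relIndex_dvd_index_of_normal _ _
    obtain ⟨R, hR⟩ := H2.Residual.exists_sylow_inf (P.subtype hPH) K
    have h2 : (R : Subgroup K) ≤ (Cfsg.pResidual p H).subgroupOf K := by
      intro y hy
      rw [hR] at hy
      have h3 : ((y : H) : G) ∈ (P : Subgroup G) := hy
      have h4 : ((y : H) : G) ∈ Cfsg.pResidual p G := by
        have h6 : K ≤ (Cfsg.pResidual p G).subgroupOf H := hK.le
        exact h6 y.2
      have h5 := hb ⟨h3, h4⟩
      rw [hU] at h5
      obtain ⟨z, hz, hzy⟩ := h5.2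
      have : z = (y : H) := Subtype.ext hzy
      rw [Subgroup.mem_subgroupOf, ← this]
      exact hz
    have h3 : (Cfsg.pResidual p H).relIndex K ∣ (R : Subgroup K).index := Subgroup.index_dvd_of_le h2
    have h4 : (R : Subgroup K).index.Coprime (p ^ k) := by
      apply Nat.Coprime.pow_right
      rw [Nat.coprime_comm, Nat.Prime.coprime_iff_not_dvd hp.out]
      exact R.not_dvd_index
    exact Nat.eq_one_of_dvd_coprimes h4 h3 h1
  rintro x ⟨hx1, hx2⟩
  have h1 : (⟨x, hx2⟩ : H) ∈ K := by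
    rw [hK]
    exact hx1
  exact ⟨_, hle h1, rfl⟩

/-- The Hall-Wielandt theorem -/
theorem main (P : Sylow p G) (Q : Subgroup G) (hQ : Cfsg.IsWeaklyClosed Q (P : Subgroup G))
    (hE : ∀ u ∈ (P : Subgroup G), ∀ z ∈ Q, (fun y : G => y⁻¹ * z⁻¹ * y * z)^[p - 1] u = 1) :
    Cfsg.pResidualOf p (Subgroup.normalizer (Q : Set G)) = Cfsg.pResidual p G ⊓ Subgroup.normalizer (Q : Set G) := by
  have hQp : IsPGroup p Q := P.2.to_le hQ.1
  have hWC : H52.WC.WC p Q := (H52.WC.iff_WC hQp).1 ⟨P, hQ⟩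
  exact residual_of_ext P (hWC.sylIn_le_normalizer P.2 hQ.1) (exists_ext P Q hQ hE)

end Main

end H73.HallWielandt
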