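import Mathlib
import Cfsg.Agent.Lib.H69.FrobCount

/-!
# Frobenius: `gcd (n, |G|)` divides the number of solutions of `x ^ n = c`, `c` central (H73.FrobClass)
-/

set_option autoImplicit false

namespace H73.FrobClass

universe u

/-- solutions of `z ^ s = d` in `C` and in `C ⧸ ⟨y⟩` for a central `p`-element `y`, `p ∤ s`. -/
theorem card_solutions_quotient {C : Type u} [Group C] [Finite C] (y d : C) (p k s : ℕ) (hp : p.Prime)
    (hy : orderOf y = p ^ k) (hcen : y ∈ Subgroup.center C) (hs : ¬ p ∣ s)
    [hN : (Subgroup.zpowers y).Normal] :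
    Nat.card {z : C // z ^ s = d} = Nat.card {z : C ⧸ Subgroup.zpowers y // z ^ s = (d : C ⧸ Subgroup.zpowers y)} := by
  have hcop : Nat.Coprime s (orderOf y) := by
    rw [hy]
    exact ((Nat.Prime.coprime_iff_not_dvd hp).2 hs).symm.pow_right k
  have hcy : ∀ z : C, Commute z y := fun z => Subgroup.mem_center_iff.1 hcen z
  let F : {z : C // z ^ s = d} → {z : C ⧸ Subgroup.zpowers y // z ^ s = (d : C ⧸ Subgroup.zpowers y)} := fun z =>
    ⟨QuotientGroup.mk z.1, by rw [← QuotientGroup.mk_pow, z.2]⟩
  apply Nat.card_congr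
  apply Equiv.ofBijective F
  constructor
  · rintro ⟨a, ha⟩ ⟨b, hb⟩ hab
    have h1 : (QuotientGroup.mk a : C ⧸ Subgroup.zpowers y) = QuotientGroup.mk b :=
      congrArg Subtype.val hab
    rw [QuotientGroup.eq] at h1
    obtain ⟨j, hj⟩ := Subgroup.mem_zpowers_iff.1 h1
    have hb' : b = a * y ^ j := by rw [hj]; group
    have h2 : (y ^ j) ^ s = 1 := by
      have h3 := hb
      rw [hb', ((hcy a).zpow_right j).mul_pow, ha] at h3
      exact mul_eq_left.mp h3
    have h4 : orderOf (y ^ j) ∣ s := orderOf_dvd_of_pow_eq_one h2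
    have h5 : orderOf (y ^ j) ∣ orderOf y := orderOf_dvd_of_mem_zpowers ⟨j, rfl⟩
    have h6 : orderOf (y ^ j) = 1 := Nat.eq_one_of_dvd_coprimes hcop h4 h5
    rw [orderOf_eq_one_iff] at h6
    apply Subtype.ext
    show a = b
    rw [hb', h6, mul_one]
  · rintro ⟨z, hz⟩
    obtain ⟨z, rfl⟩ := QuotientGroup.mk_surjective z
    rw [← QuotientGroup.mk_pow] at hz
    have hz' := QuotientGroup.eq.mp hz.symm
    obtain ⟨j, hj⟩ := Subgroup.mem_zpowers_iff.1 hz'
    have hj' : z ^ s = d * y ^ j := by rw [hj]; group
    obtain ⟨u, v, huv⟩ := Nat.isCoprime_iff_coprime.2 hcop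
    refine ⟨⟨z * y ^ (-j * u), ?_⟩, ?_⟩
    · rw [((hcy z).zpow_right _).mul_pow, hj', ← zpow_natCast (y ^ (-j * u)), ← zpow_mul, mul_assoc, ← zpow_add]
      have h2 : j + -j * u * (s : ℤ) = (orderOf y : ℤ) * (j * v) := by
        have : u * (s : ℤ) = 1 - v * orderOf y := by linarith
        calc j + -j * u * (s : ℤ) = j - j * (u * s) := by ring
          _ = _ := by rw [this]; ring
      rw [h2, zpow_mul, zpow_natCast, pow_orderOf_eq_one, one_zpow, mul_one]
    · apply Subtype.ext
      show (QuotientGroup.mk (z * y ^ (-j * u)) : C ⧸ Subgroup.zpowers y) = QuotientGroup.mk z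
      rw [QuotientGroup.eq, mul_inv_rev, mul_assoc, inv_mul_cancel, mul_one, ← zpow_neg]
      exact ⟨_, rfl⟩

theorem main : ∀ (N : ℕ) (G : Type u) [Group G] [Finite G], Nat.card G = N →
    ∀ (n : ℕ) (c : G), c ∈ Subgroup.center G → Nat.gcd n (Nat.card G) ∣ Nat.card {x : G // x ^ n = c} := by
  intro N
  induction N using Nat.strong_induction_on with
  | _ N ih =>
  intro G _ _ hN n c hc
  classical
  by_cases hc1 : c = 1
  · subst hc1
    rw [H69.FrobCount.card_pow_eq_one_gcd]
    exact H69.FrobCount.frobenius_dvd _ (Nat.gcd_dvd_right _ _)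
  have hGpos : Nat.card G ≠ 0 := Nat.card_pos.ne'
  have hcc : ∀ x : G, Commute x c := fun x => Subgroup.mem_center_iff.mp hc x
  -- empty case
  by_cases hemp : IsEmpty {x : G // x ^ n = c}
  · have h0 : Nat.card {x : G // x ^ n = c} = 0 := Nat.card_of_isEmpty
    rw [h0]; exact dvd_zero _
  rw [not_isEmpty_iff] at hemp
  obtain ⟨⟨x0, hx0⟩⟩ := hemp
  have hn0 : n ≠ 0 := by
    rintro rfl
    rw [pow_zero] at hx0
    exact hc1 hx0.symm
  obtain ⟨p, hp, hpc⟩ := Nat.exists_prime_and_dvd (show orderOf c ≠ 1 from fun h => hc1 (orderOf_eq_one_iff.mp h))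
  have hpF : Fact p.Prime := ⟨hp⟩
  obtain ⟨l, s, hs, hns⟩ := Nat.exists_eq_pow_mul_and_not_dvd hn0 p hp.ne_one
  obtain ⟨a, t, ht, hat⟩ := Nat.exists_eq_pow_mul_and_not_dvd hGpos p hp.ne_one
  have hcop : Nat.Coprime (p ^ a) t := ((Nat.Prime.coprime_iff_not_dvd hp).2 ht).pow_left _
  obtain ⟨e, he1, he2⟩ := Nat.chineseRemainder hcop 1 0
  have hte : t ∣ e := (Nat.modEq_zero_iff_dvd).1 he2
  -- properties of the exponent `e`
  have he_p : ∀ x : G, x ^ (p ^ a) = 1 → x ^ e = x := by
    intro x hx
    have h1 : x ^ e = x ^ 1 := by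
      rw [pow_eq_pow_iff_modEq]
      exact he1.of_dvd (orderOf_dvd_of_pow_eq_one hx)
    rw [h1, pow_one]
  have he_p' : ∀ x : G, (x ^ e) ^ (p ^ a) = 1 := by
    intro x
    obtain ⟨r, hr⟩ := hte
    rw [← pow_mul, hr]
    have : t * r * p ^ a = Nat.card G * r := by rw [hat]; ring
    rw [this, pow_mul, pow_card_eq_one', one_pow]
  have he_q : ∀ x : G, x ^ t = 1 → x ^ e = 1 := by
    intro x hx
    obtain ⟨r, hr⟩ := hte
    rw [hr, pow_mul, hx, one_pow]
  have he_q' : ∀ x : G, (x * (x ^ e)⁻¹) ^ t = 1 := by
    intro x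
    have h1 : Commute x (x ^ e)⁻¹ := ((Commute.refl x).pow_right e).inv_right
    rw [h1.mul_pow, inv_pow, ← pow_mul]
    have h2 : x ^ (e * t) = x ^ t := by
      rw [pow_eq_pow_iff_modEq]
      have h3 : e * t ≡ 1 * t [MOD p ^ a * t] := Nat.ModEq.mul_right' t he1
      rw [one_mul] at h3
      rw [← hat] at h3
      exact h3.of_dvd (orderOf_dvd_natCard x)
    rw [h2, mul_inv_cancel]
  -- `p`-part of `c`
  set cp := c ^ e with hcp
  have hcp1 : cp ≠ 1 := by
    intro h
    have h1 := he_q' c
    rw [← hcp, h, inv_one, mul_one] at h1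
    exact ht (hpc.trans (orderOf_dvd_of_pow_eq_one h1))
  obtain ⟨m, hma, hm⟩ := (Nat.dvd_prime_pow hp).mp (orderOf_dvd_of_pow_eq_one (he_p' c))
  have hm0 : m ≠ 0 := by
    rintro rfl
    rw [pow_zero, orderOf_eq_one_iff] at hm
    exact hcp1 hm
  -- order of the `p`-part of a solution
  have hord : ∀ y : G, y ^ (p ^ a) = 1 → y ^ n = cp → orderOf y = p ^ (l + m) := by
    intro y hy1 hy2
    obtain ⟨j, hja, hj⟩ := (Nat.dvd_prime_pow hp).mp (orderOf_dvd_of_pow_eq_one hy1)
    have h1 : orderOf (y ^ n) = orderOf (y ^ (p ^ l)) := by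
      rw [hns, pow_mul]
      apply Nat.Coprime.orderOf_pow
      have h2 : orderOf (y ^ p ^ l) ∣ p ^ j := by rw [← hj]; exact orderOf_pow_dvd _
      exact Nat.Coprime.coprime_dvd_left h2 (((Nat.Prime.coprime_iff_not_dvd hp).2 hs).pow_left _)
    rw [hy2, hm] at h1
    have hlj : l < j := by
      by_contra hlj
      push Not at hlj
      have h2 : y ^ p ^ l = 1 := by
        rw [← orderOf_dvd_iff_pow_eq_one, hj]
        exact pow_dvd_pow p hlj
      rw [h2, orderOf_one] at h1
      have h3 := Nat.one_lt_pow hm0 hp.one_lt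
      omega
    have h2 : orderOf (y ^ p ^ l) = p ^ (j - l) := by
      rw [orderOf_pow_of_dvd (pow_ne_zero l hp.ne_zero) (by rw [hj]; exact pow_dvd_pow p hlj.le), hj,
        Nat.pow_div hlj.le hp.pos]
    rw [h2] at h1
    have h3 := Nat.pow_right_injective hp.two_le h1
    rw [hj]
    congr 1
    omega
  have hsol : ∀ x : G, x ^ n = c → (x ^ e) ^ n = cp := by
    intro x hx
    rw [← pow_mul, mul_comm, pow_mul, hx]
  -- the `p`-part
  have hpl : p ^ l ∣ Nat.card {x : G // x ^ n = c} := by
    have := H69.CountLemmas.dvd_card_of_cosets (p ^ l) (fun g : G => Subgroup.zpowers (g ^ (e * p ^ m))) {x : G | x ^ n = c}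
      (by
        intro g hg
        rw [Nat.card_zpowers, pow_mul]
        have h1 := hord (g ^ e) (he_p' g) (hsol g hg)
        rw [orderOf_pow_of_dvd (pow_ne_zero m hp.ne_zero) (by rw [h1]; exact pow_dvd_pow p (by omega)), h1,
          Nat.pow_div (by omega) hp.pos]
        rw [Nat.add_sub_cancel])
      (by
        intro g hg b hb
        obtain ⟨j, rfl⟩ := Subgroup.mem_zpowers_iff.1 hb
        have hcomm : Commute g ((g ^ (e * p ^ m)) ^ j) := ((Commute.refl g).pow_right _).zpow_right _
        have h1 : ((g ^ (e * p ^ m)) ^ j) ^ n = 1 := by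
          rw [← zpow_natCast, ← zpow_mul, mul_comm j, zpow_mul, zpow_natCast, ← pow_mul]
          have h2 : e * p ^ m * n = n * (e * p ^ m) := by ring
          rw [h2, pow_mul, show g ^ n = c from hg, pow_mul, ← hcp, ← hm, pow_orderOf_eq_one, one_zpow]
        have hW : (g * (g ^ (e * p ^ m)) ^ j) ^ n = c := by
          rw [hcomm.mul_pow, h1, mul_one]; exact hg
        have hcardA : ∀ x : G, x ^ n = c → Nat.card (Subgroup.zpowers (x ^ (e * p ^ m))) = p ^ l := by
          intro x hx
          rw [Nat.card_zpowers, pow_mul]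
          have h1 := hord (x ^ e) (he_p' x) (hsol x hx)
          rw [orderOf_pow_of_dvd (pow_ne_zero m hp.ne_zero) (by rw [h1]; exact pow_dvd_pow p (by omega)), h1,
            Nat.pow_div (by omega) hp.pos]
          rw [Nat.add_sub_cancel]
        refine ⟨hW, ?_⟩
        apply Subgroup.eq_of_le_of_card_ge
        · rw [Subgroup.zpowers_le, hcomm.mul_pow]
          refine Subgroup.mul_mem _ (Subgroup.mem_zpowers _) ?_
          exact Subgroup.pow_mem _ (Subgroup.zpow_mem _ (Subgroup.mem_zpowers _) _) _
        · rw [hcardA _ hg, hcardA _ hW])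
    exact this
  -- the `p'`-part
  have hsl : Nat.gcd s (Nat.card G) ∣ Nat.card {x : G // x ^ n = c} := by
    have : Fintype G := Fintype.ofFinite G
    let F : G → ℕ := fun y => (Finset.univ.filter (fun g : G => g ^ n = c ∧ g ^ e = y)).card
    have hsum : Nat.card {x : G // x ^ n = c} = ∑ y, F y := by
      have h1 : Nat.card {x : G // x ^ n = c} = (Finset.univ.filter (fun g : G => g ^ n = c)).card := by
        rw [Nat.card_eq_fintype_card, Fintype.card_subtype]
      rw [h1, Finset.card_eq_sum_card_fiberwise (f := fun g => g ^ e) (t := Finset.univ)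
        (fun _ _ => Finset.mem_univ _)]
      apply Finset.sum_congr rfl
      intro y _
      rw [Finset.filter_filter]
    rw [hsum]
    apply H69.CountLemmas.dvd_sum_of_classFun
    · intro g y
      have hcg : g * c * g⁻¹ = c := by rw [(hcc g).eq, mul_inv_cancel_right]
      apply Finset.card_bij' (fun x _ => g⁻¹ * x * g) (fun x _ => g * x * g⁻¹)
      · intro x hx
        rw [Finset.mem_filter] at hx ⊢
        obtain ⟨-, hxW, hxe⟩ := hx
        have hpow : ∀ n : ℕ, (g⁻¹ * x * g) ^ n = g⁻¹ * x ^ n * g := by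
          intro n
          have := conj_pow (i := n) (a := g⁻¹) (b := x)
          rwa [inv_inv] at this
        refine ⟨Finset.mem_univ _, ?_, ?_⟩
        · rw [hpow, hxW]
          calc g⁻¹ * c * g = g⁻¹ * (g * c * g⁻¹) * g := by rw [hcg]
            _ = c := by group
        · rw [hpow, hxe]; group
      · intro x hx
        rw [Finset.mem_filter] at hx ⊢
        obtain ⟨-, hxW, hxe⟩ := hx
        refine ⟨Finset.mem_univ _, ?_, ?_⟩
        · rw [conj_pow, hxW, hcg]
        · rw [conj_pow, hxe]
      · intro x _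
        group
      · intro x _
        group
    · intro y
      by_cases hy0 : F y = 0
      · rw [hy0, mul_zero]; exact dvd_zero _
      · obtain ⟨g, hg⟩ := Finset.card_pos.1 (Nat.pos_of_ne_zero hy0)
        rw [Finset.mem_filter] at hg
        obtain ⟨-, hgW, hge⟩ := hg
        have hyn : y ^ n = cp := by rw [← hge]; exact hsol g hgW
        have hyp : y ^ p ^ a = 1 := by rw [← hge]; exact he_p' g
        have hyo : orderOf y = p ^ (l + m) := hord y hyp hyn
        -- `p'`-part of `c`
        set cq := c * cp⁻¹ with hcq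
        have hcqt : cq ^ t = 1 := he_q' c
        have hcqc : cq ∈ Subgroup.center G := mul_mem hc (inv_mem (pow_mem hc e))
        obtain ⟨v, hv1, hv2⟩ := Nat.chineseRemainder
          (show Nat.Coprime 1 t from Nat.coprime_one_left t) 0 0
        obtain ⟨w, hw⟩ : ∃ w : ℕ, w * p ^ l ≡ 1 [MOD t] := by
          have hct : Nat.Coprime (p ^ l) t := ((Nat.Prime.coprime_iff_not_dvd hp).2 ht).pow_left _
          by_cases ht1 : t = 1
          · exact ⟨0, by rw [ht1]; exact Nat.modEq_one⟩
          · have ht0 : t ≠ 0 := by rintro rfl; exact ht (dvd_zero p)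
            obtain ⟨w, hw⟩ := Nat.exists_mul_mod_eq_one_of_coprime hct (by omega)
            refine ⟨w, ?_⟩
            have h5 := hw.2
            rw [mul_comm] at h5
            rw [Nat.ModEq, h5, Nat.mod_eq_of_lt (by omega)]
        have hwpow : ∀ x : G, x ^ t = 1 → (x ^ w) ^ p ^ l = x := by
          intro x hx
          rw [← pow_mul]
          conv_rhs => rw [← pow_one x]
          rw [pow_eq_pow_iff_modEq]
          exact hw.of_dvd (orderOf_dvd_of_pow_eq_one hx)
        set C := Subgroup.centralizer ({y} : Set G) with hC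
        have hyC : y ∈ C := Subgroup.mem_centralizer_singleton_iff.2 rfl
        have hcqC : cq ^ w ∈ C := Subgroup.center_le_centralizer _ (pow_mem hcqc w)
        let y' : C := ⟨y, hyC⟩
        let d : C := ⟨cq ^ w, hcqC⟩
        have hy'cen : y' ∈ Subgroup.center C := by
          rw [Subgroup.mem_center_iff]
          intro z
          exact Subtype.ext (Subgroup.mem_centralizer_singleton_iff.1 z.2)
        have hdcen : d ∈ Subgroup.center C := by
          rw [Subgroup.mem_center_iff]
          intro z
          exact Subtype.ext (Subgroup.mem_center_iff.mp (pow_mem hcqc w) z)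
        have hN' : (Subgroup.zpowers y').Normal := by
          constructor
          intro x hx z
          have h1 : z * x = x * z := by
            obtain ⟨j, rfl⟩ := Subgroup.mem_zpowers_iff.1 hx
            exact Subgroup.mem_center_iff.1 (Subgroup.zpow_mem _ hy'cen j) z
          rw [h1, mul_inv_cancel_right]
          exact hx
        have hst : ∀ z : G, z ^ s = cq ^ w → z ^ t = 1 := by
          intro z hz
          have h1 : z ^ (s * t) = 1 := by
            rw [pow_mul, hz, ← pow_mul, mul_comm, pow_mul, hcqt, one_pow]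
          have h2 : orderOf z ∣ s * t := orderOf_dvd_of_pow_eq_one h1
          have h3 : orderOf z ∣ p ^ a * t := by rw [← hat]; exact orderOf_dvd_natCard z
          have h4 : Nat.Coprime (orderOf z) (p ^ a) := by
            apply Nat.Coprime.coprime_dvd_left h2
            apply Nat.Coprime.symm
            apply Nat.Coprime.pow_left
            rw [Nat.Prime.coprime_iff_not_dvd hp]
            intro h
            rcases (Nat.Prime.dvd_mul hp).mp h with h | h
            · exact hs h
            · exact ht h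
          exact orderOf_dvd_iff_pow_eq_one.mp (h4.dvd_of_dvd_mul_left h3)
        have hFy : F y = Nat.card {z : C // z ^ s = d} := by
          have h1 : F y = Nat.card {g : G // g ^ n = c ∧ g ^ e = y} := by
            rw [Nat.card_eq_fintype_card, Fintype.card_subtype]
          rw [h1]
          apply Nat.card_congr
          refine ⟨fun g => ⟨⟨g.1 * y⁻¹, ?_⟩, ?_⟩, fun z => ⟨z.1.1 * y, ?_⟩, ?_, ?_⟩
          · have hgy : Commute g.1 y := by
              have := (Commute.refl g.1).pow_right e
              rwa [g.2.2] at this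
            rw [Subgroup.mem_centralizer_singleton_iff]
            exact (hgy.mul_left ((Commute.refl y).inv_left)).eq
          · apply Subtype.ext
            show (g.1 * y⁻¹) ^ s = cq ^ w
            have hgy : Commute g.1 y := by
              have := (Commute.refl g.1).pow_right e
              rwa [g.2.2] at this
            have h2 : (g.1 * y⁻¹) ^ n = cq := by
              rw [(hgy.inv_right).mul_pow, inv_pow, g.2.1, hyn]
            have h3 : (g.1 * y⁻¹) ^ t = 1 := by
              have := he_q' g.1
              rwa [g.2.2] at this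
            have h2' : (g.1 * y⁻¹) ^ (p ^ l * s) = cq := by rw [← hns]; exact h2
            rw [← h2', ← pow_mul]
            have h4 : p ^ l * s * w = (w * p ^ l) * s := by ring
            rw [h4, pow_eq_pow_iff_modEq]
            have h5 : 1 * s ≡ w * p ^ l * s [MOD t] := (hw.symm).mul_right s
            rw [one_mul] at h5
            exact h5.of_dvd (orderOf_dvd_of_pow_eq_one h3)
          · have hcomm : Commute z.1.1 y := Subgroup.mem_centralizer_singleton_iff.1 z.1.2
            have hzs : z.1.1 ^ s = cq ^ w := congrArg Subtype.val z.2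
            refine ⟨?_, ?_⟩
            · rw [hcomm.mul_pow, hyn, hns, mul_comm (p ^ l) s, pow_mul, hzs, hwpow cq hcqt, hcq]
              group
            · rw [hcomm.mul_pow, he_p y hyp, he_q _ (hst _ hzs), one_mul]
          · intro g
            apply Subtype.ext
            show g.1 * y⁻¹ * y = g.1
            group
          · intro z
            apply Subtype.ext
            apply Subtype.ext
            show z.1.1 * y * y⁻¹ = z.1.1
            group
        have hy'o : orderOf y' = p ^ (l + m) := by
          rw [← hyo]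
          exact Subgroup.orderOf_mk y hyC
        have hcardC : Nat.card C = Nat.card (C ⧸ Subgroup.zpowers y') * p ^ (l + m) := by
          rw [Subgroup.card_eq_card_quotient_mul_card_subgroup (Subgroup.zpowers y'), Nat.card_zpowers,
            hy'o]
        have hlt : Nat.card (C ⧸ Subgroup.zpowers y') < Nat.card G := by
          have h1 : Nat.card C ≤ Nat.card G := Subgroup.card_le_card_group C
          have h2 : 0 < Nat.card (C ⧸ Subgroup.zpowers y') := Nat.card_pos
          have h3 : 1 < p ^ (l + m) := Nat.one_lt_pow (by omega) hp.one_lt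
          nlinarith
        have hdcen' : ((d : C) : C ⧸ Subgroup.zpowers y') ∈ Subgroup.center (C ⧸ Subgroup.zpowers y') := by
          rw [Subgroup.mem_center_iff]
          intro z
          obtain ⟨z, rfl⟩ := QuotientGroup.mk_surjective z
          rw [← QuotientGroup.mk_mul, ← QuotientGroup.mk_mul, Subgroup.mem_center_iff.mp hdcen z]
        have h1 := ih _ (hN ▸ hlt) (C ⧸ Subgroup.zpowers y') rfl s _ hdcen'
        rw [← card_solutions_quotient y' d p (l + m) s hp hy'o hy'cen hs, ← hFy] at h1
        have hcop2 : Nat.Coprime (p ^ (l + m)) s := ((Nat.Prime.coprime_iff_not_dvd hp).2 hs).pow_left _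
        have h2 : Nat.gcd s (Nat.card C) = Nat.gcd s (Nat.card (C ⧸ Subgroup.zpowers y')) := by
          rw [hcardC]
          exact Nat.Coprime.gcd_mul_right_cancel_right _ hcop2
        rw [← h2] at h1
        have h3 : Nat.gcd s (Nat.card G) ∣ C.index * Nat.gcd s (Nat.card C) := by
          rw [← Nat.gcd_mul_left]
          apply Nat.dvd_gcd ((Nat.gcd_dvd_left _ _).trans (dvd_mul_left _ _))
          rw [mul_comm, Subgroup.card_mul_index]
          exact Nat.gcd_dvd_right _ _
        exact h3.trans (Nat.mul_dvd_mul_left _ h1)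
  have h1 : Nat.gcd n (Nat.card G) ∣ p ^ l * Nat.gcd s (Nat.card G) := by
    rw [hns, Nat.gcd_comm]
    refine (Nat.gcd_mul_right_dvd_mul_gcd _ _ _).trans ?_
    rw [Nat.gcd_comm _ s]
    exact Nat.mul_dvd_mul_right (Nat.gcd_dvd_right _ _) _
  refine h1.trans (Nat.Coprime.mul_dvd_of_dvd_of_dvd ?_ hpl hsl)
  exact Nat.Coprime.coprime_dvd_right (Nat.gcd_dvd_left _ _) (((Nat.Prime.coprime_iff_not_dvd hp).2 hs).pow_left _)

end H73.FrobClass
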