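import Mathlib

/-! An operator `ζ` with `ζ²+ζ+1 = 0` on an elementary abelian group of order `16`. -/

set_option autoImplicit false

namespace H73.DB16

open Polynomial

universe v

theorem irr4 : Irreducible (X ^ 2 + X + 1 : (ZMod 2)[X]) := by
  have hm : (X ^ 2 + X + 1 : (ZMod 2)[X]).Monic := by monicity!
  have hd : (X ^ 2 + X + 1 : (ZMod 2)[X]).natDegree = 2 := by compute_degree!
  rw [hm.irreducible_iff_roots_eq_zero_of_degree_le_three (by omega) (by omega)]
  rw [Multiset.eq_zero_iff_forall_notMem]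
  intro x hx
  rw [mem_roots hm.ne_zero, IsRoot.def] at hx
  simp only [eval_add, eval_pow, eval_X, eval_one] at hx
  revert hx
  revert x
  decide

theorem deg4 : (X ^ 2 + X + 1 : (ZMod 2)[X]).natDegree = 2 := by compute_degree!

theorem exists_F4 {V : Type v} [AddCommGroup V] [Finite V] (hV : Nat.card V = 16) (h2 : ∀ v : V, v + v = 0)
    (ζ : V →+ V) (hζ : ∀ v, ζ (ζ v) + ζ v + v = 0) :
    ∃ (F : Type) (_ : Field F) (_ : Fintype F) (β : V ≃+ (Fin 2 → F)), Fintype.card F = 4 ∧
      ∀ (T : V →+ V), (∀ v, T (ζ v) = ζ (T v)) → ∃ L : (Fin 2 → F) →ₗ[F] (Fin 2 → F), ∀ v, β (T v) = L (β v) := by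
  classical
  letI : Module (ZMod 2) V := AddCommGroup.zmodModule (n := 2) (fun x => by rw [two_nsmul]; exact h2 x)
  let ζL : Module.End (ZMod 2) V := ζ.toZModLinearMap 2
  let f : (ZMod 2)[X] := X ^ 2 + X + 1
  haveI : Fact (Irreducible f) := ⟨irr4⟩
  have hf0 : aeval ζL f = 0 := by
    ext v
    have : aeval ζL f = ζL ^ 2 + ζL + 1 := by simp [f]
    rw [this, sq]
    exact hζ v
  let θ : AdjoinRoot f →+* Module.End (ZMod 2) V :=
    Ideal.Quotient.lift (Ideal.span {f}) (aeval ζL : (ZMod 2)[X] →ₐ[ZMod 2] Module.End (ZMod 2) V).toRingHom (by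
      intro p hp
      rw [Ideal.mem_span_singleton] at hp
      obtain ⟨q, rfl⟩ := hp
      change aeval ζL (f * q) = 0
      rw [map_mul, hf0, zero_mul])
  letI : Module (AdjoinRoot f) V := Module.compHom V θ
  have hsm : ∀ (p : (ZMod 2)[X]) (v : V), (AdjoinRoot.mk f p) • v = (aeval ζL p) v := fun p v => rfl
  haveI : Finite (AdjoinRoot f) := by
    haveI : Module.Finite (ZMod 2) (AdjoinRoot f) := (AdjoinRoot.powerBasis irr4.ne_zero).finite
    exact Module.finite_of_finite (ZMod 2)
  letI : Fintype (AdjoinRoot f) := Fintype.ofFinite _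
  have hcard : Nat.card (AdjoinRoot f) = 4 := by
    haveI : Module.Finite (ZMod 2) (AdjoinRoot f) := (AdjoinRoot.powerBasis irr4.ne_zero).finite
    have := Module.natCard_eq_pow_finrank (K := ZMod 2) (V := AdjoinRoot f)
    rw [this, (AdjoinRoot.powerBasis irr4.ne_zero).finrank, AdjoinRoot.powerBasis_dim, deg4]
    simp
  haveI : Module.Finite (AdjoinRoot f) V := Module.Finite.of_finite
  have hfin : Module.finrank (AdjoinRoot f) V = 2 := by
    have := Module.natCard_eq_pow_finrank (K := AdjoinRoot f) (V := V)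
    rw [hV, hcard] at this
    have h16 : (4 : ℕ) ^ 2 = 4 ^ Module.finrank (AdjoinRoot f) V := by rw [← this]; norm_num
    exact (Nat.pow_right_injective (le_refl 2 |>.trans (by norm_num : (2:ℕ) ≤ 4)) h16).symm
  let β : V ≃ₗ[AdjoinRoot f] (Fin 2 → AdjoinRoot f) := LinearEquiv.ofFinrankEq V (Fin 2 → AdjoinRoot f) (by
    rw [hfin, Module.finrank_fin_fun])
  refine ⟨AdjoinRoot f, inferInstance, inferInstance, β.toAddEquiv, by rw [← Nat.card_eq_fintype_card, hcard], ?_⟩
  intro T hT
  have hTp : ∀ (p : (ZMod 2)[X]) (v : V), T ((aeval ζL p) v) = (aeval ζL p) (T v) := by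
    intro p
    induction p using Polynomial.induction_on' with
    | add p q hp hq =>
      intro v
      rw [map_add, LinearMap.add_apply, LinearMap.add_apply, map_add, hp, hq]
    | monomial n c =>
      intro v
      rw [aeval_monomial]
      have hpow : ∀ (k : ℕ) (w : V), T ((ζL ^ k) w) = (ζL ^ k) (T w) := by
        intro k
        induction k with
        | zero => intro w; simp
        | succ k ih =>
          intro w
          rw [pow_succ, Module.End.mul_apply, Module.End.mul_apply, ih]
          congr 1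
          exact hT w
      rw [Module.End.mul_apply, Module.End.mul_apply, Module.algebraMap_end_apply, Module.algebraMap_end_apply,
        ← hpow]
      have : ∀ (c : ZMod 2) (w : V), T (c • w) = c • T w := fun c w => (T.toZModLinearMap 2).map_smul c w
      exact this c _
  let TF : V →ₗ[AdjoinRoot f] V :=
    { toFun := T
      map_add' := T.map_add
      map_smul' := by
        intro c v
        obtain ⟨p, rfl⟩ := AdjoinRoot.mk_surjective (g := f) c
        rw [RingHom.id_apply, hsm, hsm]
        exact hTp p v }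
  refine ⟨β.toLinearMap ∘ₗ TF ∘ₗ β.symm.toLinearMap, fun v => ?_⟩
  simp [TF]

end H73.DB16
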