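import Cfsg.Agent.Lib.H39.DB0
import Cfsg.Agent.Lib.H73.DB16a

/-! Identification of `AGL(2,4)` (S3219, BB5). -/

set_option autoImplicit false

namespace H73.DB16

open MulAction H39.DA

universe u v

theorem card_aff {F : Type} [Field F] [Fintype F] (hF : Fintype.card F = 4) :
    Finite ((Fin 2 → F) ≃ᵃ[F] (Fin 2 → F)) ∧ Nat.card ((Fin 2 → F) ≃ᵃ[F] (Fin 2 → F)) ≤ 2880 := by
  classical
  have hGL : Nat.card (GL (Fin 2) F) = 180 := by
    rw [Matrix.card_GL_field]
    simp [Fin.prod_univ_two, hF]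
  have hL : Nat.card ((Fin 2 → F) ≃ₗ[F] (Fin 2 → F)) = 180 := by
    rw [← hGL]
    exact (Nat.card_congr ((Matrix.GeneralLinearGroup.toLin (n := Fin 2) (R := F)).trans
      (LinearMap.GeneralLinearGroup.generalLinearEquiv F (Fin 2 → F))).toEquiv).symm
  haveI hfin : Finite ((Fin 2 → F) ≃ₗ[F] (Fin 2 → F)) := Nat.finite_of_card_ne_zero (by rw [hL]; norm_num)
  let m : ((Fin 2 → F) ≃ᵃ[F] (Fin 2 → F)) → (Fin 2 → F) × ((Fin 2 → F) ≃ₗ[F] (Fin 2 → F)) :=
    fun φ => (φ 0, φ.linear)
  have hm : Function.Injective m := by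
    intro φ ψ h
    have h0 : φ 0 = ψ 0 := congrArg Prod.fst h
    have hl : φ.linear = ψ.linear := congrArg Prod.snd h
    ext1 v
    have e1 := φ.map_vadd 0 v
    have e2 := ψ.map_vadd 0 v
    simp only [vadd_eq_add, add_zero] at e1 e2
    rw [e1, e2, h0, hl]
  refine ⟨Finite.of_injective m hm, ?_⟩
  have := Nat.card_le_card_of_injective m hm
  rw [Nat.card_prod, hL] at this
  have h16 : Nat.card (Fin 2 → F) = 16 := by
    rw [Nat.card_eq_fintype_card]; simp [hF]
  rw [h16] at this
  exact this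

variable {G : Type u} {Ω : Type v} [Group G] [Finite G] [MulAction G Ω] [Finite Ω]

theorem card_G (h : B4 G Ω) (hn : Nat.card Ω = 16) (a : Ω) : Nat.card G = 2880 := by
  classical
  haveI : Nontrivial Ω := by
    obtain ⟨x, y, hxy⟩ := h.two
    exact ⟨x, y, hxy⟩
  obtain ⟨b, hb⟩ := exists_ne a
  have horb : orbit G a = Set.univ := by
    ext x
    simp only [Set.mem_univ, iff_true]
    by_cases hx : x = a
    · rw [hx]; exact mem_orbit_self a
    · obtain ⟨g, hg, _⟩ := h.tr a b x a hb.symm hx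
      exact ⟨g, hg⟩
  have h1 : (stabilizer G a).index = 16 := by
    rw [index_stabilizer, horb, Set.ncard_univ, hn]
  have horb2 : orbit (stabilizer G a) b = {a}ᶜ := by
    ext x
    simp only [Set.mem_compl_iff, Set.mem_singleton_iff]
    constructor
    · rintro ⟨g, hg⟩ hxa
      have h3 : g.1 • b = a := (show g.1 • b = x from hg).trans hxa
      have h4 : g.1 • a = a := g.2
      exact hb (smul_left_cancel g.1 (h3.trans h4.symm))
    · intro hx
      obtain ⟨g, hg1, hg2⟩ := h.tr a b a x hb.symm (Ne.symm hx)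
      exact ⟨⟨g, hg1⟩, hg2⟩
  have h2 : (stabilizer (stabilizer G a) b).index = 15 := by
    rw [index_stabilizer, horb2]
    have := Set.ncard_add_ncard_compl ({a} : Set Ω)
    rw [hn, Set.ncard_singleton] at this
    omega
  have h3 : Nat.card (stabilizer (stabilizer G a) b) = 12 := by
    obtain ⟨e⟩ := h.a4 a b hb.symm
    have h12 : Nat.card (St G a b) = 12 := by
      rw [Nat.card_congr e.toEquiv, Nat.card_eq_fintype_card]; decide
    rw [← h12]
    refine Nat.card_congr ⟨fun g => ⟨g.1.1, g.1.2, g.2⟩, fun g => ⟨⟨g.1, g.2.1⟩, g.2.2⟩, fun _ => rfl, fun _ => rfl⟩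
  have h4 := (stabilizer (stabilizer G a) b).card_mul_index
  have h5 := (stabilizer G a).card_mul_index
  rw [h2, h3] at h4
  rw [h1, ← h4] at h5
  omega

/-- the normal subgroup of order three is central -/
theorem central {B : Type u} [Group B] [Finite B] (X : Subgroup B) (hX : X.Normal) (hX3 : Nat.card X = 3)
    (h2 : ∀ Y : Subgroup B, Y.index ≠ 2) : ∃ z : B, z ≠ 1 ∧ z * z * z = 1 ∧ ∀ g : B, g * z = z * g := by
  classical
  haveI := hX
  haveI : Fact (Nat.Prime 3) := ⟨Nat.prime_three⟩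
  haveI : IsCyclic X := isCyclic_of_prime_card hX3
  let c : B →* MulAut X := MulAut.conjNormal
  have h3 : Nat.card c.range ∣ 2 := by
    have := Subgroup.card_subgroup_dvd_card c.range
    rw [IsCyclic.card_mulAut, hX3] at this
    exact this
  have h4 : c.ker.index = 1 := by
    have h5 := Subgroup.index_ker c
    rcases (Nat.dvd_prime Nat.prime_two).1 h3 with h6 | h6
    · rw [h5, h6]
    · exact absurd (h5.trans h6) (h2 _)
  have h5 : c.ker = ⊤ := Subgroup.index_eq_one.1 h4
  haveI : Nontrivial X := by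
    rw [← Finite.one_lt_card_iff_nontrivial, hX3]; norm_num
  obtain ⟨z, hz⟩ := exists_ne (1 : X)
  refine ⟨z.1, fun h => hz (Subtype.ext h), ?_, ?_⟩
  · have : z ^ 3 = 1 := hX3 ▸ pow_card_eq_one'
    have := congrArg Subtype.val this
    simpa [pow_succ] using this
  · intro g
    have hg : c g = 1 := by
      have : g ∈ c.ker := h5 ▸ Subgroup.mem_top g
      exact this
    have h6 : (c g z).1 = z.1 := by rw [hg]; rfl
    rw [MulAut.conjNormal_apply] at h6
    rw [mul_inv_eq_iff_eq_mul] at h6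
    exact h6

end H73.DB16
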