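import Mathlib
import Cfsg.Agent.Lib.H1.Coprime2
import Cfsg.Agent.Lib.H5.ZStar
import Cfsg.Agent.Lib.H26.IsoInv

set_option autoImplicit false

/-! Coprime action centralizing the centralizer of an involution: basic facts. -/

universe u

namespace H73.InvCent

open Subgroup H1.Coprime H1.Coprime2
open scoped Pointwise commutatorElement

/-- `A` acts coprimely on `K` and centralizes `C_K(τ)`, `τ` an involution of `K` -/
structure Hyp {Γ : Type u} [Group Γ] (A K : Subgroup Γ) (τ : Γ) : Prop where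
  norm : A ≤ normalizer (K : Set Γ)
  cop : (Nat.card A).Coprime (Nat.card K)
  solv : Group.IsSolvable A
  mem : τ ∈ K
  ord : orderOf τ = 2
  cent : ∀ g ∈ K, g * τ = τ * g → ∀ a ∈ A, a * g = g * a

/-- the fixed points -/
def Fx {Γ : Type u} [Group Γ] (A K : Subgroup Γ) : Subgroup Γ := K ⊓ centralizer (A : Set Γ)

theorem mem_Fx {Γ : Type u} [Group Γ] {A K : Subgroup Γ} {g : Γ} :
    g ∈ Fx A K ↔ g ∈ K ∧ ∀ a ∈ A, a * g = g * a := by
  rw [Fx, mem_inf, mem_centralizer_iff]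
  rfl

/-- the conjugates of `τ` under `K` -/
def Cl {Γ : Type u} [Group Γ] (K : Subgroup Γ) (τ : Γ) : Set Γ := {x | ∃ g ∈ K, g * τ * g⁻¹ = x}

theorem conj_mem_Cl {Γ : Type u} [Group Γ] {K : Subgroup Γ} {τ x g : Γ} (hx : x ∈ Cl K τ)
    (hg : g ∈ K) : g * x * g⁻¹ ∈ Cl K τ := by
  obtain ⟨h, hh, rfl⟩ := hx
  exact ⟨g * h, K.mul_mem hg hh, by group⟩

namespace Hyp

variable {Γ : Type u} [Group Γ] [Finite Γ] {A K : Subgroup Γ} {τ : Γ}

theorem mul_self_of_orderOf {x : Γ} (hx : orderOf x = 2) : x * x = 1 := by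
  rw [← pow_two, ← hx, pow_orderOf_eq_one]

theorem orderOf_of_mem (h : Hyp A K τ) {x : Γ} (hx : x ∈ Cl K τ) : orderOf x = 2 := by
  obtain ⟨g, -, rfl⟩ := hx
  have : g * τ * g⁻¹ = MulAut.conj g τ := rfl
  rw [this, (MulAut.conj g).orderOf_eq, h.ord]

theorem mul_self (h : Hyp A K τ) {x : Γ} (hx : x ∈ Cl K τ) : x * x = 1 :=
  mul_self_of_orderOf (h.orderOf_of_mem hx)

theorem inv_eq (h : Hyp A K τ) {x : Γ} (hx : x ∈ Cl K τ) : x⁻¹ = x :=
  inv_eq_of_mul_eq_one_right (h.mul_self hx)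

theorem mem_K (h : Hyp A K τ) {x : Γ} (hx : x ∈ Cl K τ) : x ∈ K := by
  obtain ⟨g, hg, rfl⟩ := hx
  exact K.mul_mem (K.mul_mem hg h.mem) (K.inv_mem hg)

theorem τ_mem_Fx (h : Hyp A K τ) : τ ∈ Fx A K := mem_Fx.2 ⟨h.mem, h.cent τ h.mem rfl⟩

theorem τ_mem_Cl (_h : Hyp A K τ) : τ ∈ Cl K τ := ⟨1, K.one_mem, by group⟩

/-- fixed points control fusion of fixed points -/
theorem fus (h : Hyp A K τ) {x g : Γ} (hx : x ∈ Fx A K) (hg : g ∈ K)
    (hgx : g * x * g⁻¹ ∈ Fx A K) : ∃ c ∈ Fx A K, c * x * c⁻¹ = g * x * g⁻¹ := by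
  let act : MulAction Γ Γ := MulAction.compHom Γ (MulAut.conj : Γ →* MulAut Γ)
  obtain ⟨c, hc, hcx⟩ := @glauberman_conj Γ _ _ Γ act A K h.norm h.cop (Or.inl h.solv) x
    (g * x * g⁻¹) (fun a ha => by
      change a * x * a⁻¹ = x
      rw [(mem_Fx.1 hx).2 a ha, mul_inv_cancel_right])
    (fun a ha => by
      change a * (g * x * g⁻¹) * a⁻¹ = (g * x * g⁻¹)
      rw [(mem_Fx.1 hgx).2 a ha, mul_inv_cancel_right]) g hg rfl
  exact ⟨c, hc, hcx⟩

/-- the hypothesis for a conjugate of `τ` in the fixed points and an invariant subgroup -/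
theorem sub (h : Hyp A K τ) {x : Γ} (hx : x ∈ Cl K τ) (hxF : x ∈ Fx A K) {M : Subgroup Γ}
    (hMK : M ≤ K) (hM : A ≤ normalizer (M : Set Γ)) (hxM : x ∈ M) : Hyp A M x := by
  refine ⟨hM, Nat.Coprime.coprime_dvd_right (Subgroup.card_dvd_of_le hMK) h.cop, h.solv, hxM,
    h.orderOf_of_mem hx, ?_⟩
  intro g hg hgx a ha
  obtain ⟨g0, hg0, rfl⟩ := hx
  obtain ⟨c, hc, hcx⟩ := h.fus h.τ_mem_Fx hg0 hxF
  rw [← hcx] at hgx
  have hcK := (mem_Fx.1 hc).1
  have h1 : (c⁻¹ * g * c) * τ = τ * (c⁻¹ * g * c) := by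
    calc (c⁻¹ * g * c) * τ = c⁻¹ * (g * (c * τ * c⁻¹)) * c := by group
      _ = c⁻¹ * ((c * τ * c⁻¹) * g) * c := by rw [hgx]
      _ = τ * (c⁻¹ * g * c) := by group
  have h2 := h.cent _ (K.mul_mem (K.mul_mem (K.inv_mem hcK) (hMK hg)) hcK) h1 a ha
  have h3 := (mem_Fx.1 hc).2 a ha
  have h3' : Commute a c := h3
  have h4 : Commute a (c⁻¹ * g * c) := h2
  have h5 : Commute a (c * (c⁻¹ * g * c) * c⁻¹) := (h3'.mul_right h4).mul_right h3'.inv_right
  have e : c * (c⁻¹ * g * c) * c⁻¹ = g := by group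
  rw [e] at h5
  exact h5

/-- the centralizer of a conjugate in the fixed points is fixed -/
theorem mem_Fx_of_comm (h : Hyp A K τ) {x g : Γ} (hx : x ∈ Cl K τ) (hxF : x ∈ Fx A K)
    (hg : g ∈ K) (hgx : g * x = x * g) : g ∈ Fx A K :=
  mem_Fx.2 ⟨hg, (h.sub hx hxF le_rfl h.norm (mem_Fx.1 hxF).1).cent g hg hgx⟩

/-- invariant `2`-subgroups are fixed -/
theorem two_le_Fx (h : Hyp A K τ) {R : Subgroup Γ} (hRK : R ≤ K) (hR : IsPGroup 2 R)
    (hRA : A ≤ normalizer (R : Set Γ)) : R ≤ Fx A K := by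
  haveI : Fact (Nat.Prime 2) := ⟨Nat.prime_two⟩
  have hzp : IsPGroup 2 (zpowers τ) := H26.IsoInv.isPGroup_zpowers h.ord
  have hcomm : ∀ z ∈ zpowers τ, ∀ a ∈ A, a * z = z * a := by
    rintro z ⟨j, rfl⟩ a ha
    have : Commute a τ := h.cent τ h.mem rfl a ha
    exact this.zpow_right j
  have hzK : zpowers τ ≤ K := by rw [zpowers_le]; exact h.mem
  have hzn : A ≤ normalizer (zpowers τ : Set Γ) := by
    apply le_normalizer_of_conj_mem
    intro a ha k hk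
    rw [hcomm k hk a ha, mul_inv_cancel_right]; exact hk
  obtain ⟨S, hS, hτS, hSA⟩ := exists_invariant_sylow_ge A K h.norm h.cop (Or.inl h.solv) 2
    (zpowers τ) hzK hzp hzn
  have h2K : 2 ∣ Nat.card K := by
    rw [← h.ord, ← Subgroup.orderOf_mk τ h.mem]
    exact orderOf_dvd_natCard _
  have hA2 : (Nat.card A).Coprime 2 := Nat.Coprime.coprime_dvd_right h2K h.cop
  have hSc : A ≤ centralizer (S : Set Γ) := by
    apply pq_lemma 2 (zpowers τ) A hzp hA2 (by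
      intro z hz
      rw [mem_centralizer_iff]
      intro a ha
      exact hcomm z hz a ha) (Nat.card S) S rfl hS.isPGroup (hτS.trans Subgroup.le_normalizer) hSA
    intro g hg
    rw [mem_inf, mem_centralizer_iff] at hg
    rw [mem_centralizer_iff]
    intro a ha
    exact h.cent g (hS.1 hg.1) (hg.2 τ (mem_zpowers τ)).symm a ha
  obtain ⟨T, hT, hRT, hTA⟩ := exists_invariant_sylow_ge A K h.norm h.cop (Or.inl h.solv) 2
    R hRK hR hRA
  obtain ⟨c, hc, hcT⟩ := conj_invariant_sylow A K h.norm h.cop (Or.inl h.solv) 2 S T hS hT hSA hTA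
  intro r hr
  have hrT : r ∈ T := hRT hr
  rw [← hcT, Subgroup.mem_pointwise_smul_iff_inv_smul_mem] at hrT
  have hrT' : c⁻¹ * r * c ∈ S := by
    have e : (MulAut.conj c)⁻¹ • r = c⁻¹ * r * c := by
      rw [← map_inv, MulAut.smul_def, MulAut.conj_apply, inv_inv]
    rwa [e] at hrT
  rw [mem_Fx]
  refine ⟨hRK hr, fun a ha => ?_⟩
  have h1 : Commute a (c⁻¹ * r * c) := (mem_centralizer_iff.1 (hSc ha) _ hrT').symm
  have h2 : Commute a c := mem_centralizer_iff.1 hc.2 a ha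
  have h3 : Commute a (c * (c⁻¹ * r * c) * c⁻¹) := (h2.mul_right h1).mul_right h2.inv_right
  have e : c * (c⁻¹ * r * c) * c⁻¹ = r := by group
  rw [e] at h3
  exact h3

/-- a conjugate in two conjugates of the fixed points -/
theorem mem_Fx_of_conj (h : Hyp A K τ) {x y : Γ} (hx : x ∈ Cl K τ) (hxF : x ∈ Fx A K)
    (hy : y ∈ K) (hyx : y * x * y⁻¹ ∈ Fx A K) : y ∈ Fx A K := by
  obtain ⟨c, hc, hcx⟩ := h.fus hxF hy hyx
  have h1 : (c⁻¹ * y) * x = x * (c⁻¹ * y) := by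
    calc (c⁻¹ * y) * x = c⁻¹ * (y * x * y⁻¹) * y := by group
      _ = c⁻¹ * (c * x * c⁻¹) * y := by rw [hcx]
      _ = x * (c⁻¹ * y) := by group
  have h2 := h.mem_Fx_of_comm hx hxF (K.mul_mem (K.inv_mem (mem_Fx.1 hc).1) hy) h1
  have e : y = c * (c⁻¹ * y) := by group
  rw [e]
  exact (Fx A K).mul_mem hc h2

end Hyp

/-- number of conjugates under a subgroup -/
theorem ncard_Cl {Γ : Type u} [Group Γ] [Finite Γ] (H : Subgroup Γ) (x : Γ) :
    (Cl H x).ncard = (H ⊓ centralizer {x}).relIndex H := by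
  letI : MulAction H Γ := MulAction.compHom Γ ((MulAut.conj : Γ →* MulAut Γ).comp H.subtype)
  have hs : ∀ (a : H) (y : Γ), a • y = (a : Γ) * y * (a : Γ)⁻¹ := fun a y => rfl
  have h1 : MulAction.orbit H x = Cl H x := by
    ext z
    constructor
    · rintro ⟨g, rfl⟩
      exact ⟨g, g.2, rfl⟩
    · rintro ⟨g, hg, rfl⟩
      exact ⟨⟨g, hg⟩, rfl⟩
  have h2 : MulAction.stabilizer H x = (H ⊓ centralizer {x}).subgroupOf H := by
    ext g
    rw [MulAction.mem_stabilizer_iff, hs, mul_inv_eq_iff_eq_mul, mem_subgroupOf, mem_inf,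
      mem_centralizer_singleton_iff]
    exact ⟨fun hh => ⟨g.2, hh⟩, fun hh => hh.2⟩
  rw [← h1, ← MulAction.index_stabilizer, h2]
  rfl

end H73.InvCent
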