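import Cfsg.Agent.Lib.H73.InvCent1
import Cfsg.Agent.Lib.H13.Cores
import Cfsg.Agent.Lib.H39.SylowAux

set_option autoImplicit false

/-! Coprime action centralizing the centralizer of an involution: the main argument. -/

universe u

namespace H73.InvCent

open Subgroup H1.Coprime H1.Coprime2
open scoped Pointwise commutatorElement

section quot

variable {Γ : Type u} [Group Γ] [Finite Γ]

theorem odd_of_quot (A W N : Subgroup Γ) [N.Normal] (hWA : A ≤ normalizer (W : Set Γ))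
    (hW : W ≤ ⁅W, A⁆) (hNA : ∀ n ∈ N, ∀ a ∈ A, a * n = n * a) (hNW : ∀ n ∈ N, ∀ w ∈ W, w * n = n * w)
    (hodd : Odd (Nat.card (W.map (QuotientGroup.mk' N)))) : Odd (Nat.card W) := by
  haveI : Fact (Nat.Prime 2) := ⟨Nat.prime_two⟩
  have hpN : ∀ (P : Sylow 2 W) (x : W), x ∈ P → (x : Γ) ∈ N := by
    intro P x hx
    have h1 : orderOf (QuotientGroup.mk' N (x : Γ)) ∣ Nat.card (W.map (QuotientGroup.mk' N)) := by
      rw [← Subgroup.orderOf_mk (QuotientGroup.mk' N (x : Γ)) (mem_map_of_mem _ x.2)]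
      exact orderOf_dvd_natCard _
    obtain ⟨k, hk⟩ := P.2 ⟨x, hx⟩
    have hk' : (x : Γ) ^ 2 ^ k = 1 := by
      have := congrArg (fun z : P => ((z : W) : Γ)) hk
      simpa using this
    have h2 : orderOf (QuotientGroup.mk' N (x : Γ)) ∣ 2 ^ k := by
      apply orderOf_dvd_of_pow_eq_one
      rw [← map_pow, hk', map_one]
    have h3 : Nat.Coprime (2 ^ k) (Nat.card (W.map (QuotientGroup.mk' N))) :=
      Nat.Coprime.pow_left k (Nat.coprime_two_left.2 hodd)
    have h4 := Nat.dvd_gcd h2 h1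
    rw [h3] at h4
    have h5 : QuotientGroup.mk' N (x : Γ) = 1 := orderOf_eq_one_iff.1 (Nat.dvd_one.1 h4)
    exact (QuotientGroup.eq_one_iff _).1 h5
  obtain ⟨P0⟩ : Nonempty (Sylow 2 W) := inferInstance
  have hnp : Cfsg.HasNormalPComplement 2 W := by
    apply H39.SylowAux.pNilp_of_central (P0 : Subgroup W) ?_ P0.2 P0.not_dvd_index
    intro x hx
    rw [mem_center_iff]
    intro g
    exact Subtype.ext (hNW _ (hpN P0 x hx) g g.2)
  obtain ⟨P, N', hN'n, hN'c⟩ := hnp
  have hidx : N'.index = Nat.card P := hN'c.symm.index_eq_card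
  obtain ⟨j, hj⟩ := IsPGroup.iff_card.1 P.2
  have hN'odd : Odd (Nat.card N') := by
    have h1 : (P : Subgroup W).index = Nat.card N' := hN'c.index_eq_card
    have h2 := P.not_dvd_index
    rw [h1] at h2
    exact Nat.odd_iff.2 (by omega)
  -- odd order elements lie in N'
  have hmem : ∀ x : W, Odd (orderOf x) → x ∈ N' := by
    intro x hx
    have h1 : orderOf (QuotientGroup.mk' N' x) ∣ orderOf x := orderOf_map_dvd _ _
    have h2 : orderOf (QuotientGroup.mk' N' x) ∣ 2 ^ j := by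
      rw [← hj]
      have : Nat.card P = N'.index := hidx.symm
      rw [this, Subgroup.index_eq_card]
      exact orderOf_dvd_natCard _
    have h3 : Nat.Coprime (2 ^ j) (orderOf x) := Nat.Coprime.pow_left j (Nat.coprime_two_left.2 hx)
    have h4 := Nat.dvd_gcd h2 h1
    rw [h3] at h4
    have h5 : QuotientGroup.mk' N' x = 1 := orderOf_eq_one_iff.1 (Nat.dvd_one.1 h4)
    exact (QuotientGroup.eq_one_iff _).1 h5
  have hWN' : W ≤ N'.map W.subtype := by
    refine hW.trans ?_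
    rw [Subgroup.commutator_le]
    intro w hw a ha
    have hw' : (⟨w, hw⟩ : W) ∈ (⊤ : Subgroup W) := mem_top _
    obtain ⟨⟨n, p⟩, hnp⟩ := hN'c.2 ⟨w, hw⟩
    have hnp' : ((n : W) : Γ) * ((p : W) : Γ) = w := congrArg Subtype.val hnp
    have hpa := hNA _ (hpN P p p.2) a ha
    have hn1 : a * ((n : W) : Γ)⁻¹ * a⁻¹ ∈ W := conj_mem_of_le_normalizer hWA ha (W.inv_mem (n : W).2)
    have hn2 : (⟨a * ((n : W) : Γ)⁻¹ * a⁻¹, hn1⟩ : W) ∈ N' := by
      apply hmem
      rw [Subgroup.orderOf_mk]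
      have e : a * ((n : W) : Γ)⁻¹ * a⁻¹ = MulAut.conj a (((n : W) : Γ)⁻¹) := rfl
      rw [e, (MulAut.conj a).orderOf_eq, orderOf_inv, Subgroup.orderOf_coe, Subgroup.orderOf_coe]
      exact Odd.of_dvd_nat hN'odd (orderOf_dvd_natCard _)
    refine ⟨(n : W) * ⟨a * ((n : W) : Γ)⁻¹ * a⁻¹, hn1⟩, N'.mul_mem n.2 hn2, ?_⟩
    change ((n : W) : Γ) * (a * ((n : W) : Γ)⁻¹ * a⁻¹) = ⁅w, a⁆
    rw [commutatorElement_def, ← hnp']
    have e2 : ((n : W) : Γ) * ((p : W) : Γ) * a * (((n : W) : Γ) * ((p : W) : Γ))⁻¹ * a⁻¹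
        = ((n : W) : Γ) * (((p : W) : Γ) * a * ((p : W) : Γ)⁻¹) * ((n : W) : Γ)⁻¹ * a⁻¹ := by group
    rw [e2, ← hpa, mul_inv_cancel_right]
    group
  have hcard : Nat.card W ∣ Nat.card N' :=
    (Subgroup.card_dvd_of_le hWN').trans (Subgroup.card_map_dvd _ _)
  exact Odd.of_dvd_nat hN'odd hcard

end quot

namespace Hyp

variable {Γ : Type u} [Group Γ] [Finite Γ] {A K : Subgroup Γ} {τ : Γ}

theorem quot (h : Hyp A K τ) (N : Subgroup Γ) [N.Normal] (hN : N ≤ Fx A K) (hτN : τ ∉ N) :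
    Hyp (A.map (QuotientGroup.mk' N)) (K.map (QuotientGroup.mk' N)) (QuotientGroup.mk' N τ) := by
  refine ⟨?_, ?_, ?_, mem_map_of_mem _ h.mem, ?_, ?_⟩
  · apply le_normalizer_of_conj_mem
    rintro _ ⟨a, ha, rfl⟩ _ ⟨k, hk, rfl⟩
    exact ⟨a * k * a⁻¹, conj_mem_of_le_normalizer h.norm ha hk, by simp⟩
  · exact Nat.Coprime.coprime_dvd_left (Subgroup.card_map_dvd _ _)
      (Nat.Coprime.coprime_dvd_right (Subgroup.card_map_dvd _ _) h.cop)
  · haveI := h.solv
    exact solvable_of_surjective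
      ((QuotientGroup.mk' N).subgroupMap_surjective A)
  · apply orderOf_eq_prime
    · rw [← map_pow, pow_two, mul_self_of_orderOf h.ord, map_one]
    · intro hc
      exact hτN ((QuotientGroup.eq_one_iff _).1 hc)
  · rintro _ ⟨g, hg, rfl⟩ hgτ _ ⟨a, ha, rfl⟩
    have hNA : ∀ n ∈ N, ∀ a ∈ A, a * n = n * a := fun n hn a ha => (mem_Fx.1 (hN hn)).2 a ha
    -- g τ g⁻¹ = ν τ
    have hν : g * τ * g⁻¹ * τ⁻¹ ∈ N := by
      rw [← QuotientGroup.eq_one_iff]
      have h1 : QuotientGroup.mk' N (g * τ * g⁻¹ * τ⁻¹) = 1 := by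
        rw [map_mul, map_mul, map_mul, map_inv, map_inv, hgτ]
        group
      exact h1
    have hc1 : ∀ b ∈ A, b * (g * τ * g⁻¹) = (g * τ * g⁻¹) * b := by
      intro b hb
      have k1 : Commute b (g * τ * g⁻¹ * τ⁻¹) := hNA _ hν b hb
      have k2 : Commute b τ := h.cent τ h.mem rfl b hb
      have k3 := k1.mul_right k2
      rw [inv_mul_cancel_right] at k3
      exact k3
    -- c = g⁻¹ a g a⁻¹ lies in Fx
    have hcF : g⁻¹ * a * g * a⁻¹ ∈ Fx A K := by
      apply h.mem_Fx_of_comm h.τ_mem_Cl h.τ_mem_Fx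
      · have h1 := conj_mem_of_le_normalizer h.norm ha hg
        have h2 := K.mul_mem (K.inv_mem hg) h1
        have e : g⁻¹ * (a * g * a⁻¹) = g⁻¹ * a * g * a⁻¹ := by group
        rwa [e] at h2
      · have k2 : Commute a⁻¹ τ := by
          have : Commute a τ := h.cent τ h.mem rfl a ha
          exact this.inv_left
        have k3 := hc1 a ha
        calc g⁻¹ * a * g * a⁻¹ * τ = g⁻¹ * a * g * (a⁻¹ * τ) := by group
          _ = g⁻¹ * a * g * (τ * a⁻¹) := by rw [k2.eq]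
          _ = g⁻¹ * (a * (g * τ * g⁻¹)) * g * a⁻¹ := by group
          _ = g⁻¹ * ((g * τ * g⁻¹) * a) * g * a⁻¹ := by rw [k3]
          _ = τ * (g⁻¹ * a * g * a⁻¹) := by group
    have hc1' : g⁻¹ * a * g * a⁻¹ = 1 := by
      have k1 : Commute (g⁻¹ * a * g * a⁻¹) a := ((mem_Fx.1 hcF).2 a ha).symm
      have k2 : (g⁻¹ * a * g * a⁻¹) * a = g⁻¹ * a * g := by group
      have hApow : a ^ Nat.card A = 1 := by
        have := pow_card_eq_one' (x := (⟨a, ha⟩ : A))
        exact congrArg Subtype.val this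
      have h1 : (g⁻¹ * a * g * a⁻¹) ^ Nat.card A = 1 := by
        have h2 : ((g⁻¹ * a * g * a⁻¹) * a) ^ Nat.card A = 1 := by
          rw [k2]
          have e : g⁻¹ * a * g = g⁻¹ * a * g⁻¹⁻¹ := by group
          rw [e, conj_pow, hApow]; group
        rw [k1.mul_pow, hApow, mul_one] at h2
        exact h2
      have h3 : (g⁻¹ * a * g * a⁻¹) ^ Nat.card K = 1 := by
        have := pow_card_eq_one' (x := (⟨g⁻¹ * a * g * a⁻¹, (mem_Fx.1 hcF).1⟩ : K))
        exact congrArg Subtype.val this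
      have h4 : orderOf (g⁻¹ * a * g * a⁻¹) ∣ Nat.gcd (Nat.card A) (Nat.card K) :=
        Nat.dvd_gcd (orderOf_dvd_of_pow_eq_one h1) (orderOf_dvd_of_pow_eq_one h3)
      rw [h.cop] at h4
      exact orderOf_eq_one_iff.1 (Nat.dvd_one.1 h4)
    have : a * g = g * a := by
      have e : a * g = g * (g⁻¹ * a * g * a⁻¹) * a := by group
      rw [e, hc1', mul_one]
    rw [← map_mul, this, map_mul]

theorem quot_case (h : Hyp A K τ) (N : Subgroup Γ) [N.Normal] (hN : N ≤ Fx A K) (hτN : τ ∉ N)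
    (hodd : Odd (Nat.card (⁅K.map (QuotientGroup.mk' N), A.map (QuotientGroup.mk' N)⁆ : Subgroup (Γ ⧸ N)))) :
    Odd (Nat.card (⁅K, A⁆ : Subgroup Γ)) := by
  have hNA : ∀ n ∈ N, ∀ a ∈ A, a * n = n * a := fun n hn a ha => (mem_Fx.1 (hN hn)).2 a ha
  apply odd_of_quot A ⁅K, A⁆ N (le_normalizer_commutator_right K A)
    (commutator_commutator_eq A K h.norm h.cop (Or.inl h.solv)).ge hNA
  · intro n hn w hw
    have hle : ⁅K, A⁆ ≤ centralizer (N : Set Γ) := by
      rw [Subgroup.commutator_le]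
      intro g hg a ha
      rw [mem_centralizer_iff]
      intro n hn
      have hn' : g⁻¹ * n * g ∈ N := by
        have := (inferInstance : N.Normal).conj_mem n hn g⁻¹
        rwa [inv_inv] at this
      have k1 : a⁻¹ * n = n * a⁻¹ := by
        have : Commute a n := hNA n hn a ha
        exact this.inv_left
      have k2 : a * (g⁻¹ * n * g) = (g⁻¹ * n * g) * a := hNA _ hn' a ha
      rw [commutatorElement_def]
      symm
      calc g * a * g⁻¹ * a⁻¹ * n = g * a * g⁻¹ * (a⁻¹ * n) := by group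
        _ = g * a * g⁻¹ * (n * a⁻¹) := by rw [k1]
        _ = g * (a * (g⁻¹ * n * g)) * g⁻¹ * a⁻¹ := by group
        _ = g * ((g⁻¹ * n * g) * a) * g⁻¹ * a⁻¹ := by rw [k2]
        _ = n * (g * a * g⁻¹ * a⁻¹) := by group
    exact (mem_centralizer_iff.1 (hle hw) n hn).symm
  · rw [Subgroup.map_commutator]
    exact hodd

/-- the case where `τ` is the only conjugate of itself among the fixed points -/
theorem zstar_case (h : Hyp A K τ) (hn : ∀ x ∈ Cl K τ, x ∈ Fx A K → x = τ) :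
    Odd (Nat.card (⁅K, A⁆ : Subgroup Γ)) := by
  haveI : Fact (Nat.Prime 2) := ⟨Nat.prime_two⟩
  obtain ⟨S, hS, hSA⟩ := exists_invariant_sylow A K h.norm h.cop (Or.inl h.solv) 2
  have hSF := h.two_le_Fx hS.1 hS.isPGroup hSA
  obtain ⟨P, hP⟩ := hS.exists_sylow
  have ht : orderOf (⟨τ, h.mem⟩ : K) = 2 := by rw [Subgroup.orderOf_mk, h.ord]
  have hiso : H5.ZStar1.IsoInv (⟨τ, h.mem⟩ : K) := by
    apply H5.ZStar1.IsoInv.of_sylow P ht
    intro g hg
    apply Subtype.ext
    apply hn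
    · exact ⟨g, g.2, rfl⟩
    · apply hSF
      rw [← hP]
      exact mem_map_of_mem _ hg
  have hz := H5.ZStar.zstar hiso
  have hOodd : Odd (Nat.card (Cfsg.pPrimeCore 2 K)) := by
    have := H1.Cores.coprime_card_pPrimeCore (G := K) 2
    rwa [Nat.coprime_two_right] at this
  have hchar := H1.Cores.pPrimeCore_characteristic (G := K) 2
  have hOA : A ≤ normalizer (((Cfsg.pPrimeCore 2 K).map K.subtype : Subgroup Γ) : Set Γ) :=
    h.norm.trans (H13.Cores.normalizer_le_normalizer_map K (Cfsg.pPrimeCore 2 K))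
  have hle : ⁅K, A⁆ ≤ (Cfsg.pPrimeCore 2 K).map K.subtype := by
    rw [Subgroup.commutator_le]
    intro g hg a ha
    obtain ⟨k, hk, c, hc, hgc⟩ := H26.IsoInv.exists_mul ht hOodd (by
      intro g
      have h1 := hz g
      have e : (⟨τ, h.mem⟩ : K)⁻¹ = ⟨τ, h.mem⟩ := hiso.inv_eq
      have e2 : (⟨τ, h.mem⟩ : K) * g * (⟨τ, h.mem⟩ : K)⁻¹ * g⁻¹
        = ⟨τ, h.mem⟩ * (g * ⟨τ, h.mem⟩ * g⁻¹) := by rw [e]; group
      rw [e2]
      exact h1) ⟨g, hg⟩
    have hgc' : g = (k : Γ) * (c : Γ) := congrArg Subtype.val hgc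
    have hcF : (c : Γ) * τ = τ * c := by
      have := mem_centralizer_singleton_iff.1 hc
      exact congrArg Subtype.val this
    have hca := h.cent c c.2 hcF a ha
    have hk1 : (k : Γ) ∈ (Cfsg.pPrimeCore 2 K).map K.subtype := mem_map_of_mem _ hk
    have hk2 := conj_mem_of_le_normalizer hOA ha (inv_mem hk1)
    have e : ⁅g, a⁆ = (k : Γ) * (a * (k : Γ)⁻¹ * a⁻¹) := by
      rw [commutatorElement_def, hgc']
      have e2 : (k : Γ) * (c : Γ) * a * ((k : Γ) * (c : Γ))⁻¹ * a⁻¹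
        = (k : Γ) * ((c : Γ) * a * (c : Γ)⁻¹) * (k : Γ)⁻¹ * a⁻¹ := by group
      rw [e2, ← hca, mul_inv_cancel_right]
      group
    rw [e]
    exact mul_mem hk1 hk2
  have hcard : Nat.card (⁅K, A⁆ : Subgroup Γ) ∣ Nat.card (Cfsg.pPrimeCore 2 K) :=
    (Subgroup.card_dvd_of_le hle).trans (Subgroup.card_map_dvd _ _)
  exact Odd.of_dvd_nat hOodd hcard

/-- the intersection of the fixed points with a conjugate -/
def DD (A K : Subgroup Γ) (y : Γ) : Subgroup Γ :=
  Fx A K ⊓ (Fx A K).comap (MulAut.conj y).toMonoidHom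

omit [Finite Γ] in
theorem mem_DD {y d : Γ} : d ∈ DD A K y ↔ d ∈ Fx A K ∧ y * d * y⁻¹ ∈ Fx A K := Iff.rfl

theorem mstep (h : Hyp A K τ) {y : Γ} (hy : y ∈ Cl K τ) (hyF : y ∉ Fx A K)
    (IH : ∀ (M : Subgroup Γ) (x : Γ), Hyp A M x → Nat.card M < Nat.card K → Odd (Nat.card (⁅M, A⁆ : Subgroup Γ)))
    (NN : ∀ N : Subgroup Γ, N ≤ Fx A K → K ≤ normalizer (N : Set Γ) → τ ∉ N → N = ⊥) :
    DD A K y = ⊥ ∨ (∃ x ∈ Cl K τ, x ∈ Fx A K ∧ ∃ w ∈ K, y = w * x * w⁻¹ ∧
      ∀ d ∈ DD A K y, w * d = d * w) := by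
  haveI : Fact (Nat.Prime 2) := ⟨Nat.prime_two⟩
  have hyK := h.mem_K hy
  have hyy := h.mul_self hy
  have hyinv := h.inv_eq hy
  have hDy : ∀ d ∈ DD A K y, y * d * y⁻¹ ∈ DD A K y := by
    intro d hd
    rw [mem_DD] at hd ⊢
    refine ⟨hd.2, ?_⟩
    have e : y * (y * d * y⁻¹) * y⁻¹ = d := by
      calc y * (y * d * y⁻¹) * y⁻¹ = (y * y) * d * (y * y)⁻¹ := by group
        _ = d := by rw [hyy]; group
    rw [e]; exact hd.1
  have hyyd : ∀ d : Γ, y * (y * d * y⁻¹) * y⁻¹ = d := by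
    intro d
    calc y * (y * d * y⁻¹) * y⁻¹ = (y * y) * d * (y * y)⁻¹ := by group
        _ = d := by rw [hyy]; group
  set M : Subgroup Γ := Subgroup.closure {z | ∃ a ∈ A, z = a * y * a⁻¹} with hM
  have hgen : ∀ a ∈ A, a * y * a⁻¹ ∈ M := fun a ha => Subgroup.subset_closure ⟨a, ha, rfl⟩
  have hyM : y ∈ M := by
    have := hgen 1 A.one_mem
    simpa using this
  have hMK : M ≤ K := by
    rw [hM, Subgroup.closure_le]
    rintro z ⟨a, ha, rfl⟩
    exact conj_mem_of_le_normalizer h.norm ha hyK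
  have hMA : A ≤ normalizer (M : Set Γ) := by
    apply le_normalizer_of_conj_mem
    intro a ha m hm
    rw [hM] at hm
    induction hm using Subgroup.closure_induction with
    | mem z hz =>
      obtain ⟨b, hb, rfl⟩ := hz
      have e : a * (b * y * b⁻¹) * a⁻¹ = (a * b) * y * (a * b)⁻¹ := by group
      rw [e]; exact hgen _ (A.mul_mem ha hb)
    | one => simp
    | mul z w _ _ hz hw =>
      have e : a * (z * w) * a⁻¹ = (a * z * a⁻¹) * (a * w * a⁻¹) := by group
      rw [e]; exact M.mul_mem hz hw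
    | inv z _ hz =>
      have e : a * z⁻¹ * a⁻¹ = (a * z * a⁻¹)⁻¹ := by group
      rw [e]; exact M.inv_mem hz
  have hact : ∀ m ∈ M, (∀ d ∈ DD A K y, m * d * m⁻¹ = d) ∨
      (∀ d ∈ DD A K y, m * d * m⁻¹ = y * d * y⁻¹) := by
    intro m hm
    rw [hM] at hm
    induction hm using Subgroup.closure_induction with
    | mem z hz =>
      obtain ⟨a, ha, rfl⟩ := hz
      right
      intro d hd
      have k1 : a * d = d * a := (mem_Fx.1 hd.1).2 a ha
      have k2 : a * (y * d * y⁻¹) = (y * d * y⁻¹) * a := (mem_Fx.1 (mem_DD.1 hd).2).2 a ha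
      have k3 : a⁻¹ * d * a = d := by
        rw [mul_assoc, ← k1, inv_mul_cancel_left]
      calc a * y * a⁻¹ * d * (a * y * a⁻¹)⁻¹ = a * (y * (a⁻¹ * d * a) * y⁻¹) * a⁻¹ := by group
        _ = a * (y * d * y⁻¹) * a⁻¹ := by rw [k3]
        _ = y * d * y⁻¹ := by rw [k2, mul_inv_cancel_right]
    | one => left; intro d _; simp
    | mul z w _ _ hz hw =>
      rcases hz with hz | hz <;> rcases hw with hw | hw
      · left; intro d hd
        have e : z * w * d * (z * w)⁻¹ = z * (w * d * w⁻¹) * z⁻¹ := by group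
        rw [e, hw d hd, hz d hd]
      · right; intro d hd
        have e : z * w * d * (z * w)⁻¹ = z * (w * d * w⁻¹) * z⁻¹ := by group
        rw [e, hw d hd, hz _ (hDy d hd)]
      · right; intro d hd
        have e : z * w * d * (z * w)⁻¹ = z * (w * d * w⁻¹) * z⁻¹ := by group
        rw [e, hw d hd, hz d hd]
      · left; intro d hd
        have e : z * w * d * (z * w)⁻¹ = z * (w * d * w⁻¹) * z⁻¹ := by group
        rw [e, hw d hd, hz _ (hDy d hd), hyyd]
    | inv z _ hz =>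
      rcases hz with hz | hz
      · left; intro d hd
        have := hz d hd
        calc z⁻¹ * d * z⁻¹⁻¹ = z⁻¹ * (z * d * z⁻¹) * z := by rw [this]; group
          _ = d := by group
      · right; intro d hd
        have := hz _ (hDy d hd)
        rw [hyyd] at this
        calc z⁻¹ * d * z⁻¹⁻¹ = z⁻¹ * (z * (y * d * y⁻¹) * z⁻¹) * z := by rw [this]; group
          _ = y * d * y⁻¹ := by group
  by_cases hMeq : M = K
  · left
    apply NN _ inf_le_left
    · apply le_normalizer_of_conj_mem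
      intro m hm d hd
      have hm' : m ∈ M := by rw [hMeq]; exact hm
      rcases hact m hm' with hh | hh
      · rw [hh d hd]; exact hd
      · rw [hh d hd]; exact hDy d hd
    · intro hc
      exact hyF (h.mem_Fx_of_conj h.τ_mem_Cl h.τ_mem_Fx hyK (mem_DD.1 hc).2)
  · right
    have hcard : Nat.card M < Nat.card K := by
      have := Set.ncard_lt_ncard (s := (M : Set Γ)) (t := (K : Set Γ))
        (lt_of_le_of_ne hMK (fun hc => hMeq (SetLike.coe_injective hc))) (Set.toFinite _)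
      exact this
    have hcopM : (Nat.card A).Coprime (Nat.card M) :=
      Nat.Coprime.coprime_dvd_right (Subgroup.card_dvd_of_le hMK) h.cop
    obtain ⟨R, hR, hRA⟩ := exists_invariant_sylow A M hMA hcopM (Or.inl h.solv) 2
    have hRF := h.two_le_Fx (hR.1.trans hMK) hR.isPGroup hRA
    have hzy : IsPGroup 2 (zpowers y) := H26.IsoInv.isPGroup_zpowers (h.orderOf_of_mem hy)
    have hyzM : zpowers y ≤ M := by rw [zpowers_le]; exact hyM
    have hbs : Group.IsSolvable (⊥ : Subgroup Γ) := inferInstance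
    obtain ⟨S, hS, hyS, -⟩ := exists_invariant_sylow_ge ⊥ M bot_le
      (by rw [Subgroup.card_bot]; exact Nat.coprime_one_left _) (Or.inl hbs) 2
      (zpowers y) hyzM hzy bot_le
    obtain ⟨k, hk, hkS⟩ := hS.conj hR
    have hx' : k * y * k⁻¹ ∈ R := by
      rw [← hkS]
      exact ⟨y, hyS (mem_zpowers y), rfl⟩
    have hx'C : k * y * k⁻¹ ∈ Cl K τ := conj_mem_Cl hy (hMK hk)
    have hHyp := h.sub hx'C (hRF hx') hMK hMA (hR.1 hx')
    have hodd := IH M _ hHyp hcard
    obtain ⟨w, hw, c, hc, hwc⟩ := exists_mul_of_mem A M hMA hcopM (Or.inl h.solv) (M.inv_mem hk)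
    have hwM : w ∈ M := commutator_le_left hMA hw
    have hcF : c ∈ Fx A K := ⟨hMK hc.1, hc.2⟩
    refine ⟨c * (k * y * k⁻¹) * c⁻¹, conj_mem_Cl hx'C (mem_Fx.1 hcF).1,
      (Fx A K).mul_mem ((Fx A K).mul_mem hcF (hRF hx')) ((Fx A K).inv_mem hcF), w, hMK hwM, ?_, ?_⟩
    · have e : w * (c * (k * y * k⁻¹) * c⁻¹) * w⁻¹ = (w * c) * k * y * (w * c * k)⁻¹ := by group
      rw [e, ← hwc]; group
    · have hwn : w ^ Nat.card (⁅M, A⁆ : Subgroup Γ) = 1 := by
        have := pow_card_eq_one' (x := (⟨w, hw⟩ : (⁅M, A⁆ : Subgroup Γ)))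
        exact congrArg Subtype.val this
      obtain ⟨j, hj⟩ := hodd
      intro d hd
      rcases hact w hwM with hh | hh
      · have := hh d hd
        rwa [mul_inv_eq_iff_eq_mul] at this
      · have hpow : ∀ i : ℕ, w ^ (2 * i) * d * (w ^ (2 * i))⁻¹ = d := by
          intro i
          induction i with
          | zero => simp
          | succ i ih =>
            have e : w ^ (2 * (i + 1)) * d * (w ^ (2 * (i + 1)))⁻¹
              = w * (w * (w ^ (2 * i) * d * (w ^ (2 * i))⁻¹) * w⁻¹) * w⁻¹ := by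
              have : 2 * (i + 1) = 1 + (1 + 2 * i) := by ring
              rw [this, pow_add, pow_add, pow_one]; group
            rw [e, ih, hh d hd, hh _ (hDy d hd), hyyd]
        have h1 : y * d * y⁻¹ = d := by
          rw [hj] at hwn
          have e : w ^ (2 * j + 1) * d * (w ^ (2 * j + 1))⁻¹
              = w * (w ^ (2 * j) * d * (w ^ (2 * j))⁻¹) * w⁻¹ := by
            rw [pow_add, pow_one, ← pow_succ, pow_succ']; group
          rw [hpow j, hh d hd, hwn] at e
          rw [← e]; group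
        have := hh d hd
        rw [h1, mul_inv_eq_iff_eq_mul] at this
        exact this

end Hyp

end H73.InvCent
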