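import Cfsg.Agent.Lib.H73.InvCent2

set_option autoImplicit false

/-! If `A` acts coprimely on `K` and centralizes `C_K(τ)` for an involution `τ ∈ K`, then
`[K, A]` has odd order. -/

universe u

namespace H73.InvCent

open Subgroup H1.Coprime H1.Coprime2
open scoped Pointwise commutatorElement

namespace Hyp

variable {Γ : Type u} [Group Γ] [Finite Γ] {A K : Subgroup Γ} {τ : Γ}

omit [Finite Γ] in
/-- conjugates of `τ` in the coset `g C` -/
def Fib (A K : Subgroup Γ) (τ g : Γ) : Set Γ := {x | x ∈ Cl K τ ∧ g⁻¹ * x ∈ Fx A K}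

theorem cl_inter (h : Hyp A K τ) : Cl (Fx A K) τ = Cl K τ ∩ (Fx A K : Set Γ) := by
  ext x
  constructor
  · rintro ⟨g, hg, rfl⟩
    exact ⟨⟨g, (mem_Fx.1 hg).1, rfl⟩,
      (Fx A K).mul_mem ((Fx A K).mul_mem hg h.τ_mem_Fx) ((Fx A K).inv_mem hg)⟩
  · rintro ⟨⟨g, hg, rfl⟩, hx⟩
    obtain ⟨c, hc, hcx⟩ := h.fus h.τ_mem_Fx hg hx
    exact ⟨c, hc, hcx⟩

theorem ncard_eq (h : Hyp A K τ) :
    (Cl K τ).ncard = (Cl K τ ∩ (Fx A K : Set Γ)).ncard * (Fx A K).relIndex K := by
  rw [← h.cl_inter, ncard_Cl, ncard_Cl]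
  have hFK : Fx A K ≤ K := inf_le_left
  have e : Fx A K ⊓ centralizer {τ} = K ⊓ centralizer {τ} := by
    apply le_antisymm
    · exact inf_le_inf_right _ hFK
    · intro g hg
      refine ⟨?_, hg.2⟩
      exact h.mem_Fx_of_comm h.τ_mem_Cl h.τ_mem_Fx hg.1 (mem_centralizer_singleton_iff.1 hg.2)
  rw [e]
  have h1 : K ⊓ centralizer {τ} ≤ Fx A K := by rw [← e]; exact inf_le_left
  exact (Subgroup.relIndex_mul_relIndex _ _ _ h1 hFK).symm

theorem inter_pos (h : Hyp A K τ) : 0 < (Cl K τ ∩ (Fx A K : Set Γ)).ncard :=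
  (Set.ncard_pos (Set.toFinite _)).2 ⟨τ, h.τ_mem_Cl, h.τ_mem_Fx⟩

/-- the relation between `y` and the element of its fibre -/
theorem fib_facts (h : Hyp A K τ) {y z : Γ} (hy : y ∈ Cl K τ) (hz : z ∈ Fib A K τ y) :
    y⁻¹ * z ∈ DD A K y := by
  have hyy := h.mul_self hy
  have hyinv := h.inv_eq hy
  refine mem_DD.2 ⟨hz.2, ?_⟩
  have hzz := h.mul_self hz.1
  have hzinv := h.inv_eq hz.1
  have e : y * (y⁻¹ * z) * y⁻¹ = (y⁻¹ * z)⁻¹ := by
    calc y * (y⁻¹ * z) * y⁻¹ = z * y⁻¹ := by group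
      _ = z * y := by rw [hyinv]
      _ = z⁻¹ * y := by rw [hzinv]
      _ = (y⁻¹ * z)⁻¹ := by group
  rw [e]
  exact (Fx A K).inv_mem hz.2

theorem fib_eq_of_mem (_h : Hyp A K τ) {g y : Γ} (hy : y ∈ Fib A K τ g) :
    Fib A K τ g = Fib A K τ y := by
  have h1 := hy.2
  ext x
  constructor
  · rintro ⟨hx, hx2⟩
    refine ⟨hx, ?_⟩
    have e : y⁻¹ * x = (g⁻¹ * y)⁻¹ * (g⁻¹ * x) := by group
    rw [e]; exact (Fx A K).mul_mem ((Fx A K).inv_mem h1) hx2
  · rintro ⟨hx, hx2⟩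
    refine ⟨hx, ?_⟩
    have e : g⁻¹ * x = (g⁻¹ * y) * (y⁻¹ * x) := by group
    rw [e]; exact (Fx A K).mul_mem h1 hx2

theorem fib_of_bot (h : Hyp A K τ) {y : Γ} (hy : y ∈ Cl K τ) (hD : DD A K y = ⊥) :
    Fib A K τ y = {y} := by
  ext z
  rw [Set.mem_singleton_iff]
  constructor
  · intro hz
    have := h.fib_facts hy hz
    rw [hD, mem_bot, inv_mul_eq_one] at this
    exact this.symm
  · rintro rfl
    exact ⟨hy, by rw [inv_mul_cancel]; exact (Fx A K).one_mem⟩

theorem fib_maps (h : Hyp A K τ) {y x w : Γ} (hy : y ∈ Cl K τ) (hxF : x ∈ Fx A K) (hw : w ∈ K)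
    (hyw : y = w * x * w⁻¹) (hD : ∀ d ∈ DD A K y, w * d = d * w) :
    ∀ z ∈ Fib A K τ y, w⁻¹ * z * w ∈ Cl K τ ∩ (Fx A K : Set Γ) ∧ w⁻¹ * z * w = x * (y⁻¹ * z) := by
  intro z hz
  have hd := h.fib_facts hy hz
  have hcomm := hD _ hd
  have e : w⁻¹ * z * w = x * (y⁻¹ * z) := by
    calc w⁻¹ * z * w = w⁻¹ * y * ((y⁻¹ * z) * w) := by group
      _ = w⁻¹ * y * (w * (y⁻¹ * z)) := by rw [hcomm]
      _ = w⁻¹ * (w * x * w⁻¹) * (w * (y⁻¹ * z)) := by rw [← hyw]
      _ = x * (y⁻¹ * z) := by group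
  refine ⟨⟨?_, ?_⟩, e⟩
  · have := conj_mem_Cl hz.1 (K.inv_mem hw)
    rwa [inv_inv] at this
  · rw [e]
    exact (Fx A K).mul_mem hxF (mem_DD.1 hd).1

theorem fib_le (h : Hyp A K τ)
    (IH : ∀ (M : Subgroup Γ) (x : Γ), Hyp A M x → Nat.card M < Nat.card K → Odd (Nat.card (⁅M, A⁆ : Subgroup Γ)))
    (NN : ∀ N : Subgroup Γ, N ≤ Fx A K → K ≤ normalizer (N : Set Γ) → τ ∉ N → N = ⊥) (g : Γ) :
    (Fib A K τ g).ncard ≤ (Cl K τ ∩ (Fx A K : Set Γ)).ncard := by
  by_cases hne : (Fib A K τ g).Nonempty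
  · obtain ⟨y, hyg⟩ := hne
    rw [h.fib_eq_of_mem hyg]
    have hy := hyg.1
    by_cases hyF : y ∈ Fx A K
    · apply Set.ncard_le_ncard _ (Set.toFinite _)
      rintro z ⟨hz, hz2⟩
      refine ⟨hz, ?_⟩
      have e : z = y * (y⁻¹ * z) := by group
      rw [e]; exact (Fx A K).mul_mem hyF hz2
    · rcases h.mstep hy hyF IH NN with hD | ⟨x, hx, hxF, w, hw, hyw, hD⟩
      · rw [h.fib_of_bot hy hD, Set.ncard_singleton]
        exact h.inter_pos
      · have hm := h.fib_maps hy hxF hw hyw hD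
        apply Set.ncard_le_ncard_of_injOn (fun z => w⁻¹ * z * w) (fun z hz => (hm z hz).1) _
          (Set.toFinite _)
        intro z _ z' _ hzz
        have h1 : w⁻¹ * z * w = w⁻¹ * z' * w := hzz
        exact mul_left_cancel (mul_right_cancel h1)
  · rw [Set.not_nonempty_iff_eq_empty] at hne
    rw [hne, Set.ncard_empty]; exact Nat.zero_le _

theorem fib_eq (h : Hyp A K τ)
    (IH : ∀ (M : Subgroup Γ) (x : Γ), Hyp A M x → Nat.card M < Nat.card K → Odd (Nat.card (⁅M, A⁆ : Subgroup Γ)))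
    (NN : ∀ N : Subgroup Γ, N ≤ Fx A K → K ≤ normalizer (N : Set Γ) → τ ∉ N → N = ⊥) {g : Γ}
    (hg : g ∈ K) : (Fib A K τ g).ncard = (Cl K τ ∩ (Fx A K : Set Γ)).ncard := by
  classical
  have hle := h.fib_le IH NN
  set n := (Cl K τ ∩ (Fx A K : Set Γ)).ncard with hn
  let Q := K ⧸ (Fx A K).subgroupOf K
  haveI : Finite Q := inferInstanceAs (Finite (K ⧸ (Fx A K).subgroupOf K))
  letI := Fintype.ofFinite Q
  let φ : ↥(Cl K τ) → Q := fun x => QuotientGroup.mk (⟨(x : Γ), h.mem_K x.2⟩ : K)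
  have hfib : ∀ q : K, Nat.card {x : ↥(Cl K τ) // φ x = QuotientGroup.mk q}
      = (Fib A K τ (q : Γ)).ncard := by
    intro q
    rw [← Nat.card_coe_set_eq]
    refine Nat.card_congr ⟨fun x => ⟨((x : ↥(Cl K τ)) : Γ), (x : ↥(Cl K τ)).2, ?_⟩,
      fun x => ⟨⟨(x : Γ), x.2.1⟩, ?_⟩, fun x => rfl, fun x => rfl⟩
    · have := x.2
      have h2 := (QuotientGroup.eq.1 this.symm)
      exact h2
    · apply Eq.symm
      apply QuotientGroup.eq.2
      exact x.2.2
  have hsum : Nat.card ↥(Cl K τ) = ∑ q : Q, Nat.card {x : ↥(Cl K τ) // φ x = q} := by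
    rw [← Nat.card_sigma]
    exact (Nat.card_congr (Equiv.sigmaFiberEquiv φ)).symm
  have hQ : Fintype.card Q = (Fx A K).relIndex K := by
    rw [← Nat.card_eq_fintype_card]; rfl
  have htot : Nat.card ↥(Cl K τ) = n * Fintype.card Q := by
    rw [hQ, hn, ← h.ncard_eq]; rfl
  have hleq : ∀ q : Q, Nat.card {x : ↥(Cl K τ) // φ x = q} ≤ n := by
    intro q
    obtain ⟨q', rfl⟩ := QuotientGroup.mk_surjective q
    rw [hfib]; exact hle _
  rw [← hfib ⟨g, hg⟩]
  by_contra hne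
  have hlt : ∑ q : Q, Nat.card {x : ↥(Cl K τ) // φ x = q} < ∑ _q : Q, n := by
    apply Finset.sum_lt_sum (fun q _ => hleq q)
    exact ⟨QuotientGroup.mk ⟨g, hg⟩, Finset.mem_univ _, lt_of_le_of_ne (hleq _) hne⟩
  rw [← hsum, htot, Finset.sum_const, Finset.card_univ, smul_eq_mul, mul_comm] at hlt
  exact lt_irrefl _ hlt

/-- the core case: all conjugates of `τ` among the fixed points are equal to `τ` -/
theorem unique (h : Hyp A K τ)
    (IH : ∀ (M : Subgroup Γ) (x : Γ), Hyp A M x → Nat.card M < Nat.card K → Odd (Nat.card (⁅M, A⁆ : Subgroup Γ)))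
    (NN : ∀ N : Subgroup Γ, N ≤ Fx A K → K ≤ normalizer (N : Set Γ) → τ ∉ N → N = ⊥)
    (hK : Fx A K ≠ K) : ∀ x ∈ Cl K τ, x ∈ Fx A K → x = τ := by
  have hFK : Fx A K ≤ K := inf_le_left
  intro x1 hx1 hx1F
  by_contra hne
  have hn2 : 1 < (Cl K τ ∩ (Fx A K : Set Γ)).ncard := by
    rw [Set.one_lt_ncard]
    exact ⟨x1, ⟨hx1, hx1F⟩, τ, ⟨h.τ_mem_Cl, h.τ_mem_Fx⟩, hne⟩
  set U : Subgroup Γ := Subgroup.closure {z | ∃ a ∈ Cl K τ ∩ (Fx A K : Set Γ),
    ∃ b ∈ Cl K τ ∩ (Fx A K : Set Γ), z = a * b} with hU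
  have hUF : U ≤ Fx A K := by
    rw [hU, Subgroup.closure_le]
    rintro z ⟨a, ha, b, hb, rfl⟩
    exact (Fx A K).mul_mem ha.2 hb.2
  have hUn : ∀ c ∈ Fx A K, ∀ u ∈ U, c * u * c⁻¹ ∈ U := by
    intro c hc u hu
    rw [hU] at hu
    induction hu using Subgroup.closure_induction with
    | mem z hz =>
      obtain ⟨a, ha, b, hb, rfl⟩ := hz
      have e : c * (a * b) * c⁻¹ = (c * a * c⁻¹) * (c * b * c⁻¹) := by group
      rw [e]
      apply Subgroup.subset_closure
      exact ⟨_, ⟨conj_mem_Cl ha.1 (hFK hc), (Fx A K).mul_mem ((Fx A K).mul_mem hc ha.2)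
        ((Fx A K).inv_mem hc)⟩, _, ⟨conj_mem_Cl hb.1 (hFK hc),
        (Fx A K).mul_mem ((Fx A K).mul_mem hc hb.2) ((Fx A K).inv_mem hc)⟩, rfl⟩
    | one => simp
    | mul z w _ _ hz hw =>
      have e : c * (z * w) * c⁻¹ = (c * z * c⁻¹) * (c * w * c⁻¹) := by group
      rw [e]; exact U.mul_mem hz hw
    | inv z _ hz =>
      have e : c * z⁻¹ * c⁻¹ = (c * z * c⁻¹)⁻¹ := by group
      rw [e]; exact U.inv_mem hz
  -- for conjugates outside the fixed points
  have hout : ∀ y ∈ Cl K τ, y ∉ Fx A K → U ≤ DD A K y ∧ ∀ u ∈ U, y * u * y⁻¹ ∈ U := by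
    intro y hy hyF
    have hyy := h.mul_self hy
    have hcard := h.fib_eq IH NN (h.mem_K hy)
    rcases h.mstep hy hyF IH NN with hD | ⟨x, hx, hxF, w, hw, hyw, hD⟩
    · exfalso
      rw [h.fib_of_bot hy hD, Set.ncard_singleton] at hcard
      omega
    · have hm := h.fib_maps hy hxF hw hyw hD
      have hsurj : ∀ b ∈ Cl K τ ∩ (Fx A K : Set Γ), ∃ d ∈ DD A K y, b = x * d := by
        have himg : (fun z => w⁻¹ * z * w) '' Fib A K τ y = Cl K τ ∩ (Fx A K : Set Γ) := by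
          refine Set.eq_of_subset_of_ncard_le ?_ ?_ (Set.toFinite _)
          · rintro _ ⟨z, hz, rfl⟩
            exact (hm z hz).1
          · rw [← hcard, Set.ncard_image_of_injective]
            intro z z' hzz
            have h1 : w⁻¹ * z * w = w⁻¹ * z' * w := hzz
            exact mul_left_cancel (mul_right_cancel h1)
        intro b hb
        rw [← himg] at hb
        obtain ⟨z, hz, rfl⟩ := hb
        exact ⟨y⁻¹ * z, h.fib_facts hy hz, (hm z hz).2⟩
      have hDy : ∀ d ∈ DD A K y, y * d * y⁻¹ ∈ DD A K y := by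
        intro d hd
        rw [mem_DD] at hd ⊢
        refine ⟨hd.2, ?_⟩
        have e : y * (y * d * y⁻¹) * y⁻¹ = d := by
          calc y * (y * d * y⁻¹) * y⁻¹ = (y * y) * d * (y * y)⁻¹ := by group
            _ = d := by rw [hyy]; group
        rw [e]; exact hd.1
      have hxd : ∀ d ∈ DD A K y, y * d * y⁻¹ = x * d * x⁻¹ := by
        intro d hd
        have k1 := hD d hd
        have k2 := hD _ (hDy d hd)
        have k3 : w⁻¹ * d * w = d := by rw [mul_assoc, ← k1, inv_mul_cancel_left]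
        have k4 : w⁻¹ * (y * d * y⁻¹) * w = y * d * y⁻¹ := by
          rw [mul_assoc, ← k2, inv_mul_cancel_left]
        rw [← k4, hyw]
        calc w⁻¹ * (w * x * w⁻¹ * d * (w * x * w⁻¹)⁻¹) * w
            = x * (w⁻¹ * d * w) * x⁻¹ := by group
          _ = x * d * x⁻¹ := by rw [k3]
      have hUD : U ≤ DD A K y := by
        rw [hU, Subgroup.closure_le]
        rintro z ⟨a, ha, b, hb, rfl⟩
        obtain ⟨d1, hd1, rfl⟩ := hsurj a ha
        obtain ⟨d2, hd2, rfl⟩ := hsurj b hb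
        have hxx := h.mul_self hx
        have hxinv := h.inv_eq hx
        have e : x * d1 * (x * d2) = (x * d1 * x⁻¹) * d2 := by rw [hxinv]; group
        rw [e, ← hxd d1 hd1]
        exact (DD A K y).mul_mem (hDy d1 hd1) hd2
      refine ⟨hUD, fun u hu => ?_⟩
      rw [hxd u (hUD hu)]
      exact hUn x hxF u hu
  -- every coset meets the class
  have hmeet : ∀ g ∈ K, ∃ y ∈ Cl K τ, g⁻¹ * y ∈ Fx A K := by
    intro g hg
    have hcard := h.fib_eq IH NN hg
    have hpos : 0 < (Fib A K τ g).ncard := by rw [hcard]; omega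
    obtain ⟨y, hy⟩ := (Set.ncard_pos (Set.toFinite _)).1 hpos
    exact ⟨y, hy.1, hy.2⟩
  have hUbot : U = ⊥ := by
    apply NN U hUF
    · apply le_normalizer_of_conj_mem
      intro g hg u hu
      obtain ⟨y, hy, hgy⟩ := hmeet g hg
      have e : g * u * g⁻¹ = y * ((g⁻¹ * y)⁻¹ * u * (g⁻¹ * y)⁻¹⁻¹) * y⁻¹ := by group
      rw [e]
      have h1 := hUn _ ((Fx A K).inv_mem hgy) u hu
      by_cases hyF : y ∈ Fx A K
      · exact hUn y hyF _ h1
      · exact (hout y hy hyF).2 _ h1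
    · intro hτU
      obtain ⟨g, hg, hgF⟩ : ∃ g ∈ K, g ∉ Fx A K := by
        by_contra hc
        push_neg at hc
        exact hK (le_antisymm hFK hc)
      obtain ⟨y, hy, hgy⟩ := hmeet g hg
      have hyF : y ∉ Fx A K := by
        intro hc
        apply hgF
        have e : g = y * (g⁻¹ * y)⁻¹ := by group
        rw [e]; exact (Fx A K).mul_mem hc ((Fx A K).inv_mem hgy)
      have h1 := (hout y hy hyF).1 hτU
      exact hyF (h.mem_Fx_of_conj h.τ_mem_Cl h.τ_mem_Fx (h.mem_K hy) (mem_DD.1 h1).2)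
  have h2 : x1 * τ ∈ U := Subgroup.subset_closure ⟨x1, ⟨hx1, hx1F⟩, τ,
    ⟨h.τ_mem_Cl, h.τ_mem_Fx⟩, rfl⟩
  rw [hUbot, mem_bot] at h2
  apply hne
  rw [mul_eq_one_iff_eq_inv, h.inv_eq h.τ_mem_Cl] at h2
  exact h2

end Hyp

/-- **Theorem.** If `A` acts coprimely on `K` and centralizes the centralizer in `K` of an
involution `τ ∈ K`, then `[K, A]` has odd order. -/
theorem main_aux (n : ℕ) : ∀ (Γ : Type u) [Group Γ] [Finite Γ] (A K : Subgroup Γ) (τ : Γ),
    Hyp A K τ → Nat.card K ≤ n → Odd (Nat.card (⁅K, A⁆ : Subgroup Γ)) := by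
  induction n with
  | zero =>
    intro Γ _ _ A K τ _ hc
    have : 0 < Nat.card K := Nat.card_pos
    omega
  | succ n ih =>
    -- first with `K ⊔ A = ⊤`
    have key : ∀ (Γ : Type u) [Group Γ] [Finite Γ] (A K : Subgroup Γ) (τ : Γ),
        Hyp A K τ → K ⊔ A = ⊤ → Nat.card K ≤ n + 1 → Odd (Nat.card (⁅K, A⁆ : Subgroup Γ)) := by
      intro Γ _ _ A K τ h htop hc
      by_cases hK : Fx A K = K
      · have : ⁅K, A⁆ = ⊥ := by
          rw [Subgroup.commutator_eq_bot_iff_le_centralizer]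
          intro g hg
          rw [← hK] at hg
          rw [mem_centralizer_iff]
          exact (mem_Fx.1 hg).2
        rw [this, Subgroup.card_bot]
        exact odd_one
      by_cases hNN : ∀ N : Subgroup Γ, N ≤ Fx A K → K ≤ normalizer (N : Set Γ) → τ ∉ N → N = ⊥
      · apply h.zstar_case
        apply h.unique _ hNN hK
        intro M x hM hlt
        exact ih Γ A M x hM (by omega)
      · push_neg at hNN
        obtain ⟨N, hNF, hKN, hτN, hNb⟩ := hNN
        have hAN : A ≤ normalizer (N : Set Γ) := by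
          apply le_normalizer_of_conj_mem
          intro a ha k hk
          rw [(mem_Fx.1 (hNF hk)).2 a ha, mul_inv_cancel_right]; exact hk
        haveI hNn : N.Normal := by
          rw [← Subgroup.normalizer_eq_top_iff, eq_top_iff, ← htop]
          exact sup_le hKN hAN
        apply h.quot_case N hNF hτN
        apply ih _ _ _ _ (h.quot N hNF hτN)
        have h1 : Nat.card (K.map (QuotientGroup.mk' N)) * Nat.card N = Nat.card K := by
          have hker := Subgroup.card_mul_index ((QuotientGroup.mk' N).domRestrict K).ker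
          have h2 : ((QuotientGroup.mk' N).domRestrict K).ker = N.subgroupOf K := by
            ext z
            rw [MonoidHom.mem_ker, mem_subgroupOf]
            exact QuotientGroup.eq_one_iff _
          have hNK : N ≤ K := hNF.trans inf_le_left
          have h3 : Nat.card (N.subgroupOf K) = Nat.card N :=
            Nat.card_congr (Subgroup.subgroupOfEquivOfLe hNK).toEquiv
          have h4 : ((QuotientGroup.mk' N).domRestrict K).ker.index
              = Nat.card (K.map (QuotientGroup.mk' N)) := by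
            rw [Subgroup.index_ker, MonoidHom.domRestrict_range]
          rw [h4, h2, h3] at hker
          rw [mul_comm]; exact hker
        have h2 : 1 < Nat.card N := by
          rw [Subgroup.one_lt_card_iff_ne_bot]; exact hNb
        have h3 : 0 < Nat.card (K.map (QuotientGroup.mk' N)) := Nat.card_pos
        nlinarith
    intro Γ _ _ A K τ h hc
    -- pass to `K ⊔ A`
    have hKle : K ≤ K ⊔ A := le_sup_left
    have hAle : A ≤ K ⊔ A := le_sup_right
    have cK : Nat.card (K.subgroupOf (K ⊔ A)) = Nat.card K :=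
      Nat.card_congr (Subgroup.subgroupOfEquivOfLe hKle).toEquiv
    have cA : Nat.card (A.subgroupOf (K ⊔ A)) = Nat.card A :=
      Nat.card_congr (Subgroup.subgroupOfEquivOfLe hAle).toEquiv
    have hsub : Hyp (A.subgroupOf (K ⊔ A)) (K.subgroupOf (K ⊔ A))
        (⟨τ, hKle h.mem⟩ : ↥(K ⊔ A)) := by
      refine ⟨?_, ?_, ?_, h.mem, ?_, ?_⟩
      · apply le_normalizer_of_conj_mem
        intro a ha k hk
        exact conj_mem_of_le_normalizer h.norm ha hk
      · rw [cK, cA]; exact h.cop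
      · haveI := h.solv
        exact solvable_of_solvable_injective
          (f := (Subgroup.subgroupOfEquivOfLe hAle).toMonoidHom)
          (Subgroup.subgroupOfEquivOfLe hAle).injective
      · rw [Subgroup.orderOf_mk]; exact h.ord
      · intro g hg hgt a ha
        exact Subtype.ext (h.cent g hg (congrArg Subtype.val hgt) a ha)
    have htop : K.subgroupOf (K ⊔ A) ⊔ A.subgroupOf (K ⊔ A) = ⊤ := by
      rw [← Subgroup.subgroupOf_sup hKle hAle, Subgroup.subgroupOf_self]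
    have := key _ _ _ _ hsub htop (by rw [cK]; exact hc)
    have hmap : (⁅K.subgroupOf (K ⊔ A), A.subgroupOf (K ⊔ A)⁆ : Subgroup ↥(K ⊔ A)).map
        (K ⊔ A).subtype = ⁅K, A⁆ := by
      rw [Subgroup.map_commutator, Subgroup.map_subgroupOf_eq_of_le hKle,
        Subgroup.map_subgroupOf_eq_of_le hAle]
    rw [← hmap, Subgroup.card_map_of_injective (Subgroup.subtype_injective _)]
    exact this

theorem main {Γ : Type u} [Group Γ] [Finite Γ] {A K : Subgroup Γ} {τ : Γ} (h : Hyp A K τ) :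
    Odd (Nat.card (⁅K, A⁆ : Subgroup Γ)) := main_aux _ Γ A K τ h le_rfl

end H73.InvCent
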