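import Mathlib
import Cfsg.Agent.Lib.H73.Kulakoff

/-!
# Cyclic maximal subgroups and maximal subgroups of maximal class in `2`-groups (H73.KulakoffTwo)
-/

set_option autoImplicit false

open scoped commutatorElement

namespace H73.KulakoffTwo

open H73.Enum H73.Kulakoff

universe u

section

variable {P : Type u} [Group P] [Finite P]

theorem zpowers_eq_of_not_mem {c g : P} {k : ℕ} (hc : orderOf c = 2 ^ k) (hg : g ∈ Subgroup.zpowers c)
    (hg2 : g ∉ Subgroup.zpowers (c ^ 2)) : Subgroup.zpowers g = Subgroup.zpowers c := by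
  rw [← mem_powers_iff_mem_zpowers] at hg
  obtain ⟨i, rfl⟩ := hg
  simp only at hg2 ⊢
  have hi : i % 2 = 1 := by
    by_contra h
    apply hg2
    have : i = 2 * (i / 2) := by lia
    rw [this, pow_mul]
    exact Subgroup.pow_mem _ (Subgroup.mem_zpowers _) _
  apply Subgroup.eq_of_le_of_card_ge
  · rw [Subgroup.zpowers_le]
    exact Subgroup.pow_mem _ (Subgroup.mem_zpowers _) _
  · rw [Nat.card_zpowers, Nat.card_zpowers, Nat.Coprime.orderOf_pow]
    rw [hc]
    apply Nat.Coprime.pow_left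
    rw [Nat.coprime_two_left]
    exact Nat.odd_iff.2 hi

/-- data: a `2`-group of order `2 ^ n ≥ 8`, not cyclic, with a cyclic maximal subgroup `⟨x⟩` -/
structure Data (P : Type u) [Group P] [Finite P] (n : ℕ) (x : P) : Prop where
  card : Nat.card P = 2 ^ n
  three : 3 ≤ n
  ncyc : ¬ IsCyclic P
  idx : (Subgroup.zpowers x).index = 2

variable {n : ℕ} {x : P}

namespace Data

theorem pgroup (h : Data P n x) : IsPGroup 2 P := IsPGroup.iff_card.2 ⟨n, h.card⟩

theorem orderOf_x (h : Data P n x) : orderOf x = 2 ^ (n - 1) := by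
  have h1 := Subgroup.card_mul_index (Subgroup.zpowers x)
  rw [h.idx, h.card, Nat.card_zpowers] at h1
  have h3 := h.three
  have h2 : 2 ^ n = 2 ^ (n - 1) * 2 := by rw [← pow_succ, Nat.sub_add_cancel (by lia)]
  rw [h2] at h1
  exact Nat.eq_of_mul_eq_mul_right two_pos h1

theorem orderOf_sq (h : Data P n x) : orderOf (x ^ 2) = 2 ^ (n - 2) := by
  have h3 := h.three
  have h2 : 2 ^ (n - 1) = 2 ^ (n - 2) * 2 := by rw [← pow_succ]; congr 1; lia
  rw [orderOf_pow_of_dvd two_ne_zero (by rw [h.orderOf_x, h2]; exact dvd_mul_left _ _), h.orderOf_x, h2,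
    Nat.mul_div_cancel _ two_pos]

theorem orderOf_four (h : Data P n x) : orderOf ((x ^ 2) ^ 2) = 2 ^ (n - 3) := by
  have h3 := h.three
  have h2 : 2 ^ (n - 2) = 2 ^ (n - 3) * 2 := by rw [← pow_succ]; congr 1; lia
  rw [orderOf_pow_of_dvd two_ne_zero (by rw [h.orderOf_sq, h2]; exact dvd_mul_left _ _), h.orderOf_sq, h2,
    Nat.mul_div_cancel _ two_pos]

theorem index_sq (h : Data P n x) : (Subgroup.zpowers (x ^ 2)).index = 4 := by
  have h3 := h.three
  have h1 := Subgroup.card_mul_index (Subgroup.zpowers (x ^ 2))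
  rw [h.card, Nat.card_zpowers, h.orderOf_sq] at h1
  have h2 : 2 ^ n = 2 ^ (n - 2) * 4 := by
    rw [show (4 : ℕ) = 2 ^ 2 by norm_num, ← pow_add]; congr 1; lia
  rw [h2] at h1
  exact Nat.eq_of_mul_eq_mul_left (pow_pos two_pos _) h1

theorem frattini_eq (h : Data P n x) : frattini P = Subgroup.zpowers (x ^ 2) := by
  have h3 := h.three
  symm
  apply Subgroup.eq_of_le_of_card_ge
  · rw [Subgroup.zpowers_le]
    exact H1.Frat.pow_mem_frattini h.pgroup x
  · have h1 := sq_dvd_index_frattini h.pgroup h.ncyc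
    have h2 : 4 ≤ (frattini P).index := Nat.le_of_dvd (Nat.pos_of_ne_zero Subgroup.index_ne_zero_of_finite) (by simpa using h1)
    have h4 := Subgroup.card_mul_index (frattini P)
    have h5 := Subgroup.card_mul_index (Subgroup.zpowers (x ^ 2))
    rw [h.index_sq] at h5
    have h6 : Nat.card (frattini P) * 4 ≤ Nat.card (Subgroup.zpowers (x ^ 2)) * 4 := by
      rw [h5, ← h4]
      exact Nat.mul_le_mul_left _ h2
    exact Nat.le_of_mul_le_mul_right h6 (by norm_num)

theorem sq_mem (h : Data P n x) (g : P) : g ^ 2 ∈ Subgroup.zpowers (x ^ 2) := by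
  rw [← h.frattini_eq]
  exact H1.Frat.pow_mem_frattini h.pgroup g

theorem comm_mem (h : Data P n x) : commutator P ≤ Subgroup.zpowers (x ^ 2) := by
  rw [← h.frattini_eq]
  have : Group.IsNilpotent P := h.pgroup.isNilpotent
  exact H1.Frat.commutator_le_frattini

theorem sq_le (h : Data P n x) {M : Subgroup P} (hM : M.index = 2) : Subgroup.zpowers (x ^ 2) ≤ M := by
  rw [← h.frattini_eq]
  exact frattini_le_of_index (p := 2) hM

theorem card_M (h : Data P n x) {M : Subgroup P} (hM : M.index = 2) : Nat.card M = 2 ^ (n - 1) := by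
  have h1 := Subgroup.card_mul_index M
  rw [hM, h.card] at h1
  have h3 := h.three
  have h2 : 2 ^ n = 2 ^ (n - 1) * 2 := by rw [← pow_succ, Nat.sub_add_cancel (by lia)]
  rw [h2] at h1
  exact Nat.eq_of_mul_eq_mul_right two_pos h1

/-- a subgroup properly containing `Φ` has at least twice its order -/
theorem card_ge (h : Data P n x) {K : Subgroup P} (hK : Subgroup.zpowers (x ^ 2) ≤ K) {g : P} (hg : g ∈ K)
    (hgn : g ∉ Subgroup.zpowers (x ^ 2)) : 2 ^ (n - 1) ≤ Nat.card K := by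
  have h3 := h.three
  have h1 := card_mul_relIndex_of_le hK
  rw [Nat.card_zpowers, h.orderOf_sq] at h1
  have h2 : (Subgroup.zpowers (x ^ 2)).relIndex K ≠ 1 := fun h2 => hgn (Subgroup.relIndex_eq_one.1 h2 hg)
  have h4 : (Subgroup.zpowers (x ^ 2)).relIndex K ≠ 0 := by
    intro h4
    rw [h4, mul_zero] at h1
    exact absurd h1.symm Nat.card_pos.ne'
  rw [← h1]
  calc 2 ^ (n - 1) = 2 ^ (n - 2) * 2 := by rw [← pow_succ]; congr 1; lia
    _ ≤ 2 ^ (n - 2) * (Subgroup.zpowers (x ^ 2)).relIndex K := Nat.mul_le_mul_left _ (by lia)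

theorem cyclic_iff (h : Data P n x) {M : Subgroup P} (hM : M.index = 2) {g : P} (hg : g ∈ M)
    (hgn : g ∉ Subgroup.zpowers (x ^ 2)) : IsCyclic M ↔ g ^ 2 ∉ Subgroup.zpowers ((x ^ 2) ^ 2) := by
  classical
  have h3 := h.three
  constructor
  · intro hcyc hg2
    have h1 : g ^ (2 ^ (n - 2)) = 1 := by
      have h2 : orderOf (g ^ 2) ∣ 2 ^ (n - 3) := by
        rw [← h.orderOf_four, ← Nat.card_zpowers, ← Nat.card_zpowers ((x ^ 2) ^ 2)]
        exact Subgroup.card_dvd_of_le (by rwa [Subgroup.zpowers_le])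
      have h4 : 2 ^ (n - 2) = 2 * 2 ^ (n - 3) := by rw [← pow_succ']; congr 1; lia
      rw [h4, pow_mul]
      exact orderOf_dvd_iff_pow_eq_one.1 h2
    have : Fintype M := Fintype.ofFinite _
    have h5 := IsCyclic.card_pow_eq_one_le (α := M) (n := 2 ^ (n - 2)) (pow_pos two_pos _)
    -- the set of solutions is `Φ`
    have h6 : Function.Injective (fun u : Subgroup.zpowers (x ^ 2) => (⟨(u : P), h.sq_le hM u.2⟩ : M)) := by
      intro u v huv
      exact Subtype.ext (congrArg (fun w : M => (w : P)) huv)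
    have : Fintype (Subgroup.zpowers (x ^ 2)) := Fintype.ofFinite _
    have h7 : (Finset.univ.image (fun u : Subgroup.zpowers (x ^ 2) => (⟨(u : P), h.sq_le hM u.2⟩ : M))) ⊆
        (Finset.univ.filter (fun a : M => a ^ (2 ^ (n - 2)) = 1)) := by
      intro a ha
      obtain ⟨u, -, rfl⟩ := Finset.mem_image.1 ha
      rw [Finset.mem_filter]
      refine ⟨Finset.mem_univ _, Subtype.ext ?_⟩
      have h8 : (u : Subgroup.zpowers (x ^ 2)) ^ Nat.card (Subgroup.zpowers (x ^ 2)) = 1 := pow_card_eq_one'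
      rw [Nat.card_zpowers, h.orderOf_sq] at h8
      have h9 : (u : P) ^ 2 ^ (n - 2) = 1 := congrArg (fun w : Subgroup.zpowers (x ^ 2) => (w : P)) h8
      exact h9
    have h8 := Finset.eq_of_subset_of_card_le h7 (by
      rw [Finset.card_image_of_injective _ h6, Finset.card_univ, ← Nat.card_eq_fintype_card, Nat.card_zpowers, h.orderOf_sq]
      exact h5)
    have h9 : (⟨g, hg⟩ : M) ∈ Finset.univ.filter (fun a : M => a ^ (2 ^ (n - 2)) = 1) := by
      rw [Finset.mem_filter]
      exact ⟨Finset.mem_univ _, Subtype.ext h1⟩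
    rw [← h8] at h9
    obtain ⟨u, -, hu⟩ := Finset.mem_image.1 h9
    apply hgn
    have : (u : P) = g := congrArg Subtype.val hu
    rw [← this]
    exact u.2
  · intro hg2
    have h1 := zpowers_eq_of_not_mem h.orderOf_sq (h.sq_mem g) hg2
    have h2 : Subgroup.zpowers g = M := by
      apply Subgroup.eq_of_le_of_card_ge
      · rwa [Subgroup.zpowers_le]
      · rw [h.card_M hM]
        apply h.card_ge _ (Subgroup.mem_zpowers g) hgn
        rw [← h1, Subgroup.zpowers_le]
        exact Subgroup.pow_mem _ (Subgroup.mem_zpowers g) 2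
    rw [← h2]
    infer_instance

/-- the maximal subgroup through `g` -/
theorem index_sup (h : Data P n x) {g : P} (hgn : g ∉ Subgroup.zpowers (x ^ 2)) :
    (Subgroup.zpowers g ⊔ Subgroup.zpowers (x ^ 2)).index = 2 := by
  have h3 := h.three
  have h1 : (Subgroup.zpowers g ⊔ Subgroup.zpowers (x ^ 2)).index ∣ 4 := by
    rw [← h.index_sq]
    exact Subgroup.index_dvd_of_le le_sup_right
  have h2 : (Subgroup.zpowers g ⊔ Subgroup.zpowers (x ^ 2)).index ≠ 1 := by
    intro h2
    rw [Subgroup.index_eq_one, ← h.frattini_eq] at h2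
    have h4 := frattini_nongenerating h2
    apply h.ncyc
    exact ⟨g, fun y => by
      have := Subgroup.mem_top y
      rwa [← h4] at this⟩
  have h4 : (Subgroup.zpowers g ⊔ Subgroup.zpowers (x ^ 2)).index ≠ 4 := by
    intro h4
    have h5 := Subgroup.card_mul_index (Subgroup.zpowers g ⊔ Subgroup.zpowers (x ^ 2))
    have h6 := h.card_ge (K := Subgroup.zpowers g ⊔ Subgroup.zpowers (x ^ 2)) le_sup_right
      (Subgroup.mem_sup_left (Subgroup.mem_zpowers g)) hgn
    rw [h4, h.card] at h5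
    have h7 : 2 ^ n = 2 ^ (n - 1) * 2 := by rw [← pow_succ, Nat.sub_add_cancel (by lia)]
    have h8 : 0 < 2 ^ (n - 1) := pow_pos two_pos _
    lia
  have h5 : (Subgroup.zpowers g ⊔ Subgroup.zpowers (x ^ 2)).index ≤ 4 := Nat.le_of_dvd (by norm_num) h1
  generalize hm : (Subgroup.zpowers g ⊔ Subgroup.zpowers (x ^ 2)).index = m at *
  interval_cases m
  · simp at h1
  · exact absurd rfl h2
  · rfl
  · norm_num at h1
  · exact absurd rfl h4

theorem eq_sup (h : Data P n x) {g : P} (hgn : g ∉ Subgroup.zpowers (x ^ 2)) {M : Subgroup P} (hM : M.index = 2)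
    (hg : g ∈ M) : M = Subgroup.zpowers g ⊔ Subgroup.zpowers (x ^ 2) := by
  symm
  apply Subgroup.eq_of_le_of_card_ge
  · apply sup_le
    · rwa [Subgroup.zpowers_le]
    · exact h.sq_le hM
  · rw [h.card_M hM, h.card_M (h.index_sup hgn)]

/-- every element lies in `Φ`, `x Φ`, `y Φ` or `x y Φ` -/
theorem cosets (h : Data P n x) {y : P} (hy : y ∉ Subgroup.zpowers x) (g : P) :
    ∃ i : ℤ, g = x ^ i ∨ g = y * x ^ i := by
  by_cases hg : g ∈ Subgroup.zpowers x
  · obtain ⟨i, rfl⟩ := hg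
    exact ⟨i, Or.inl rfl⟩
  · have h1 : y⁻¹ * g ∈ Subgroup.zpowers x := by
      rw [Subgroup.mul_mem_iff_of_index_two h.idx, Subgroup.inv_mem_iff]
      exact ⟨fun h => absurd h hy, fun h => absurd h hg⟩
    obtain ⟨i, hi⟩ := h1
    refine ⟨i, Or.inr ?_⟩
    simp only at hi
    rw [hi, mul_inv_cancel_left]

theorem x_not_mem (h : Data P n x) : x ∉ Subgroup.zpowers (x ^ 2) := by
  intro hx
  have h3 := h.three
  have h1 : orderOf x ∣ orderOf (x ^ 2) := by
    rw [← Nat.card_zpowers, ← Nat.card_zpowers (x ^ 2)]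
    exact Subgroup.card_dvd_of_le (by rwa [Subgroup.zpowers_le])
  rw [h.orderOf_x, h.orderOf_sq] at h1
  have := (Nat.pow_dvd_pow_iff_le_right (by norm_num : 1 < 2)).1 h1
  lia

theorem sq_not_mem (h : Data P n x) : x ^ 2 ∉ Subgroup.zpowers ((x ^ 2) ^ 2) := by
  intro hx
  have h3 := h.three
  have h1 : orderOf (x ^ 2) ∣ orderOf ((x ^ 2) ^ 2) := by
    rw [← Nat.card_zpowers, ← Nat.card_zpowers ((x ^ 2) ^ 2)]
    exact Subgroup.card_dvd_of_le (by rwa [Subgroup.zpowers_le])
  rw [h.orderOf_four, h.orderOf_sq] at h1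
  have := (Nat.pow_dvd_pow_iff_le_right (by norm_num : 1 < 2)).1 h1
  lia

theorem index_four (h : Data P n x) :
    ((Subgroup.zpowers ((x ^ 2) ^ 2)).subgroupOf (Subgroup.zpowers (x ^ 2))).index = 2 := by
  have h3 := h.three
  have hle : Subgroup.zpowers ((x ^ 2) ^ 2) ≤ Subgroup.zpowers (x ^ 2) := by
    rw [Subgroup.zpowers_le]
    exact Subgroup.pow_mem _ (Subgroup.mem_zpowers _) 2
  have h1 := card_mul_relIndex_of_le hle
  rw [Nat.card_zpowers, Nat.card_zpowers, h.orderOf_four, h.orderOf_sq] at h1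
  have h2 : 2 ^ (n - 2) = 2 ^ (n - 3) * 2 := by rw [← pow_succ]; congr 1; lia
  rw [h2] at h1
  exact Nat.eq_of_mul_eq_mul_left (pow_pos two_pos _) h1

theorem mul_mem_four (h : Data P n x) {u v : P} (hu : u ∈ Subgroup.zpowers (x ^ 2)) (hv : v ∈ Subgroup.zpowers (x ^ 2)) :
    u * v ∈ Subgroup.zpowers ((x ^ 2) ^ 2) ↔ (u ∈ Subgroup.zpowers ((x ^ 2) ^ 2) ↔ v ∈ Subgroup.zpowers ((x ^ 2) ^ 2)) :=
  Subgroup.mul_mem_iff_of_index_two h.index_four (a := ⟨u, hu⟩) (b := ⟨v, hv⟩)

theorem four_normal (h : Data P n x) : (Subgroup.zpowers ((x ^ 2) ^ 2)).Normal := by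
  have hn : (Subgroup.zpowers x).Normal := Subgroup.normal_of_index_eq_two h.idx
  constructor
  rintro _ ⟨i, rfl⟩ g
  have h1 : g * x * g⁻¹ ∈ Subgroup.zpowers x := hn.conj_mem x (Subgroup.mem_zpowers x) g
  obtain ⟨j, hj⟩ := h1
  simp only at hj ⊢
  rw [← conj_zpow, ← conj_pow, ← conj_pow, ← hj]
  have h2 : ((x ^ j) ^ 2) ^ 2 = ((x ^ 2) ^ 2) ^ j := by
    rw [← pow_mul, ← pow_mul, ← zpow_natCast, ← zpow_natCast, ← zpow_mul, ← zpow_mul, mul_comm]
  rw [h2]
  exact Subgroup.zpow_mem _ (Subgroup.zpow_mem _ (Subgroup.mem_zpowers _) _) _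

/-- `|P : P'| = 4` iff `[x⁻¹, y] ∉ ⟨x ^ 4⟩` -/
theorem index_commutator_iff (h : Data P n x) {y : P} (hy : y ∉ Subgroup.zpowers x) :
    (commutator P).index = 4 ↔ x⁻¹ * y * x * y⁻¹ ∉ Subgroup.zpowers ((x ^ 2) ^ 2) := by
  have h3 := h.three
  have hc : x⁻¹ * y * x * y⁻¹ ∈ commutator P := by
    have : x⁻¹ * y * x * y⁻¹ = ⁅x⁻¹, y⁆ := by rw [commutatorElement_def]; group
    rw [this, commutator_def]
    exact Subgroup.commutator_mem_commutator (Subgroup.mem_top _) (Subgroup.mem_top _)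
  constructor
  · intro hidx hcL
    have hn := h.four_normal
    have h1 : commutator P ≤ Subgroup.zpowers ((x ^ 2) ^ 2) := by
      have hxy : Commute ((x : P) : P ⧸ Subgroup.zpowers ((x ^ 2) ^ 2)) ((y : P) : P ⧸ Subgroup.zpowers ((x ^ 2) ^ 2)) := by
        have h2 : ((x⁻¹ * y * x * y⁻¹ : P) : P ⧸ Subgroup.zpowers ((x ^ 2) ^ 2)) = 1 := (QuotientGroup.eq_one_iff _).2 hcL
        rw [QuotientGroup.mk_mul, QuotientGroup.mk_mul, QuotientGroup.mk_mul, QuotientGroup.mk_inv, QuotientGroup.mk_inv,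
          mul_inv_eq_one, mul_assoc, inv_mul_eq_iff_eq_mul] at h2
        exact h2.symm
      have key : ∀ g : P, Commute ((x : P) : P ⧸ Subgroup.zpowers ((x ^ 2) ^ 2)) ((g : P) : P ⧸ Subgroup.zpowers ((x ^ 2) ^ 2)) ∧
          Commute ((y : P) : P ⧸ Subgroup.zpowers ((x ^ 2) ^ 2)) ((g : P) : P ⧸ Subgroup.zpowers ((x ^ 2) ^ 2)) := by
        intro g
        obtain ⟨i, rfl | rfl⟩ := h.cosets hy g
        · rw [QuotientGroup.mk_zpow]
          exact ⟨(Commute.refl _).zpow_right i, hxy.symm.zpow_right i⟩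
        · rw [QuotientGroup.mk_mul, QuotientGroup.mk_zpow]
          exact ⟨hxy.mul_right ((Commute.refl _).zpow_right i), (Commute.refl _).mul_right (hxy.symm.zpow_right i)⟩
      rw [commutator_def, Subgroup.commutator_le]
      intro a _ b _
      rw [← QuotientGroup.eq_one_iff]
      show ((a * b * a⁻¹ * b⁻¹ : P) : P ⧸ Subgroup.zpowers ((x ^ 2) ^ 2)) = 1
      have h4 : Commute ((a : P) : P ⧸ Subgroup.zpowers ((x ^ 2) ^ 2)) ((b : P) : P ⧸ Subgroup.zpowers ((x ^ 2) ^ 2)) := by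
        obtain ⟨i, rfl | rfl⟩ := h.cosets hy a
        · rw [QuotientGroup.mk_zpow]
          exact (key b).1.zpow_left i
        · rw [QuotientGroup.mk_mul, QuotientGroup.mk_zpow]
          exact (key b).2.mul_left ((key b).1.zpow_left i)
      rw [QuotientGroup.mk_mul, QuotientGroup.mk_mul, QuotientGroup.mk_mul, h4.eq, QuotientGroup.mk_inv, QuotientGroup.mk_inv]
      group
    have h2 : Nat.card (commutator P) ≤ 2 ^ (n - 3) := by
      rw [← h.orderOf_four, ← Nat.card_zpowers]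
      exact Subgroup.card_le_of_le h1
    have h4 := Subgroup.card_mul_index (commutator P)
    rw [hidx, h.card] at h4
    have h5 : 2 ^ n = 2 ^ (n - 3) * 8 := by
      rw [show (8 : ℕ) = 2 ^ 3 by norm_num, ← pow_add]; congr 1; lia
    have h6 : 0 < 2 ^ (n - 3) := pow_pos two_pos _
    lia
  · intro hcL
    have h1 := zpowers_eq_of_not_mem h.orderOf_sq (h.comm_mem hc) hcL
    have h2 : commutator P = Subgroup.zpowers (x ^ 2) := by
      apply le_antisymm h.comm_mem
      rw [← h1, Subgroup.zpowers_le]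
      exact hc
    rw [h2, h.index_sq]

/-- the number of cyclic maximal subgroups is odd iff `|P : P'| = 4` -/
theorem card_cyclic_odd_iff (h : Data P n x) :
    Nat.card {M : Subgroup P // M.index = 2 ∧ IsCyclic M} % 2 = 1 ↔ (commutator P).index = 4 := by
  classical
  have : Fintype (Subgroup P) := Fintype.ofFinite _
  have hne : Subgroup.zpowers x ≠ ⊤ := by
    intro h1
    have := h.idx
    rw [h1, Subgroup.index_top] at this
    exact absurd this (by norm_num)
  obtain ⟨y, -, hy⟩ := SetLike.exists_of_lt hne.lt_top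
  rw [h.index_commutator_iff hy]
  have hlex : Subgroup.zpowers (x ^ 2) ≤ Subgroup.zpowers x := by
    rw [Subgroup.zpowers_le]; exact Subgroup.pow_mem _ (Subgroup.mem_zpowers x) 2
  have hxn := h.x_not_mem
  have hyn : y ∉ Subgroup.zpowers (x ^ 2) := fun h1 => hy (hlex h1)
  have hxyx : x * y ∉ Subgroup.zpowers x := by
    intro h1
    exact hy (((Subgroup.zpowers x).mul_mem_cancel_left (Subgroup.mem_zpowers x)).1 h1)
  have hxyn : x * y ∉ Subgroup.zpowers (x ^ 2) := fun h1 => hxyx (hlex h1)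
  obtain ⟨F, hF⟩ : ∃ F : P → Subgroup P, F = fun g => Subgroup.zpowers g ⊔ Subgroup.zpowers (x ^ 2) := ⟨_, rfl⟩
  have hFmem : ∀ g, g ∈ F g := fun g => by rw [hF]; exact Subgroup.mem_sup_left (Subgroup.mem_zpowers g)
  have hFidx : ∀ g, g ∉ Subgroup.zpowers (x ^ 2) → (F g).index = 2 := fun g hg => by rw [hF]; exact h.index_sup hg
  have hFeq : ∀ g, g ∉ Subgroup.zpowers (x ^ 2) → ∀ M : Subgroup P, M.index = 2 → g ∈ M → M = F g := fun g hg M hM hgM => by
    rw [hF]; exact h.eq_sup hg hM hgM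
  have hnot : ∀ M : Subgroup P, M.index = 2 → x ∈ M → y ∈ M → False := by
    intro M hM hx hyM
    have : M = ⊤ := by
      rw [eq_top_iff]
      intro g _
      obtain ⟨i, rfl | rfl⟩ := h.cosets hy g
      · exact Subgroup.zpow_mem _ hx i
      · exact Subgroup.mul_mem _ hyM (Subgroup.zpow_mem _ hx i)
    rw [this, Subgroup.index_top] at hM
    exact absurd hM (by norm_num)
  have hd1 : F x ≠ F y := fun h1 => hnot (F x) (hFidx x hxn) (hFmem x) (by rw [h1]; exact hFmem y)
  have hd2 : F x ≠ F (x * y) := fun h1 => hnot (F x) (hFidx x hxn) (hFmem x) (by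
    have h2 : x * y ∈ F x := by rw [h1]; exact hFmem _
    exact ((F x).mul_mem_cancel_left (hFmem x)).1 h2)
  have hd3 : F y ≠ F (x * y) := fun h1 => hnot (F y) (hFidx y hyn) (by
    have h2 : x * y ∈ F y := by rw [h1]; exact hFmem _
    exact ((F y).mul_mem_cancel_right (hFmem y)).1 h2) (hFmem y)
  have hall : ∀ M : Subgroup P, M.index = 2 → M = F x ∨ M = F y ∨ M = F (x * y) := by
    intro M hM
    by_cases hx : x ∈ M
    · exact Or.inl (hFeq x hxn M hM hx)
    · by_cases hyM : y ∈ M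
      · exact Or.inr (Or.inl (hFeq y hyn M hM hyM))
      · refine Or.inr (Or.inr (hFeq _ hxyn M hM ?_))
        rw [Subgroup.mul_mem_iff_of_index_two hM]
        exact ⟨fun h => absurd h hx, fun h => absurd h hyM⟩
  have hset : Finset.univ.filter (fun M : Subgroup P => M.index = 2 ∧ IsCyclic M) =
      ({F x, F y, F (x * y)} : Finset (Subgroup P)).filter (fun M : Subgroup P => IsCyclic M) := by
    ext M
    simp only [Finset.mem_filter, Finset.mem_univ, true_and, Finset.mem_insert, Finset.mem_singleton]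
    constructor
    · rintro ⟨h1, h2⟩
      exact ⟨hall M h1, h2⟩
    · rintro ⟨rfl | rfl | rfl, h2⟩
      · exact ⟨hFidx x hxn, h2⟩
      · exact ⟨hFidx y hyn, h2⟩
      · exact ⟨hFidx _ hxyn, h2⟩
  rw [Nat.card_eq_fintype_card, Fintype.card_subtype, hset]
  have hcx : IsCyclic (F x) := (h.cyclic_iff (hFidx x hxn) (hFmem x) hxn).2 h.sq_not_mem
  have hcy := h.cyclic_iff (hFidx y hyn) (hFmem y) hyn
  have hcxy := h.cyclic_iff (hFidx _ hxyn) (hFmem _) hxyn
  have hsq : (x * y) ^ 2 = x ^ 2 * ((x⁻¹ * y * x * y⁻¹) * y ^ 2) := by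
    rw [pow_two, pow_two, pow_two]; group
  have hc : x⁻¹ * y * x * y⁻¹ ∈ Subgroup.zpowers (x ^ 2) := by
    apply h.comm_mem
    have : x⁻¹ * y * x * y⁻¹ = ⁅x⁻¹, y⁆ := by rw [commutatorElement_def]; group
    rw [this, commutator_def]
    exact Subgroup.commutator_mem_commutator (Subgroup.mem_top _) (Subgroup.mem_top _)
  have hrel : (x * y) ^ 2 ∈ Subgroup.zpowers ((x ^ 2) ^ 2) ↔
      ¬ (x⁻¹ * y * x * y⁻¹ ∈ Subgroup.zpowers ((x ^ 2) ^ 2) ↔ y ^ 2 ∈ Subgroup.zpowers ((x ^ 2) ^ 2)) := by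
    rw [hsq, h.mul_mem_four (Subgroup.mem_zpowers _) (Subgroup.mul_mem _ hc (h.sq_mem y)), h.mul_mem_four hc (h.sq_mem y)]
    have := h.sq_not_mem
    tauto
  by_cases h1 : y ^ 2 ∈ Subgroup.zpowers ((x ^ 2) ^ 2) <;>
    by_cases h2 : x⁻¹ * y * x * y⁻¹ ∈ Subgroup.zpowers ((x ^ 2) ^ 2)
  · have h3 : ¬ IsCyclic (F y) := by rw [hcy]; tauto
    have h4 : IsCyclic (F (x * y)) := by rw [hcxy]; tauto
    have h5 : ({F x, F y, F (x * y)} : Finset (Subgroup P)).filter (fun M : Subgroup P => IsCyclic M) = {F x, F (x * y)} := by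
      ext M
      simp only [Finset.mem_filter, Finset.mem_insert, Finset.mem_singleton]
      constructor
      · rintro ⟨rfl | rfl | rfl, h6⟩
        · exact Or.inl rfl
        · exact absurd h6 h3
        · exact Or.inr rfl
      · rintro (rfl | rfl)
        · exact ⟨Or.inl rfl, hcx⟩
        · exact ⟨Or.inr (Or.inr rfl), h4⟩
    rw [h5, Finset.card_pair hd2]
    simp [h2]
  · have h3 : ¬ IsCyclic (F y) := by rw [hcy]; tauto
    have h4 : ¬ IsCyclic (F (x * y)) := by rw [hcxy]; tauto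
    have h5 : ({F x, F y, F (x * y)} : Finset (Subgroup P)).filter (fun M : Subgroup P => IsCyclic M) = {F x} := by
      ext M
      simp only [Finset.mem_filter, Finset.mem_insert, Finset.mem_singleton]
      constructor
      · rintro ⟨rfl | rfl | rfl, h6⟩
        · rfl
        · exact absurd h6 h3
        · exact absurd h6 h4
      · rintro rfl
        exact ⟨Or.inl rfl, hcx⟩
    rw [h5, Finset.card_singleton]
    simp [h2]
  · have h3 : IsCyclic (F y) := by rw [hcy]; tauto
    have h4 : ¬ IsCyclic (F (x * y)) := by rw [hcxy]; tauto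
    have h5 : ({F x, F y, F (x * y)} : Finset (Subgroup P)).filter (fun M : Subgroup P => IsCyclic M) = {F x, F y} := by
      ext M
      simp only [Finset.mem_filter, Finset.mem_insert, Finset.mem_singleton]
      constructor
      · rintro ⟨rfl | rfl | rfl, h6⟩
        · exact Or.inl rfl
        · exact Or.inr rfl
        · exact absurd h6 h4
      · rintro (rfl | rfl)
        · exact ⟨Or.inl rfl, hcx⟩
        · exact ⟨Or.inr (Or.inl rfl), h3⟩
    rw [h5, Finset.card_pair hd1]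
    simp [h2]
  · have h3 : IsCyclic (F y) := by rw [hcy]; tauto
    have h4 : IsCyclic (F (x * y)) := by rw [hcxy]; tauto
    have h5 : ({F x, F y, F (x * y)} : Finset (Subgroup P)).filter (fun M : Subgroup P => IsCyclic M) = {F x, F y, F (x * y)} := by
      apply Finset.filter_true_of_mem
      intro M hM
      simp only [Finset.mem_insert, Finset.mem_singleton] at hM
      rcases hM with rfl | rfl | rfl
      · exact hcx
      · exact h3
      · exact h4
    rw [h5, Finset.card_insert_of_notMem (by simp [hd1, hd2]), Finset.card_pair hd3]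
    simp [h2]

end Data

end

end H73.KulakoffTwo
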