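import Mathlib
import Cfsg.Agent.Lib.H73.KulakoffTwo
import Cfsg.Agent.Lib.H60.MaxClassTwo
import Cfsg.Agent.Lib.H76.MaxClass

/-!
# Kulakoff's theorem for `2`-groups (H73.KulakoffTwoB)
-/

set_option autoImplicit false

open scoped commutatorElement

namespace H73.KulakoffTwoB

open H73.Enum H73.Kulakoff H73.KulakoffTwo

universe u

section

/-- a group of order `16` with commutator subgroup of order `2` has centre of index at most `4` -/
theorem index_center_le {Q : Type*} [Group Q] [Finite Q] (hQ : Nat.card Q = 16) (hc : Nat.card (commutator Q) = 2) :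
    (Subgroup.center Q).index ≤ 4 := by
  have h2 : Fact (Nat.Prime 2) := ⟨Nat.prime_two⟩
  have hp : IsPGroup 2 Q := IsPGroup.iff_card.2 ⟨4, by rw [hQ]; norm_num⟩
  have hnt : Nontrivial Q := Finite.one_lt_card_iff_nontrivial.1 (by rw [hQ]; norm_num)
  have hZ : 2 ≤ Nat.card (Subgroup.center Q) := by
    have : Nontrivial (Subgroup.center Q) := hp.center_nontrivial
    exact Finite.one_lt_card_iff_nontrivial.2 this
  -- centralizers of noncentral elements
  have key : ∀ a : Q, a ∉ Subgroup.center Q → (Subgroup.centralizer ({a} : Set Q)).index = 2 ∧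
      ∀ u ∈ Subgroup.centralizer ({a} : Set Q), ∀ v ∈ Subgroup.centralizer ({a} : Set Q), u * v = v * u := by
    intro a ha
    have h1 := H60.MaxClassTwo.index_centralizer_le a
    rw [hc] at h1
    have h3 : (Subgroup.centralizer ({a} : Set Q)).index ≠ 1 := by
      intro h3
      rw [Subgroup.index_eq_one] at h3
      apply ha
      rw [Subgroup.mem_center_iff]
      intro g
      have : g ∈ Subgroup.centralizer ({a} : Set Q) := by rw [h3]; exact Subgroup.mem_top g
      exact (Subgroup.mem_centralizer_singleton_iff.1 this)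
    have h4 : (Subgroup.centralizer ({a} : Set Q)).index ≠ 0 := Subgroup.index_ne_zero_of_finite
    have h5 : (Subgroup.centralizer ({a} : Set Q)).index = 2 := by lia
    refine ⟨h5, ?_⟩
    obtain ⟨C, hC⟩ : ∃ C, C = Subgroup.centralizer ({a} : Set Q) := ⟨_, rfl⟩
    rw [← hC] at h5 ⊢
    have hCc : Nat.card C = 8 := by
      have := Subgroup.card_mul_index C
      rw [h5, hQ] at this
      lia
    have haC : a ∈ C := by rw [hC, Subgroup.mem_centralizer_singleton_iff]
    have hZC : Subgroup.center Q ≤ C := by
      intro z hz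
      rw [hC, Subgroup.mem_centralizer_singleton_iff]
      exact ((Subgroup.mem_center_iff.1 hz) a).symm
    -- `W = Z(Q)⟨a⟩`
    obtain ⟨W, hW⟩ : ∃ W, W = Subgroup.center Q ⊔ Subgroup.zpowers a := ⟨_, rfl⟩
    have hWC : W ≤ C := by
      rw [hW]
      refine sup_le hZC ?_
      rw [Subgroup.zpowers_le]; exact haC
    have hWcard : 4 ≤ Nat.card W := by
      have h6 := card_mul_relIndex_of_le (show Subgroup.center Q ≤ W by rw [hW]; exact le_sup_left)
      have h7 : (Subgroup.center Q).relIndex W ≠ 1 := by
        intro h7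
        apply ha
        apply Subgroup.relIndex_eq_one.1 h7
        rw [hW]
        exact Subgroup.mem_sup_right (Subgroup.mem_zpowers a)
      have h8 : (Subgroup.center Q).relIndex W ≠ 0 := by
        intro h8
        rw [h8, mul_zero] at h6
        exact absurd h6.symm Nat.card_pos.ne'
      rw [← h6]
      calc 4 = 2 * 2 := rfl
        _ ≤ _ := Nat.mul_le_mul hZ (by lia)
    have hWcent : W.subgroupOf C ≤ Subgroup.center C := by
      intro w hw
      rw [Subgroup.mem_center_iff]
      intro g
      have h6 : (w : Q) ∈ Subgroup.centralizer (C : Set Q) := by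
        have h7 : W ≤ Subgroup.centralizer (C : Set Q) := by
          rw [hW]
          apply sup_le
          · intro z hz
            rw [Subgroup.mem_centralizer_iff]
            intro c _
            exact (Subgroup.mem_center_iff.1 hz) c
          · rw [Subgroup.zpowers_le, Subgroup.mem_centralizer_iff]
            intro c hc
            rw [hC] at hc
            exact (Subgroup.mem_centralizer_singleton_iff.1 hc)
        exact h7 hw
      exact Subtype.ext (Subgroup.mem_centralizer_iff.1 h6 g g.2)
    have hidx : (W.subgroupOf C).index ≤ 2 := by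
      have h6 := Subgroup.card_mul_index (W.subgroupOf C)
      have h7 : Nat.card (W.subgroupOf C) = Nat.card W := Nat.card_congr (Subgroup.subgroupOfEquivOfLe hWC).toEquiv
      rw [h7, hCc] at h6
      by_contra hlt
      push Not at hlt
      nlinarith
    have hn : (W.subgroupOf C).Normal := by
      constructor
      intro w hw g
      have h6 := (Subgroup.mem_center_iff.1 (hWcent hw)) g
      rw [h6, mul_inv_cancel_right]
      exact hw
    have hcyc : IsCyclic (C ⧸ W.subgroupOf C) := by
      have h6 : Nat.card (C ⧸ W.subgroupOf C) ≤ 2 := by rw [← Subgroup.index_eq_card]; exact hidx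
      have h7 : 0 < Nat.card (C ⧸ W.subgroupOf C) := Nat.card_pos
      rcases (by lia : Nat.card (C ⧸ W.subgroupOf C) = 1 ∨ Nat.card (C ⧸ W.subgroupOf C) = 2) with h8 | h8
      · have : Subsingleton (C ⧸ W.subgroupOf C) := (Nat.card_eq_one_iff_unique.1 h8).1
        exact isCyclic_of_subsingleton
      · exact isCyclic_of_prime_card (p := 2) h8
    intro u hu v hv
    have h6 := (MonoidHom.isMulCommutative_of_isCyclic_of_ker_le_center (QuotientGroup.mk' (W.subgroupOf C))
      (by rw [QuotientGroup.ker_mk']; exact hWcent)).is_comm.comm ⟨u, hu⟩ ⟨v, hv⟩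
    exact congrArg Subtype.val h6
  -- two noncommuting elements
  have hne : ∃ a b : Q, ¬ a * b = b * a := by
    by_contra hcon
    push Not at hcon
    have : commutator Q = ⊥ := by
      rw [commutator_def, eq_bot_iff, Subgroup.commutator_le]
      intro a _ b _
      rw [Subgroup.mem_bot, commutatorElement_def, hcon a b]
      group
    rw [this, Subgroup.card_bot] at hc
    exact absurd hc (by norm_num)
  obtain ⟨a, b, hab⟩ := hne
  have ha : a ∉ Subgroup.center Q := fun h => hab ((Subgroup.mem_center_iff.1 h) b).symm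
  have hb : b ∉ Subgroup.center Q := fun h => hab ((Subgroup.mem_center_iff.1 h) a)
  obtain ⟨hai, hac⟩ := key a ha
  obtain ⟨hbi, hbc⟩ := key b hb
  have hsup : Subgroup.centralizer ({a} : Set Q) ⊔ Subgroup.centralizer ({b} : Set Q) = ⊤ := by
    have h1 := isCoatom_of_index (p := 2) hai
    by_contra h3
    have h4 : Subgroup.centralizer ({a} : Set Q) < Subgroup.centralizer ({a} : Set Q) ⊔ Subgroup.centralizer ({b} : Set Q) := by
      refine lt_of_le_of_ne le_sup_left (fun h5 => ?_)
      have h6 : b ∈ Subgroup.centralizer ({a} : Set Q) := by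
        rw [h5]
        apply Subgroup.mem_sup_right
        rw [Subgroup.mem_centralizer_singleton_iff]
      rw [Subgroup.mem_centralizer_singleton_iff] at h6
      exact hab h6.symm
    exact h3 (h1.2 _ h4)
  have hle : Subgroup.centralizer ({a} : Set Q) ⊓ Subgroup.centralizer ({b} : Set Q) ≤ Subgroup.center Q := by
    intro c hcc
    have h1 : Subgroup.centralizer ({a} : Set Q) ⊔ Subgroup.centralizer ({b} : Set Q) ≤ Subgroup.centralizer ({c} : Set Q) := by
      apply sup_le
      · intro g hg
        rw [Subgroup.mem_centralizer_singleton_iff]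
        exact hac g hg c hcc.1
      · intro g hg
        rw [Subgroup.mem_centralizer_singleton_iff]
        exact hbc g hg c hcc.2
    rw [hsup] at h1
    rw [Subgroup.mem_center_iff]
    intro g
    exact Subgroup.mem_centralizer_singleton_iff.1 (h1 (Subgroup.mem_top g))
  calc (Subgroup.center Q).index ≤ (Subgroup.centralizer ({a} : Set Q) ⊓ Subgroup.centralizer ({b} : Set Q)).index :=
        Nat.le_of_dvd (Nat.pos_of_ne_zero Subgroup.index_ne_zero_of_finite) (Subgroup.index_dvd_of_le hle)
    _ ≤ (Subgroup.centralizer ({a} : Set Q)).index * (Subgroup.centralizer ({b} : Set Q)).index := Subgroup.index_inf_le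
    _ = 4 := by rw [hai, hbi]

variable {P : Type u} [Group P] [Finite P]

/-- the number of maximal subgroups `M` with `|M : M'| = 4` is even if `|P : P'| ≠ 4` -/
theorem even_four {n : ℕ} (hn : Nat.card P = 2 ^ n) (hn4 : 4 ≤ n) (hc : ¬ IsCyclic P) (h4 : (commutator P).index ≠ 4) :
    2 ∣ Nat.card {M : Subgroup P // M.index = 2 ∧ (commutator M).index = 4} := by
  classical
  have h2 : Fact (Nat.Prime 2) := ⟨Nat.prime_two⟩
  have : Fintype (Subgroup P) := Fintype.ofFinite _
  have hP : IsPGroup 2 P := IsPGroup.iff_card.2 ⟨n, hn⟩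
  have hnil : Group.IsNilpotent P := hP.isNilpotent
  by_cases hex : ∃ M : Subgroup P, M.index = 2 ∧ (commutator M).index = 4
  swap
  · push Not at hex
    have : IsEmpty {M : Subgroup P // M.index = 2 ∧ (commutator M).index = 4} := ⟨fun M => hex M.1 M.2.1 M.2.2⟩
    rw [Nat.card_of_isEmpty]
    exact dvd_zero _
  obtain ⟨M0, hM0, hM0c⟩ := hex
  have hMc : ∀ M : Subgroup P, M.index = 2 → Nat.card M = 2 ^ (n - 1) := by
    intro M hM
    have h1 := Subgroup.card_mul_index M
    rw [hM, hn] at h1
    have h3 : 2 ^ n = 2 ^ (n - 1) * 2 := by rw [← pow_succ, Nat.sub_add_cancel (by lia)]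
    rw [h3] at h1
    exact Nat.eq_of_mul_eq_mul_right two_pos h1
  have hcomm : ∀ M : Subgroup P, (commutator M).map M.subtype = ⁅M, M⁆ := by
    intro M
    rw [commutator_def, Subgroup.map_commutator, ← MonoidHom.range_eq_map, Subgroup.range_subtype]
  have hccard : ∀ M : Subgroup P, Nat.card (commutator M) = Nat.card (⁅M, M⁆ : Subgroup P) := by
    intro M
    rw [← hcomm, Subgroup.card_map_of_injective M.subtype_injective]
  have hpow : (2 : ℕ) ^ (n - 1) = 2 ^ (n - 3) * 4 := by
    rw [show (4 : ℕ) = 2 ^ 2 by norm_num, ← pow_add]; congr 1; lia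
  have hpow' : (2 : ℕ) ^ n = 2 ^ (n - 3) * 8 := by
    rw [show (8 : ℕ) = 2 ^ 3 by norm_num, ← pow_add]; congr 1; lia
  have hposn : 0 < 2 ^ (n - 3) := pow_pos two_pos _
  have hiff4 : ∀ M : Subgroup P, M.index = 2 → ((commutator M).index = 4 ↔ Nat.card (⁅M, M⁆ : Subgroup P) = 2 ^ (n - 3)) := by
    intro M hM
    have h1 := Subgroup.card_mul_index (commutator M)
    rw [hccard, hMc M hM, hpow] at h1
    constructor
    · intro h
      rw [h] at h1
      exact Nat.eq_of_mul_eq_mul_right (by norm_num) h1
    · intro h
      rw [h] at h1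
      exact Nat.eq_of_mul_eq_mul_left hposn h1
  -- `D = P'`
  have hMle : ∀ M : Subgroup P, ⁅M, M⁆ ≤ commutator P := by
    intro M
    rw [commutator_def]
    exact Subgroup.commutator_mono le_top le_top
  have hD0 : Nat.card (⁅M0, M0⁆ : Subgroup P) = 2 ^ (n - 3) := (hiff4 M0 hM0).1 hM0c
  have hPidx : 8 ≤ (commutator P).index := by
    obtain ⟨j, hj⟩ := hP.index (commutator P)
    have h1 : 4 ∣ (commutator P).index := by
      have h3 := sq_dvd_index_frattini hP hc
      have h5 : (frattini P).index ∣ (commutator P).index := Subgroup.index_dvd_of_le H1.Frat.commutator_le_frattini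
      exact (by simpa using h3 : 4 ∣ (frattini P).index).trans h5
    rw [hj] at h1 h4 ⊢
    have h3 : j ≠ 0 := by rintro rfl; norm_num at h1
    have h5 : j ≠ 1 := by rintro rfl; norm_num at h1
    have h6 : j ≠ 2 := by rintro rfl; norm_num at h4
    calc 8 = 2 ^ 3 := by norm_num
      _ ≤ 2 ^ j := Nat.pow_le_pow_right two_pos (by lia)
  have hDcard : Nat.card (commutator P) = 2 ^ (n - 3) := by
    apply le_antisymm
    · have h1 := Subgroup.card_mul_index (commutator P)
      rw [hn, hpow'] at h1
      have h3 : Nat.card (commutator P) * 8 ≤ 2 ^ (n - 3) * 8 := by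
        rw [← h1]
        exact Nat.mul_le_mul_left _ hPidx
      exact Nat.le_of_mul_le_mul_right h3 (by norm_num)
    · rw [← hD0]
      exact Subgroup.card_le_of_le (hMle M0)
  have hD0eq : ⁅M0, M0⁆ = commutator P := Subgroup.eq_of_le_of_card_ge (hMle M0) (by rw [hDcard, hD0])
  -- `D` is cyclic
  obtain ⟨a, k, ha, hai⟩ := H76.MaxClass.exists_cyclic_index_two (n - 4) M0 (by rw [hMc M0 hM0]; congr 1; lia) hM0c
  have hDa : commutator M0 ≤ Subgroup.zpowers a := by
    have := isCoatom_of_index (p := 2) hai
    have hnil0 : Group.IsNilpotent M0 := (hP.to_subgroup M0).isNilpotent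
    exact H1.Frat.commutator_le_of_isCoatom this
  have hDcyc : IsCyclic (commutator P) := by
    have h1 : IsCyclic (commutator M0) := by
      have : IsCyclic ((commutator M0).subgroupOf (Subgroup.zpowers a)) := inferInstance
      exact isCyclic_of_surjective (Subgroup.subgroupOfEquivOfLe hDa) (Subgroup.subgroupOfEquivOfLe hDa).surjective
    have h3 : (commutator M0).map M0.subtype = commutator P := by rw [hcomm, hD0eq]
    rw [← h3]
    exact isCyclic_of_surjective ((commutator M0).equivMapOfInjective M0.subtype M0.subtype_injective)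
      ((commutator M0).equivMapOfInjective M0.subtype M0.subtype_injective).surjective
  obtain ⟨d, hd⟩ := (Subgroup.isCyclic_iff_exists_zpowers_eq_top (commutator P)).1 hDcyc
  have hdo : orderOf d = 2 ^ (n - 3) := by rw [← Nat.card_zpowers, hd, hDcard]
  obtain ⟨D2, hD2⟩ : ∃ D2, D2 = Subgroup.zpowers (d ^ 2) := ⟨_, rfl⟩
  have hpow3 : (2 : ℕ) ^ (n - 3) = 2 ^ (n - 4) * 2 := by rw [← pow_succ]; congr 1; lia
  have hD2c : Nat.card D2 = 2 ^ (n - 4) := by
    rw [hD2, Nat.card_zpowers, orderOf_pow_of_dvd two_ne_zero (by rw [hdo, hpow3]; exact dvd_mul_left _ _), hdo, hpow3,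
      Nat.mul_div_cancel _ two_pos]
  have hD2n : D2.Normal := by
    constructor
    rw [hD2]
    rintro _ ⟨i, rfl⟩ g
    have h1 : g * d * g⁻¹ ∈ Subgroup.zpowers d := by
      have hN : (commutator P).Normal := inferInstance
      rw [hd]
      exact hN.conj_mem d (by rw [← hd]; exact Subgroup.mem_zpowers d) g
    obtain ⟨j, hj⟩ := h1
    simp only at hj ⊢
    rw [← conj_zpow, ← conj_pow, ← hj]
    have h3 : (d ^ j) ^ 2 = (d ^ 2) ^ j := by
      rw [← zpow_natCast, ← zpow_natCast, ← zpow_mul, ← zpow_mul, mul_comm]
    rw [h3]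
    exact Subgroup.zpow_mem _ (Subgroup.zpow_mem _ (Subgroup.mem_zpowers _) _) _
  have hD2le : D2 ≤ commutator P := by
    rw [hD2, ← hd, Subgroup.zpowers_le]
    exact Subgroup.pow_mem _ (Subgroup.mem_zpowers d) 2
  have hPnot : ¬ commutator P ≤ D2 := by
    intro h
    have := Subgroup.card_le_of_le h
    rw [hDcard, hD2c, hpow3] at this
    have : 0 < 2 ^ (n - 4) := pow_pos two_pos _
    lia
  -- criterion
  have hiff : ∀ M : Subgroup P, M.index = 2 → ((commutator M).index = 4 ↔ ¬ ⁅M, M⁆ ≤ D2) := by
    intro M hM
    rw [hiff4 M hM]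
    constructor
    · intro h hle
      apply hPnot
      have : ⁅M, M⁆ = commutator P := Subgroup.eq_of_le_of_card_ge (hMle M) (by rw [hDcard, h])
      rw [← this]
      exact hle
    · intro h
      obtain ⟨g, hg, hg2⟩ := SetLike.not_le_iff_exists.1 h
      have h1 := zpowers_eq_of_not_mem hdo (by rw [hd]; exact hMle M hg) (by rw [← hD2]; exact hg2)
      have h3 : ⁅M, M⁆ = commutator P := by
        apply le_antisymm (hMle M)
        rw [← hd, ← h1, Subgroup.zpowers_le]
        exact hg
      rw [h3, hDcard]
  -- the centre mod `D2`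
  obtain ⟨Z, hZ⟩ : ∃ Z, Z = (Subgroup.center (P ⧸ D2)).comap (QuotientGroup.mk' D2) := ⟨_, rfl⟩
  have hZmem : ∀ g, g ∈ Z ↔ ∀ h, ⁅g, h⁆ ∈ D2 := by
    intro g
    rw [hZ, Subgroup.mem_comap, Subgroup.mem_center_iff]
    constructor
    · intro h1 h
      rw [← QuotientGroup.eq_one_iff]
      have h3 := h1 (h : P ⧸ D2)
      show ((g * h * g⁻¹ * h⁻¹ : P) : P ⧸ D2) = 1
      rw [QuotientGroup.mk_mul, QuotientGroup.mk_mul, QuotientGroup.mk_mul, QuotientGroup.mk_inv, QuotientGroup.mk_inv]
      have h5 : (h : P ⧸ D2) * g = g * h := h3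
      rw [← h5]
      group
    · intro h1 y
      obtain ⟨h, rfl⟩ := QuotientGroup.mk_surjective y
      have h3 := (QuotientGroup.eq_one_iff _).2 (h1 h)
      have h5 : ((g * h * g⁻¹ * h⁻¹ : P) : P ⧸ D2) = 1 := h3
      rw [QuotientGroup.mk_mul, QuotientGroup.mk_mul, QuotientGroup.mk_mul, QuotientGroup.mk_inv, QuotientGroup.mk_inv,
        mul_inv_eq_one, mul_inv_eq_iff_eq_mul] at h5
      exact h5.symm
  have hQ16 : Nat.card (P ⧸ D2) = 16 := by
    have h1 := Subgroup.card_eq_card_quotient_mul_card_subgroup D2
    rw [hn, hD2c] at h1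
    have h3 : (2 : ℕ) ^ n = 16 * 2 ^ (n - 4) := by
      rw [show (16 : ℕ) = 2 ^ 4 by norm_num, ← pow_add]; congr 1; lia
    rw [h3] at h1
    exact (Nat.eq_of_mul_eq_mul_right (pow_pos two_pos _) h1).symm
  have hQc : Nat.card (commutator (P ⧸ D2)) = 2 := by
    have h1 : commutator (P ⧸ D2) = (commutator P).map (QuotientGroup.mk' D2) := by
      rw [commutator_def, commutator_def, Subgroup.map_commutator, Subgroup.map_top_of_surjective _ (QuotientGroup.mk'_surjective D2)]
    rw [h1, ← Subgroup.relIndex_ker, QuotientGroup.ker_mk']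
    have h3 := card_mul_relIndex_of_le hD2le
    rw [hD2c, hDcard, hpow3] at h3
    exact Nat.eq_of_mul_eq_mul_left (pow_pos two_pos _) h3
  have hZidx : Z.index ≤ 4 := by
    rw [hZ, Subgroup.index_comap_of_surjective _ (QuotientGroup.mk'_surjective D2)]
    exact index_center_le hQ16 hQc
  have hZtop : Z ≠ ⊤ := by
    intro h
    apply hPnot
    rw [commutator_def, Subgroup.commutator_le]
    intro a _ b _
    exact (hZmem a).1 (by rw [h]; exact Subgroup.mem_top a) b
  have hcrit : ∀ M : Subgroup P, M.index = 2 → (⁅M, M⁆ ≤ D2 ↔ Z ≤ M) := by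
    intro M hM
    have hMn : M.Normal := Subgroup.normal_of_index_eq_two hM
    constructor
    · intro hle
      by_contra hZM
      apply hPnot
      have hsup : M ⊔ Z = ⊤ := by
        by_contra h
        have h1 : M < M ⊔ Z := lt_of_le_of_ne le_sup_left (fun h3 => hZM (by rw [h3]; exact le_sup_right))
        exact h ((isCoatom_of_index (p := 2) hM).2 _ h1)
      -- every element commutes with `M` mod `D2`
      have h1 : ∀ g : P, ∀ m ∈ M, ⁅m, g⁆ ∈ D2 := by
        intro g m hm
        have hg : g ∈ M ⊔ Z := by rw [hsup]; exact Subgroup.mem_top g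
        obtain ⟨m', hm', z, hz, rfl⟩ := Subgroup.mem_sup_of_normal_left.1 hg
        have e : ⁅m, m' * z⁆ = ⁅m, m'⁆ * (m' * ⁅z, m⁆⁻¹ * m'⁻¹) := by
          rw [commutatorElement_def, commutatorElement_def, commutatorElement_def]; group
        rw [e]
        refine D2.mul_mem (hle (Subgroup.commutator_mem_commutator hm hm')) ?_
        exact hD2n.conj_mem _ (D2.inv_mem ((hZmem z).1 hz m)) m'
      rw [commutator_def, Subgroup.commutator_le]
      intro a _ b _
      have ha : a ∈ M ⊔ Z := by rw [hsup]; exact Subgroup.mem_top a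
      obtain ⟨m', hm', z, hz, rfl⟩ := Subgroup.mem_sup_of_normal_left.1 ha
      have e : ⁅m' * z, b⁆ = (m' * ⁅z, b⁆ * m'⁻¹) * ⁅m', b⁆ := by
        rw [commutatorElement_def, commutatorElement_def, commutatorElement_def]; group
      rw [e]
      exact D2.mul_mem (hD2n.conj_mem _ ((hZmem z).1 hz b) m') (h1 b m' hm')
    · intro hZM
      have hrel : Z.relIndex M ≤ 2 := by
        have h1 := Subgroup.relIndex_mul_index hZM
        rw [hM] at h1
        lia
      rw [Subgroup.commutator_le]
      by_cases hall : M ≤ Z
      · intro a ha b _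
        exact (hZmem a).1 (hall ha) b
      · obtain ⟨m0, hm0, hm0Z⟩ := SetLike.not_le_iff_exists.1 hall
        have hZr : (Z.subgroupOf M).index = 2 := by
          have h1 : Z.relIndex M ≠ 1 := fun h => hall (Subgroup.relIndex_eq_one.1 h)
          have h3 : Z.relIndex M ≠ 0 := by
            intro h3
            have h5 := card_mul_relIndex_of_le hZM
            rw [h3, mul_zero] at h5
            exact absurd h5.symm Nat.card_pos.ne'
          show Z.relIndex M = 2
          lia
        have hdec : ∀ m ∈ M, m ∈ Z ∨ ∃ z ∈ Z, m = m0 * z := by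
          intro m hm
          by_cases hmZ : m ∈ Z
          · exact Or.inl hmZ
          · right
            refine ⟨m0⁻¹ * m, ?_, by group⟩
            have h1 : ((⟨m0, hm0⟩ : M)⁻¹ * ⟨m, hm⟩) ∈ Z.subgroupOf M := by
              rw [Subgroup.mul_mem_iff_of_index_two hZr, Subgroup.inv_mem_iff, Subgroup.mem_subgroupOf, Subgroup.mem_subgroupOf]
              exact ⟨fun h => absurd h hm0Z, fun h => absurd h hmZ⟩
            exact h1
        have hinvz : ∀ z ∈ Z, ∀ g : P, ⁅g, z⁆ ∈ D2 := by
          intro z hz g
          have := D2.inv_mem ((hZmem z).1 hz g)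
          rwa [commutatorElement_inv] at this
        intro a ha b hb
        rcases hdec a ha with ha' | ⟨z, hz, rfl⟩
        · exact (hZmem a).1 ha' b
        · rcases hdec b hb with hb' | ⟨w, hw, rfl⟩
          · exact hinvz b hb' _
          · have e : ⁅m0 * z, m0 * w⁆ = (m0 * ⁅z, m0 * w⁆ * m0⁻¹) * (m0 * ⁅m0, w⁆ * m0⁻¹) := by
              rw [commutatorElement_def, commutatorElement_def, commutatorElement_def]; group
            rw [e]
            exact D2.mul_mem (hD2n.conj_mem _ ((hZmem z).1 hz _) m0) (hD2n.conj_mem _ (hinvz w hw m0) m0)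
  -- count
  have hall := card_max hP hc
  have hN : Z ⊔ frattini P ≠ ⊤ := fun h => hZtop (frattini_nongenerating h)
  have hE := (key hP (N := Z ⊔ frattini P) le_sup_right hN).1
  have h1 : Nat.card {M : Subgroup P // M.index = 2} =
      Nat.card {M : Subgroup P // M.index = 2 ∧ (commutator M).index = 4} +
        Nat.card {M : Subgroup P // Z ⊔ frattini P ≤ M ∧ M.index = 2} := by
    rw [Nat.card_eq_fintype_card, Nat.card_eq_fintype_card, Nat.card_eq_fintype_card, Fintype.card_subtype,
      Fintype.card_subtype, Fintype.card_subtype, ← Finset.card_union_of_disjoint]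
    · congr 1
      ext M
      simp only [Finset.mem_filter, Finset.mem_univ, true_and, Finset.mem_union, sup_le_iff]
      constructor
      · intro h
        by_cases hZM : Z ≤ M
        · exact Or.inr ⟨⟨hZM, frattini_le_of_index (p := 2) h⟩, h⟩
        · refine Or.inl ⟨h, (hiff M h).2 (fun h3 => hZM ((hcrit M h).1 h3))⟩
      · rintro (h | h)
        · exact h.1
        · exact h.2
    · rw [Finset.disjoint_left]
      intro M h3 h5
      simp only [Finset.mem_filter, Finset.mem_univ, true_and, sup_le_iff] at h3 h5
      exact (hiff M h3.1).1 h3.2 ((hcrit M h3.1).2 h5.1.1)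
  rw [h1] at hall
  have h3 : Nat.card {M : Subgroup P // Z ⊔ frattini P ≤ M ∧ M.index = 2} % 2 = 1 := by
    have := hE.of_dvd (dvd_pow_self 2 two_ne_zero)
    unfold Nat.ModEq at this
    lia
  have h5 := hall.of_dvd (dvd_pow_self 2 two_ne_zero)
  unfold Nat.ModEq at h5
  lia

/-- existence of a cyclic maximal subgroup gives `Data` -/
theorem card_cyclic_mod {n : ℕ} (hn : Nat.card P = 2 ^ n) (hn3 : 3 ≤ n) (hc : ¬ IsCyclic P) :
    Nat.card {M : Subgroup P // M.index = 2 ∧ IsCyclic M} % 2 = 1 ↔ (commutator P).index = 4 := by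
  by_cases hex : ∃ x : P, (Subgroup.zpowers x).index = 2
  · obtain ⟨x, hx⟩ := hex
    exact (Data.mk hn hn3 hc hx).card_cyclic_odd_iff
  · constructor
    · intro h
      exfalso
      have : IsEmpty {M : Subgroup P // M.index = 2 ∧ IsCyclic M} := by
        refine ⟨fun M => ?_⟩
        obtain ⟨x, hx⟩ := (Subgroup.isCyclic_iff_exists_zpowers_eq_top M.1).1 M.2.2
        exact hex ⟨x, by rw [hx]; exact M.2.1⟩
      rw [Nat.card_of_isEmpty] at h
      exact absurd h (by norm_num)
    · intro h
      exfalso
      obtain ⟨a, k, -, hai⟩ := H76.MaxClass.exists_cyclic_index_two (n - 3) P (by rw [hn]; congr 1; lia) h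
      exact hex ⟨a, hai⟩

/-- in a `2`-group with `|P : P'| = 4` the noncyclic maximal subgroups have the same property -/
theorem index_commutator_max {n : ℕ} {x : P} (h : Data P n x) (hidx : (commutator P).index = 4) {M : Subgroup P}
    (hM : M.index = 2) (hc : ¬ IsCyclic M) : (commutator M).index = 4 := by
  have h2 : Fact (Nat.Prime 2) := ⟨Nat.prime_two⟩
  have h3 := h.three
  have hMp : IsPGroup 2 M := h.pgroup.to_subgroup M
  have hMnil : Group.IsNilpotent M := hMp.isNilpotent
  have hex : ∃ g ∈ M, g ∉ Subgroup.zpowers x := by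
    by_contra hcon
    push Not at hcon
    apply hc
    have : M = Subgroup.zpowers x := by
      apply Subgroup.eq_of_le_of_card_ge hcon
      rw [h.card_M hM, h.card_M h.idx]
    rw [this]
    infer_instance
  obtain ⟨g, hg, hgx⟩ := hex
  have hcL := (h.index_commutator_iff hgx).1 hidx
  have hcm : x⁻¹ * g * x * g⁻¹ ∈ Subgroup.zpowers (x ^ 2) := by
    apply h.comm_mem
    have : x⁻¹ * g * x * g⁻¹ = ⁅x⁻¹, g⁆ := by rw [commutatorElement_def]; group
    rw [this, commutator_def]
    exact Subgroup.commutator_mem_commutator (Subgroup.mem_top _) (Subgroup.mem_top _)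
  obtain ⟨c, hcdef⟩ : ∃ c, c = x⁻¹ * g * x * g⁻¹ := ⟨_, rfl⟩
  rw [← hcdef] at hcL hcm
  have hcz := zpowers_eq_of_not_mem h.orderOf_sq hcm hcL
  have hco : orderOf c = 2 ^ (n - 2) := by
    rw [← Nat.card_zpowers, hcz, Nat.card_zpowers, h.orderOf_sq]
  have hpow : (2 : ℕ) ^ (n - 2) = 2 ^ (n - 3) * 2 := by rw [← pow_succ]; congr 1; lia
  have hc2o : orderOf (c ^ 2) = 2 ^ (n - 3) := by
    rw [orderOf_pow_of_dvd two_ne_zero (by rw [hco, hpow]; exact dvd_mul_left _ _), hco, hpow, Nat.mul_div_cancel _ two_pos]
  have hcx : x⁻¹ * c * x = c := by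
    obtain ⟨i, hi⟩ := hcm
    simp only at hi
    have : Commute x c := by
      rw [← hi]
      exact ((Commute.refl x).pow_right 2).zpow_right i
    rw [mul_assoc, ← this.eq, inv_mul_cancel_left]
  have hgx' : g * x * g⁻¹ = x * c := by rw [hcdef]; group
  have hw : ⁅(x ^ 2)⁻¹, g⁆ = c ^ 2 := by
    have e : ⁅(x ^ 2)⁻¹, g⁆ = x⁻¹ * (x⁻¹ * (g * x * g⁻¹)) * (g * x * g⁻¹) := by
      have e2 : x ^ 2 = x * x := pow_two x
      rw [commutatorElement_def, inv_inv, e2, mul_inv_rev]
      simp only [mul_assoc, inv_mul_cancel_left]
    rw [e, hgx', inv_mul_cancel_left, ← mul_assoc, hcx, pow_two]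
  have hx2M : x ^ 2 ∈ M := h.sq_le hM (Subgroup.mem_zpowers _)
  have hmem : c ^ 2 ∈ ⁅M, M⁆ := by
    rw [← hw]
    exact Subgroup.commutator_mem_commutator (M.inv_mem hx2M) hg
  have hcomm : (commutator M).map M.subtype = ⁅M, M⁆ := by
    rw [commutator_def, Subgroup.map_commutator, ← MonoidHom.range_eq_map, Subgroup.range_subtype]
  have hcard : 2 ^ (n - 3) ≤ Nat.card (commutator M) := by
    have h4 : Nat.card (commutator M) = Nat.card (⁅M, M⁆ : Subgroup P) := by
      rw [← hcomm, Subgroup.card_map_of_injective M.subtype_injective]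
    rw [h4, ← hc2o, ← Nat.card_zpowers]
    apply Subgroup.card_le_of_le
    rwa [Subgroup.zpowers_le]
  have h5 := Subgroup.card_mul_index (commutator M)
  rw [h.card_M hM] at h5
  have hpow1 : (2 : ℕ) ^ (n - 1) = 2 ^ (n - 3) * 4 := by
    rw [show (4 : ℕ) = 2 ^ 2 by norm_num, ← pow_add]; congr 1; lia
  rw [hpow1] at h5
  have h6 : 4 ≤ (commutator M).index := by
    have h7 := sq_dvd_index_frattini hMp hc
    have h8 : (frattini M).index ∣ (commutator M).index := Subgroup.index_dvd_of_le H1.Frat.commutator_le_frattini
    exact Nat.le_of_dvd (Nat.pos_of_ne_zero Subgroup.index_ne_zero_of_finite)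
      ((by simpa using h7 : 4 ∣ (frattini M).index).trans h8)
  have hpos : 0 < 2 ^ (n - 3) := pow_pos two_pos _
  apply le_antisymm _ h6
  have h7 : 2 ^ (n - 3) * (commutator M).index ≤ 2 ^ (n - 3) * 4 := by
    rw [← h5]
    exact Nat.mul_le_mul_right _ hcard
  exact Nat.le_of_mul_le_mul_left h7 hpos

end

/-- Kulakoff's theorem for `p = 2` -/
theorem kulakoff_two (a : ℕ) (ha : 1 ≤ a) :
    ∀ (n : ℕ) (P : Type u) [Group P] [Finite P], Nat.card P = 2 ^ n → ¬ IsCyclic P → a < n →
      Nat.card {H : Subgroup P // Nat.card H = 2 ^ a} ≡ (if (commutator P).index = 4 ∧ a + 2 ≤ n then 1 else 3) [MOD 4] := by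
  intro n
  induction n using Nat.strong_induction_on with
  | _ n ih =>
    intro P _ _ hn hc han
    classical
    have h2 : Fact (Nat.Prime 2) := ⟨Nat.prime_two⟩
    have : Fintype (Subgroup P) := Fintype.ofFinite _
    have hP : IsPGroup 2 P := IsPGroup.iff_card.2 ⟨n, hn⟩
    by_cases hlast : a = n - 1
    · have h1 : Nat.card {H : Subgroup P // Nat.card H = 2 ^ a} = Nat.card {M : Subgroup P // M.index = 2} := by
        apply Nat.card_congr
        apply Equiv.subtypeEquivRight
        intro M
        have h4 := Subgroup.card_mul_index M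
        rw [hn] at h4
        have h5 : 2 ^ n = 2 ^ a * 2 := by rw [← pow_succ]; congr 1; lia
        rw [h5] at h4
        constructor
        · intro h
          rw [h] at h4
          exact Nat.eq_of_mul_eq_mul_left (pow_pos two_pos a) h4
        · intro h
          rw [h] at h4
          exact Nat.eq_of_mul_eq_mul_right two_pos h4
      rw [h1, if_neg (by lia)]
      exact card_max hP hc
    · have ha2 : a + 2 ≤ n := by lia
      have henum := enum hP hc hn ha2
      have hcyc := card_cyclic_mod hn (by lia) hc
      have hMc : ∀ M : {M : Subgroup P // M.index = 2}, Nat.card M.1 = 2 ^ (n - 1) := by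
        intro M
        have h1 := Subgroup.card_mul_index M.1
        rw [M.2, hn] at h1
        have h2 : 2 ^ n = 2 ^ (n - 1) * 2 := by rw [← pow_succ, Nat.sub_add_cancel (by lia)]
        rw [h2] at h1
        exact Nat.eq_of_mul_eq_mul_right two_pos h1
      have hsum : ∀ {ι : Type u} (s : Finset ι) (f g : ι → ℕ), (∀ i ∈ s, f i ≡ g i [MOD 4]) →
          ∑ i ∈ s, f i ≡ ∑ i ∈ s, g i [MOD 4] := by
        intro ι s f g h
        induction s using Finset.induction_on with
        | empty => rfl
        | insert i s hi ih =>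
          rw [Finset.sum_insert hi, Finset.sum_insert hi]
          exact Nat.ModEq.add (h i (Finset.mem_insert_self _ _)) (ih fun j hj => h j (Finset.mem_insert_of_mem hj))
      have hmax := card_max hP hc
      have h2a : ∑ M : {M : Subgroup P // M.index = 2}, (if IsCyclic M.1 then 2 else 0) =
          2 * Nat.card {M : Subgroup P // M.index = 2 ∧ IsCyclic M} := by
        rw [← Finset.sum_filter, Finset.sum_const, smul_eq_mul, mul_comm]
        congr 1
        rw [Nat.card_eq_fintype_card, Fintype.card_subtype]
        rw [← Fintype.card_subtype, ← Fintype.card_subtype]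
        apply Fintype.card_congr
        exact (Equiv.subtypeSubtypeEquivSubtypeInter (fun M : Subgroup P => M.index = 2) (fun M => IsCyclic M))
      have h2b : ∑ M : {M : Subgroup P // M.index = 2}, (if (commutator M.1).index = 4 then 2 else 0) =
          2 * Nat.card {M : Subgroup P // M.index = 2 ∧ (commutator M).index = 4} := by
        rw [← Finset.sum_filter, Finset.sum_const, smul_eq_mul, mul_comm]
        congr 1
        rw [Nat.card_eq_fintype_card, Fintype.card_subtype]
        rw [← Fintype.card_subtype, ← Fintype.card_subtype]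
        apply Fintype.card_congr
        exact (Equiv.subtypeSubtypeEquivSubtypeInter (fun M : Subgroup P => M.index = 2) (fun M => (commutator M).index = 4))
      simp only [show (2 : ℕ) ^ 2 = 4 by norm_num] at henum hmax
      by_cases hpen : a + 2 = n
      · -- all noncyclic maximal subgroups contribute `3`
        have hM : ∀ M : {M : Subgroup P // M.index = 2},
            Nat.card {H : Subgroup M.1 // Nat.card H = 2 ^ a} + (if IsCyclic M.1 then 2 else 0) ≡ 3 [MOD 4] := by
          intro M
          split_ifs with h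
          · rw [card_cyclic (C := M.1) (by rw [hMc]; exact pow_dvd_pow 2 (by lia))]
          · rw [add_zero]
            have h3 := ih (n - 1) (by lia) M.1 (hMc M) h (by lia)
            rwa [if_neg (by lia)] at h3
        have h1 := hsum Finset.univ _ _ (fun M _ => hM M)
        rw [Finset.sum_add_distrib, Finset.sum_const, smul_eq_mul, Finset.card_univ, ← Nat.card_eq_fintype_card, h2a] at h1
        unfold Nat.ModEq at *
        by_cases h4 : (commutator P).index = 4
        · rw [if_pos ⟨h4, ha2⟩]
          have h5 := hcyc.2 h4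
          lia
        · rw [if_neg (fun h => h4 h.1)]
          have h5 : Nat.card {M : Subgroup P // M.index = 2 ∧ IsCyclic M} % 2 = 0 := by
            have := fun h => h4 (hcyc.1 h)
            lia
          lia
      · -- `a + 3 ≤ n`
        have hM : ∀ M : {M : Subgroup P // M.index = 2},
            Nat.card {H : Subgroup M.1 // Nat.card H = 2 ^ a} + (if IsCyclic M.1 then 2 else 0) +
              (if (commutator M.1).index = 4 then 2 else 0) ≡ 3 [MOD 4] := by
          intro M
          by_cases h : IsCyclic M.1
          · have h3 : ¬ (commutator M.1).index = 4 := by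
              intro h3
              have h4 : commutator M.1 = ⊥ := by
                rw [commutator_def, eq_bot_iff, Subgroup.commutator_le]
                intro x _ y _
                obtain ⟨g, hg⟩ := h.exists_generator
                obtain ⟨i, rfl⟩ := hg x
                obtain ⟨j, rfl⟩ := hg y
                rw [Subgroup.mem_bot, commutatorElement_def]
                simp only
                rw [← zpow_neg, ← zpow_neg, ← zpow_add, ← zpow_add, ← zpow_add]
                have : i + j + -i + -j = 0 := by ring
                rw [this, zpow_zero]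
              rw [h4, Subgroup.index_bot, hMc] at h3
              have h5 : 2 ^ (n - 1) = 2 ^ 2 := h3
              have := Nat.pow_right_injective le_rfl h5
              lia
            rw [if_pos h, if_neg h3, card_cyclic (C := M.1) (by rw [hMc]; exact pow_dvd_pow 2 (by lia))]
          · rw [if_neg h, add_zero]
            have h3 := ih (n - 1) (by lia) M.1 (hMc M) h (by lia)
            by_cases h4 : (commutator M.1).index = 4
            · rw [if_pos ⟨h4, by lia⟩] at h3
              rw [if_pos h4]
              exact h3.add_right 2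
            · rw [if_neg (fun h5 => h4 h5.1)] at h3
              rw [if_neg h4, add_zero]
              exact h3
        have h1 := hsum Finset.univ _ _ (fun M _ => hM M)
        rw [Finset.sum_add_distrib, Finset.sum_add_distrib, Finset.sum_const, smul_eq_mul, Finset.card_univ,
          ← Nat.card_eq_fintype_card, h2a, h2b] at h1
        by_cases h4 : (commutator P).index = 4
        · -- maximal class: noncyclic maximal subgroups have `|M : M'| = 4`
          have h5 := hcyc.2 h4
          have h6 : Nat.card {M : Subgroup P // M.index = 2} =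
              Nat.card {M : Subgroup P // M.index = 2 ∧ IsCyclic M} +
              Nat.card {M : Subgroup P // M.index = 2 ∧ (commutator M).index = 4} := by
            obtain ⟨x, k, -, hx⟩ := H76.MaxClass.exists_cyclic_index_two (n - 3) P (by rw [hn]; congr 1; lia) h4
            have hdata : Data P n x := ⟨hn, by lia, hc, hx⟩
            rw [Nat.card_eq_fintype_card, Nat.card_eq_fintype_card, Nat.card_eq_fintype_card, Fintype.card_subtype,
              Fintype.card_subtype, Fintype.card_subtype, ← Finset.card_union_of_disjoint]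
            · congr 1
              ext M
              simp only [Finset.mem_filter, Finset.mem_univ, true_and, Finset.mem_union]
              constructor
              · intro h
                by_cases hcM : IsCyclic M
                · exact Or.inl ⟨h, hcM⟩
                · exact Or.inr ⟨h, index_commutator_max hdata h4 h hcM⟩
              · rintro (h | h)
                · exact h.1
                · exact h.1
            · rw [Finset.disjoint_left]
              intro M h7 h8
              simp only [Finset.mem_filter, Finset.mem_univ, true_and] at h7 h8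
              have h9 := hM ⟨M, h7.1⟩
              have h10 : IsCyclic M := h7.2
              rw [if_pos h7.2, if_pos h8.2, card_cyclic (C := M) (by rw [hMc ⟨M, h7.1⟩]; exact pow_dvd_pow 2 (by lia))] at h9
              exact absurd h9 (by decide)
          rw [if_pos ⟨h4, ha2⟩]
          unfold Nat.ModEq at *
          lia
        · have h5 : Nat.card {M : Subgroup P // M.index = 2 ∧ IsCyclic M} % 2 = 0 := by
            have := fun h => h4 (hcyc.1 h)
            lia
          have h6 := even_four hn (by lia) hc h4
          rw [if_neg (fun h => h4 h.1)]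
          unfold Nat.ModEq at *
          lia

end H73.KulakoffTwoB
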