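import Mathlib
import Cfsg.Agent.Lib.H1.Solv
import Cfsg.Agent.Lib.H1.Cores
import Cfsg.Agent.S0144

/-!
Tools for S3406: solvable groups with abelian Sylow 2-subgroups, relative to a bigger group.
-/

set_option autoImplicit false

open Subgroup Cfsg
open scoped Pointwise

namespace H73.Orb

/-- a number with at most two prime divisors -/
theorem eq_pow_mul_pow {n a b : ℕ} (hn : n ≠ 0) (ha : a.Prime) (hb : b.Prime)
    (h : ∀ l : ℕ, l.Prime → l ∣ n → l = a ∨ l = b) : ∃ i j : ℕ, n = a ^ i * b ^ j := by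
  induction n using Nat.strong_induction_on with
  | _ n ih =>
    rcases Nat.lt_or_ge 1 n with h1 | h1
    · have hm := Nat.minFac_prime (n := n) (by omega)
      have hd := Nat.minFac_dvd n
      obtain ⟨m, hm2⟩ := hd
      have hm0 : m ≠ 0 := by rintro rfl; omega
      have hlt : m < n := by
        rw [hm2]
        have h2 := hm.two_le
        have h3 := Nat.pos_of_ne_zero hm0
        rw [← hm2]
        nlinarith
      obtain ⟨i, j, hij⟩ := ih m hlt hm0 (fun l hl hlm => h l hl (by rw [hm2]; exact Dvd.dvd.mul_left hlm _))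
      rcases h _ hm (Nat.minFac_dvd n) with h4 | h4
      · refine ⟨i + 1, j, ?_⟩
        rw [h4] at hm2
        rw [hm2, hij]; ring
      · refine ⟨i, j + 1, ?_⟩
        rw [h4] at hm2
        rw [hm2, hij]; ring
    · refine ⟨0, 0, ?_⟩
      simp
      omega

theorem solv_of_two_primes {X : Type*} [Group X] [Finite X] {a b : ℕ} (ha : a.Prime) (hb : b.Prime)
    (h : ∀ l : ℕ, l.Prime → l ∣ Nat.card X → l = a ∨ l = b) : Group.IsSolvable X := by
  obtain ⟨i, j, hij⟩ := eq_pow_mul_pow (Nat.card_pos.ne') ha hb h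
  exact Cfsg.Agent.S0144.result a b i j ha hb hij

/-- Y of odd order normalized by an abelian Sylow 2-subgroup lies in the core -/
theorem le_core_of_norm {X : Type*} [Group X] [Finite X] (hs : Group.IsSolvable X)
    (T : Sylow 2 X) (hT : IsMulCommutative T) (Y : Subgroup X) (hY : Odd (Nat.card Y))
    (hTY : (T : Subgroup X) ≤ normalizer (Y : Set X)) : Y ≤ pPrimeCore 2 X := by
  haveI : Fact (Nat.Prime 2) := ⟨Nat.prime_two⟩
  set N := pPrimeCore 2 X with hN
  set π := QuotientGroup.mk' N with hπ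
  have hπs : Function.Surjective π := QuotientGroup.mk'_surjective N
  have h1 : ((T : Subgroup X).map π).Normal := by
    have h2 := H1.Solv.sylow_sup_pPrimeCore_normal hs 2 T hT
    have h3 : ((T : Subgroup X) ⊔ N).map π = (T : Subgroup X).map π := by
      rw [Subgroup.map_sup]
      have : N.map π = ⊥ := by
        rw [hπ]; exact QuotientGroup.map_mk'_self N
      rw [this, sup_bot_eq]
    rw [← h3]
    exact Subgroup.Normal.map h2 π hπs
  have h2 : IsPGroup 2 ((T : Subgroup X).map π) := T.isPGroup'.map π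
  have h3 : (T : Subgroup X).map π ≤ pCore 2 (X ⧸ N) := H1.Cores.le_pCore h1 h2
  have hcore : pPrimeCore 2 (X ⧸ N) = ⊥ := H1.Cores.pPrimeCore_quotient_pPrimeCore 2
  have h4 : pCore 2 (X ⧸ N) ≤ (T : Subgroup X).map π := by
    have h5 : ((T.mapSurjective hπs : Sylow 2 (X ⧸ N)) : Subgroup (X ⧸ N)) = (T : Subgroup X).map π := rfl
    rw [← h5]
    exact H1.Cores.pCore_le_sylow _
  have h5 : pCore 2 (X ⧸ N) = (T : Subgroup X).map π := le_antisymm h4 h3
  haveI hsq : Group.IsSolvable (X ⧸ N) := by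
    haveI := hs
    infer_instance
  have h6 := H1.Solv.centralizer_pCore_le hsq 2 hcore
  have hYo : Nat.Coprime (Nat.card (Y.map π)) 2 := by
    have h7 : Nat.card (Y.map π) ∣ Nat.card Y := Subgroup.card_map_dvd _ _
    have h8 : Nat.Coprime (Nat.card Y) 2 := by
      rw [Nat.coprime_comm, Nat.coprime_two_left]; exact hY
    exact Nat.Coprime.coprime_dvd_left h7 h8
  have hdisj : Y.map π ⊓ (T : Subgroup X).map π = ⊥ := by
    apply H1.Coprime.inf_eq_bot_of_coprime_card
    obtain ⟨k, hk⟩ := IsPGroup.iff_card.mp h2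
    rw [hk]
    exact Nat.Coprime.pow_right k hYo
  have h7 : Y.map π ≤ centralizer (pCore 2 (X ⧸ N) : Set (X ⧸ N)) := by
    rw [h5]
    rintro _ ⟨y, hy, rfl⟩
    rw [mem_centralizer_iff]
    rintro _ ⟨t, ht, rfl⟩
    have h8 : π t * π y * (π t)⁻¹ * (π y)⁻¹ ∈ Y.map π ⊓ (T : Subgroup X).map π := by
      refine ⟨?_, ?_⟩
      · have h9 : t * y * t⁻¹ * y⁻¹ ∈ Y := by
          have := mem_normalizer_iff.mp (hTY ht) y
          exact mul_mem (this.mp hy) (inv_mem hy)
        exact ⟨_, h9, by simp⟩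
      · have h9 : π y * (π t)⁻¹ * (π y)⁻¹ ∈ (T : Subgroup X).map π :=
          h1.conj_mem _ (inv_mem ⟨t, ht, rfl⟩) _
        have h10 := mul_mem (⟨t, ht, rfl⟩ : π t ∈ (T : Subgroup X).map π) h9
        rw [← mul_assoc, ← mul_assoc] at h10
        exact h10
    rw [hdisj, mem_bot] at h8
    have h9 : π t * π y * (π t)⁻¹ = π y := mul_inv_eq_one.mp h8
    exact mul_inv_eq_iff_eq_mul.mp h9
  have h8 : Y.map π ≤ ⊥ := by
    rw [← hdisj]
    refine le_inf le_rfl ?_
    rw [← h5]
    exact h7.trans h6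
  intro y hy
  have h9 : π y ∈ (⊥ : Subgroup (X ⧸ N)) := h8 ⟨y, hy, rfl⟩
  rw [mem_bot] at h9
  exact (QuotientGroup.eq_one_iff y).mp h9

variable {G : Type*} [Group G]

/-- relative version, see `L1` -/
structure Rel (C T O : Subgroup G) : Prop where
  le : O ≤ C
  odd : Odd (Nat.card O)
  norm : C ≤ normalizer (O : Set G)
  fac : ∀ x ∈ C, ∃ o ∈ O, ∃ n ∈ C, n ∈ normalizer (T : Set G) ∧ x = o * n
  max : ∀ Y : Subgroup G, Y ≤ C → Odd (Nat.card Y) → T ≤ normalizer (Y : Set G) → Y ≤ O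
  inv : ∀ x ∈ C, (∃ k : ℕ, x ^ 2 ^ k = 1) → ∃ t ∈ T, ∃ o ∈ O, x = t * o

theorem L1 [Finite G] {C T : Subgroup G} (hs : Group.IsSolvable C) (hTC : T ≤ C)
    (hT : IsPGroup 2 T) (hTab : ∀ a ∈ T, ∀ b ∈ T, a * b = b * a) (hTs : ¬ 2 ∣ T.relIndex C) :
    ∃ O : Subgroup G, Rel C T O := by
  haveI : Fact (Nat.Prime 2) := ⟨Nat.prime_two⟩
  have hT' : IsPGroup 2 (T.subgroupOf C) := hT.comap_subtype
  obtain ⟨T1, hT1⟩ : ∃ T1 : Sylow 2 C, (T1 : Subgroup C) = T.subgroupOf C :=
    ⟨hT'.toSylow hTs, rfl⟩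
  have hc : IsMulCommutative T1 := by
    refine ⟨⟨?_⟩⟩
    rintro ⟨a, ha⟩ ⟨b, hb⟩
    have ha' : a ∈ T.subgroupOf C := by rw [← hT1]; exact ha
    have hb' : b ∈ T.subgroupOf C := by rw [← hT1]; exact hb
    have := hTab a ha' b hb'
    ext
    exact this
  set N := pPrimeCore 2 C with hN
  have hnorm := H1.Solv.sylow_sup_pPrimeCore_normal hs 2 T1 hc
  have hNodd : Odd (Nat.card N) := by
    have := H1.Cores.coprime_card_pPrimeCore (G := C) 2
    rw [Nat.coprime_comm, Nat.coprime_two_left] at this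
    exact this
  have hcardN : Nat.card (N.map C.subtype) = Nat.card N :=
    Nat.card_congr (Subgroup.equivMapOfInjective N C.subtype C.subtype_injective).toEquiv.symm
  refine ⟨N.map C.subtype, ?_, ?_, ?_, ?_, ?_, ?_⟩
  · exact Subgroup.map_subtype_le N
  · rw [hcardN]; exact hNodd
  · intro x hx
    apply Subgroup.mem_normalizer_iff.mpr
    intro y
    have hNn : N.Normal := inferInstance
    constructor
    · rintro ⟨z, hz, rfl⟩
      exact ⟨⟨x, hx⟩ * z * ⟨x, hx⟩⁻¹, hNn.conj_mem _ hz _, by simp⟩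
    · rintro ⟨z, hz, hz2⟩
      refine ⟨⟨x, hx⟩⁻¹ * z * ⟨x, hx⟩, by simpa using hNn.conj_mem _ hz (⟨x, hx⟩ : C)⁻¹, ?_⟩
      have : (z : G) = x * y * x⁻¹ := hz2
      simp [this, mul_assoc]
  · -- Frattini
    intro x hx
    have hTle : (T1 : Subgroup C) ≤ (T1 : Subgroup C) ⊔ N := le_sup_left
    set M := (T1 : Subgroup C) ⊔ N with hM
    haveI : M.Normal := hnorm
    let T2 : Sylow 2 M := T1.subtype hTle
    have hfr := Sylow.normalizer_sup_eq_top (p := 2) (N := M) T2
    have hmap : (T2 : Subgroup M).map M.subtype = (T1 : Subgroup C) := by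
      change ((T1 : Subgroup C).subgroupOf M).map M.subtype = _
      rw [Subgroup.subgroupOf_map_subtype, inf_eq_left.mpr hTle]
    rw [hmap] at hfr
    have hx2 : (⟨x, hx⟩ : C) ∈ (normalizer ((T1 : Subgroup C) : Set C)) ⊔ N := by
      have : (normalizer ((T1 : Subgroup C) : Set C)) ⊔ N = ⊤ := by
        rw [eq_top_iff, ← hfr]
        refine sup_le le_sup_left ?_
        rw [hM]
        exact sup_le (le_normalizer.trans le_sup_left) le_sup_right
      rw [this]; trivial
    rw [sup_comm] at hx2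
    rw [← SetLike.mem_coe, Subgroup.normal_mul] at hx2
    obtain ⟨o, ho, n, hn, hon⟩ := hx2
    refine ⟨o, ⟨o, ho, rfl⟩, n, n.2, ?_, ?_⟩
    · apply Subgroup.mem_normalizer_iff.mpr
      intro y
      have hn' := Subgroup.mem_normalizer_iff.mp hn
      constructor
      · intro hy
        have := (hn' ⟨y, hTC hy⟩).mp (by rw [hT1]; exact hy)
        rw [hT1] at this
        exact this
      · intro hy
        have hyC : y ∈ C := by
          have h1 := mul_mem (mul_mem (inv_mem n.2) (hTC hy)) n.2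
          simpa [mul_assoc] using h1
        have := (hn' ⟨y, hyC⟩).mpr (by rw [hT1]; exact hy)
        rw [hT1] at this
        exact this
    · have := congrArg (Subtype.val) hon
      simpa using this.symm
  · intro Y hYC hYo hYn
    have h1 := le_core_of_norm hs T1 hc (Y.subgroupOf C) (by
      rw [Nat.card_congr (Subgroup.subgroupOfEquivOfLe hYC).toEquiv]; exact hYo) (by
      intro t ht
      have ht' : (t : G) ∈ T := by
        have : t ∈ T.subgroupOf C := by rw [← hT1]; exact ht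
        exact this
      apply Subgroup.mem_normalizer_iff.mpr
      intro y
      exact Subgroup.mem_normalizer_iff.mp (hYn ht') y)
    intro y hy
    exact ⟨⟨y, hYC hy⟩, h1 hy, rfl⟩
  · rintro x hx ⟨k, hk⟩
    have hTle : (T1 : Subgroup C) ≤ (T1 : Subgroup C) ⊔ N := le_sup_left
    set M := (T1 : Subgroup C) ⊔ N with hM
    haveI hMn : M.Normal := hnorm
    -- x lies in M
    have hx2 : (⟨x, hx⟩ : C) ∈ M := by
      obtain ⟨Q, hQ⟩ := (IsPGroup.of_card (p := 2) (G := zpowers (⟨x, hx⟩ : C)) (n := (orderOf (⟨x, hx⟩ : C)).factorization 2) (by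
        rw [Nat.card_zpowers]
        have h1 : orderOf (⟨x, hx⟩ : C) ∣ 2 ^ k := by
          apply orderOf_dvd_of_pow_eq_one
          ext
          simpa using hk
        obtain ⟨j, -, hj⟩ := (Nat.dvd_prime_pow Nat.prime_two).mp h1
        rw [hj]
        simp [Nat.Prime.factorization_self Nat.prime_two])).exists_le_sylow
      obtain ⟨g, hg⟩ := MulAction.exists_smul_eq C T1 Q
      have h2 : (⟨x, hx⟩ : C) ∈ (Q : Subgroup C) := hQ (mem_zpowers _)
      rw [← hg] at h2
      have h3 : (⟨x, hx⟩ : C) ∈ MulAut.conj g • (T1 : Subgroup C) := h2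
      obtain ⟨y, hy, hy2⟩ := h3
      have : (⟨x, hx⟩ : C) = g * y * g⁻¹ := by rw [← hy2]; rfl
      rw [this]
      exact hMn.conj_mem _ (hTle hy) _
    rw [← SetLike.mem_coe, hM, Subgroup.mul_normal] at hx2
    obtain ⟨t, ht, o, ho, hto⟩ := hx2
    refine ⟨t, ?_, o, ⟨o, ho, rfl⟩, ?_⟩
    · have : t ∈ T.subgroupOf C := by rw [← hT1]; exact ht
      exact this
    · have := congrArg (Subtype.val) hto
      simpa using this.symm

end H73.Orb
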