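import Mathlib
import Cfsg.Agent.Lib.H73.Orb1

/-!
Tools for S3406: groups whose element orders are `1, 2, p, q, 2p`, each order a single orbit.
-/

set_option autoImplicit false

open Subgroup Cfsg
open scoped Pointwise

namespace H73.Orb

structure Sp (G : Type*) [Group G] (p q : ℕ) : Prop where
  hp : p.Prime
  hq : q.Prime
  p2 : p ≠ 2
  q2 : q ≠ 2
  pq : p ≠ q
  spec : ∀ g : G, orderOf g = 1 ∨ orderOf g = 2 ∨ orderOf g = p ∨ orderOf g = q ∨ orderOf g = 2 * p
  e2p : ∃ g : G, orderOf g = 2 * p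
  eq : ∃ g : G, orderOf g = q
  tr : ∀ x y : G, orderOf x = orderOf y → ∃ α : MulAut G, α x = y

variable {G : Type*} [Group G] {p q : ℕ}

namespace Sp

variable (h : Sp G p q)
include h

theorem p3 : 3 ≤ p := by
  have := h.hp.two_le; have := h.p2; omega

theorem q3 : 3 ≤ q := by
  have := h.hq.two_le; have := h.q2; omega

theorem podd : Odd p := h.hp.odd_of_ne_two h.p2
theorem qodd : Odd q := h.hq.odd_of_ne_two h.q2

theorem cop2p : Nat.Coprime 2 p := (Nat.coprime_primes Nat.prime_two h.hp).mpr h.p2.symm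
theorem cop2q : Nat.Coprime 2 q := (Nat.coprime_primes Nat.prime_two h.hq).mpr h.q2.symm
theorem coppq : Nat.Coprime p q := (Nat.coprime_primes h.hp h.hq).mpr h.pq

/-- elements of 2-power order are involutions -/
theorem two_el {g : G} {k : ℕ} (hg : g ^ 2 ^ k = 1) : g * g = 1 := by
  have h1 : orderOf g ∣ 2 ^ k := orderOf_dvd_of_pow_eq_one hg
  obtain ⟨j, -, hj⟩ := (Nat.dvd_prime_pow Nat.prime_two).mp h1
  have hdvd : orderOf g ∣ 2 := by
    rcases h.spec g with h2 | h2 | h2 | h2 | h2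
    · rw [h2]; exact one_dvd _
    · rw [h2]
    · exfalso
      have : p ∣ 2 ^ j := by rw [← hj, h2]
      have := (Nat.prime_dvd_prime_iff_eq h.hp Nat.prime_two).mp (h.hp.dvd_of_dvd_pow this)
      exact h.p2 this
    · exfalso
      have : q ∣ 2 ^ j := by rw [← hj, h2]
      have := (Nat.prime_dvd_prime_iff_eq h.hq Nat.prime_two).mp (h.hq.dvd_of_dvd_pow this)
      exact h.q2 this
    · exfalso
      have : p ∣ 2 ^ j := by rw [← hj, h2]; exact Dvd.intro_left 2 rfl
      have := (Nat.prime_dvd_prime_iff_eq h.hp Nat.prime_two).mp (h.hp.dvd_of_dvd_pow this)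
      exact h.p2 this
  have := orderOf_dvd_iff_pow_eq_one.mp hdvd
  rwa [pow_two] at this

theorem two_el' {X : Subgroup G} (hX : IsPGroup 2 X) {g : G} (hg : g ∈ X) : g * g = 1 := by
  obtain ⟨k, hk⟩ := hX ⟨g, hg⟩
  apply h.two_el (k := k)
  have := congrArg (Subtype.val) hk
  simpa using this

theorem two_comm {X : Subgroup G} (hX : IsPGroup 2 X) : ∀ a ∈ X, ∀ b ∈ X, a * b = b * a := by
  intro a ha b hb
  have h1 := h.two_el' hX ha
  have h2 := h.two_el' hX hb
  have h3 := h.two_el' hX (mul_mem ha hb)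
  have h4 : a⁻¹ = a := inv_eq_of_mul_eq_one_left h1
  have h5 : b⁻¹ = b := inv_eq_of_mul_eq_one_left h2
  have h6 : (a * b)⁻¹ = a * b := inv_eq_of_mul_eq_one_left h3
  rw [mul_inv_rev, h4, h5] at h6
  exact h6.symm

/-- elements of p-power order -/
theorem p_el {g : G} {k : ℕ} (hg : g ^ p ^ k = 1) : g ^ p = 1 := by
  have h1 : orderOf g ∣ p ^ k := orderOf_dvd_of_pow_eq_one hg
  have hodd : Odd (orderOf g) := Odd.of_dvd_nat (h.podd.pow) h1
  have hdvd : orderOf g ∣ p := by
    rcases h.spec g with h2 | h2 | h2 | h2 | h2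
    · rw [h2]; exact one_dvd _
    · rw [h2] at hodd; exact absurd hodd (by decide)
    · rw [h2]
    · exfalso
      rw [h2] at h1
      exact h.pq ((Nat.prime_dvd_prime_iff_eq h.hq h.hp).mp (h.hq.dvd_of_dvd_pow h1)).symm
    · exfalso
      rw [h2] at hodd
      exact (Nat.not_odd_iff_even.mpr (even_two_mul p)) hodd
  exact orderOf_dvd_iff_pow_eq_one.mp hdvd

theorem p_el' {X : Subgroup G} (hX : IsPGroup p X) {g : G} (hg : g ∈ X) : g ^ p = 1 := by
  obtain ⟨k, hk⟩ := hX ⟨g, hg⟩
  apply h.p_el (k := k)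
  have := congrArg (Subtype.val) hk
  simpa using this

theorem p_ord {X : Subgroup G} (hX : IsPGroup p X) {g : G} (hg : g ∈ X) (h1 : g ≠ 1) :
    orderOf g = p := by
  haveI : Fact p.Prime := ⟨h.hp⟩
  exact orderOf_eq_prime (h.p_el' hX hg) h1

theorem q_el {g : G} {k : ℕ} (hg : g ^ q ^ k = 1) : g ^ q = 1 := by
  have h1 : orderOf g ∣ q ^ k := orderOf_dvd_of_pow_eq_one hg
  have hodd : Odd (orderOf g) := Odd.of_dvd_nat (h.qodd.pow) h1
  have hdvd : orderOf g ∣ q := by
    rcases h.spec g with h2 | h2 | h2 | h2 | h2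
    · rw [h2]; exact one_dvd _
    · rw [h2] at hodd; exact absurd hodd (by decide)
    · exfalso
      rw [h2] at h1
      exact h.pq ((Nat.prime_dvd_prime_iff_eq h.hp h.hq).mp (h.hp.dvd_of_dvd_pow h1))
    · rw [h2]
    · exfalso
      rw [h2] at hodd
      exact (Nat.not_odd_iff_even.mpr (even_two_mul p)) hodd
  exact orderOf_dvd_iff_pow_eq_one.mp hdvd

theorem q_el' {X : Subgroup G} (hX : IsPGroup q X) {g : G} (hg : g ∈ X) : g ^ q = 1 := by
  obtain ⟨k, hk⟩ := hX ⟨g, hg⟩
  apply h.q_el (k := k)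
  have := congrArg (Subtype.val) hk
  simpa using this

theorem q_ord {X : Subgroup G} (hX : IsPGroup q X) {g : G} (hg : g ∈ X) (h1 : g ≠ 1) :
    orderOf g = q := by
  haveI : Fact q.Prime := ⟨h.hq⟩
  exact orderOf_eq_prime (h.q_el' hX hg) h1

/-- no element of order `2q` -/
theorem no2q {x y : G} (hx : orderOf x = 2) (hy : orderOf y = q) (hc : x * y = y * x) : False := by
  have h1 : orderOf (x * y) = 2 * q := by
    have := (show Commute x y from hc).orderOf_mul_eq_mul_orderOf_of_coprime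
      (by rw [hx, hy]; exact h.cop2q)
    rw [this, hx, hy]
  have hq := h.hq
  have hq3 := h.q3
  have hp3 := h.p3
  rcases h.spec (x * y) with h2 | h2 | h2 | h2 | h2 <;> rw [h1] at h2
  · omega
  · omega
  · have : 2 ∣ p := ⟨q, h2.symm⟩
    exact h.p2 ((Nat.prime_dvd_prime_iff_eq Nat.prime_two h.hp).mp this).symm
  · omega
  · exact h.pq (by omega)

/-- no element of order `pq` -/
theorem nopq {x y : G} (hx : orderOf x = p) (hy : orderOf y = q) (hc : x * y = y * x) : False := by
  have h1 : orderOf (x * y) = p * q := by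
    have := (show Commute x y from hc).orderOf_mul_eq_mul_orderOf_of_coprime
      (by rw [hx, hy]; exact h.coppq)
    rw [this, hx, hy]
  have hq3 := h.q3
  have hp3 := h.p3
  have hodd : Odd (p * q) := h.podd.mul h.qodd
  rcases h.spec (x * y) with h2 | h2 | h2 | h2 | h2 <;> rw [h1] at h2
  · nlinarith
  · nlinarith
  · have : q = 1 := by
      have h3 : p * q = p * 1 := by rw [h2, mul_one]
      exact Nat.eq_of_mul_eq_mul_left (by omega) h3
    omega
  · have : p = 1 := by
      have h3 : p * q = 1 * q := by rw [h2, one_mul]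
      exact Nat.eq_of_mul_eq_mul_right (by omega) h3
    omega
  · rw [h2] at hodd
    exact (Nat.not_odd_iff_even.mpr (even_two_mul p)) hodd

theorem prime_dvd {g : G} {l : ℕ} (hl : l.Prime) (hg : orderOf g = l) : l = 2 ∨ l = p ∨ l = q := by
  rcases h.spec g with h2 | h2 | h2 | h2 | h2 <;> rw [hg] at h2
  · exact absurd h2 hl.one_lt.ne'
  · exact Or.inl h2
  · exact Or.inr (Or.inl h2)
  · exact Or.inr (Or.inr h2)
  · rw [h2] at hl
    exfalso
    exact Nat.not_prime_mul (by omega) h.hp.one_lt.ne' hl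

theorem prime_card {X : Subgroup G} [Finite X] {l : ℕ} (hl : l.Prime) (hd : l ∣ Nat.card X) :
    l = 2 ∨ l = p ∨ l = q := by
  haveI : Fact l.Prime := ⟨hl⟩
  obtain ⟨x, hx⟩ := exists_prime_orderOf_dvd_card' l hd
  rw [← Subgroup.orderOf_coe] at hx
  exact h.prime_dvd hl hx

theorem cent_two [Finite G] {t : G} (ht : orderOf t = 2) {X : Subgroup G} (hX : X ≤ centralizer ({t} : Set G))
    {l : ℕ} (hl : l.Prime) (hd : l ∣ Nat.card X) : l = 2 ∨ l = p := by
  haveI : Fact l.Prime := ⟨hl⟩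
  obtain ⟨x, hx⟩ := exists_prime_orderOf_dvd_card' l hd
  rw [← Subgroup.orderOf_coe] at hx
  rcases h.prime_dvd hl hx with h1 | h1 | h1
  · exact Or.inl h1
  · exact Or.inr h1
  · exfalso
    rw [h1] at hx
    exact h.no2q ht hx (mem_centralizer_iff.mp (hX x.2) t rfl)

theorem cent_p [Finite G] {t : G} (ht : orderOf t = p) {X : Subgroup G} (hX : X ≤ centralizer ({t} : Set G))
    {l : ℕ} (hl : l.Prime) (hd : l ∣ Nat.card X) : l = 2 ∨ l = p := by
  haveI : Fact l.Prime := ⟨hl⟩
  obtain ⟨x, hx⟩ := exists_prime_orderOf_dvd_card' l hd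
  rw [← Subgroup.orderOf_coe] at hx
  rcases h.prime_dvd hl hx with h1 | h1 | h1
  · exact Or.inl h1
  · exact Or.inr h1
  · exfalso
    rw [h1] at hx
    exact h.nopq ht hx (mem_centralizer_iff.mp (hX x.2) t rfl)

theorem cent_q [Finite G] {t : G} (ht : orderOf t = q) : IsPGroup q (centralizer ({t} : Set G)) := by
  apply IsPGroup.of_card (n := (Nat.card (centralizer ({t} : Set G))).primeFactorsList.length)
  apply Nat.eq_prime_pow_of_unique_prime_dvd Nat.card_pos.ne'
  intro l hl hd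
  haveI : Fact l.Prime := ⟨hl⟩
  obtain ⟨x, hx⟩ := exists_prime_orderOf_dvd_card' l hd
  rw [← Subgroup.orderOf_coe] at hx
  have hc : t * x = x * t := mem_centralizer_iff.mp x.2 t rfl
  rcases h.prime_dvd hl hx with h1 | h1 | h1
  · rw [h1] at hx
    exact (h.no2q hx ht hc.symm).elim
  · rw [h1] at hx
    exact (h.nopq hx ht hc.symm).elim
  · exact h1

theorem solv_two [Finite G] {t : G} (ht : orderOf t = 2) : Group.IsSolvable (centralizer ({t} : Set G)) :=
  solv_of_two_primes Nat.prime_two h.hp (fun _ hl hd => h.cent_two ht le_rfl hl hd)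

theorem solv_p [Finite G] {t : G} (ht : orderOf t = p) : Group.IsSolvable (centralizer ({t} : Set G)) :=
  solv_of_two_primes Nat.prime_two h.hp (fun _ hl hd => h.cent_p ht le_rfl hl hd)

/-- an odd order subgroup of the centralizer of an involution is a p-group -/
theorem isPGroup_of_odd [Finite G] {t : G} (ht : orderOf t = 2 ∨ orderOf t = p) {X : Subgroup G}
    (hX : X ≤ centralizer ({t} : Set G)) (ho : Odd (Nat.card X)) : IsPGroup p X := by
  apply IsPGroup.of_card (n := (Nat.card X).primeFactorsList.length)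
  apply Nat.eq_prime_pow_of_unique_prime_dvd Nat.card_pos.ne'
  intro l hl hd
  have h1 : l = 2 ∨ l = p := by
    rcases ht with ht | ht
    · exact h.cent_two ht hX hl hd
    · exact h.cent_p ht hX hl hd
  rcases h1 with h1 | h1
  · rw [h1] at hd
    exact absurd (even_iff_two_dvd.mpr hd) (Nat.not_even_iff_odd.mpr ho)
  · exact h1

theorem aut_card [Finite G] {x y : G} (hxy : orderOf x = orderOf y) :
    Nat.card (centralizer ({x} : Set G)) = Nat.card (centralizer ({y} : Set G)) := by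
  obtain ⟨α, hα⟩ := h.tr x y hxy
  refine Nat.card_congr ⟨fun c => ⟨α c, ?_⟩, fun c => ⟨α.symm c, ?_⟩, ?_, ?_⟩
  · rw [mem_centralizer_iff]
    rintro z rfl
    rw [← hα, ← map_mul, ← map_mul, mem_centralizer_iff.mp c.2 x rfl]
  · rw [mem_centralizer_iff]
    rintro z rfl
    apply α.injective
    rw [map_mul, map_mul, MulEquiv.apply_symm_apply, hα, mem_centralizer_iff.mp c.2 y rfl]
  · intro c; ext; simp
  · intro c; ext; simp

/-- every involution commutes with an element of order p -/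
theorem exists_p_of_two {t : G} (ht : orderOf t = 2) : ∃ x : G, orderOf x = p ∧ t * x = x * t := by
  obtain ⟨g, hg⟩ := h.e2p
  have h1 : orderOf (g ^ p) = 2 := by
    rw [orderOf_pow_of_dvd h.hp.ne_zero (by rw [hg]; exact Dvd.intro_left 2 rfl), hg]
    exact Nat.mul_div_cancel _ h.hp.pos
  have h2 : orderOf (g ^ 2) = p := by
    rw [orderOf_pow_of_dvd (by norm_num) (by rw [hg]; exact Dvd.intro p rfl), hg]
    exact Nat.mul_div_cancel_left _ (by norm_num)
  obtain ⟨α, hα⟩ := h.tr (g ^ p) t (by rw [h1, ht])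
  refine ⟨α (g ^ 2), by rw [MulEquiv.orderOf_eq, h2], ?_⟩
  rw [← hα, ← map_mul, ← map_mul, ← pow_add, ← pow_add, add_comm]

/-- every element of order p commutes with an involution -/
theorem exists_two_of_p {x : G} (hx : orderOf x = p) : ∃ t : G, orderOf t = 2 ∧ t * x = x * t := by
  obtain ⟨g, hg⟩ := h.e2p
  have h1 : orderOf (g ^ p) = 2 := by
    rw [orderOf_pow_of_dvd h.hp.ne_zero (by rw [hg]; exact Dvd.intro_left 2 rfl), hg]
    exact Nat.mul_div_cancel _ h.hp.pos
  have h2 : orderOf (g ^ 2) = p := by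
    rw [orderOf_pow_of_dvd (by norm_num) (by rw [hg]; exact Dvd.intro p rfl), hg]
    exact Nat.mul_div_cancel_left _ (by norm_num)
  obtain ⟨α, hα⟩ := h.tr (g ^ 2) x (by rw [h2, hx])
  refine ⟨α (g ^ p), by rw [MulEquiv.orderOf_eq, h1], ?_⟩
  rw [← hα, ← map_mul, ← map_mul, ← pow_add, ← pow_add, add_comm]

end Sp

end H73.Orb
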