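import Mathlib

/-! S4100, piece R: explicit elements of alternating groups. -/

set_option autoImplicit false

open Equiv Equiv.Perm

namespace H73.SAR

/-- the product map `Sym a × Sym b → Sym (a+b)` -/
noncomputable def F (a b : ℕ) : Perm (Fin a) × Perm (Fin b) →* Perm (Fin (a + b)) :=
  (Equiv.permCongrHom (finSumFinEquiv (m := a) (n := b))).toMonoidHom.comp
    (Equiv.Perm.sumCongrHom (Fin a) (Fin b))

theorem F_inj (a b : ℕ) : Function.Injective (F a b) := by
  intro x y h
  exact sumCongrHom_injective ((Equiv.permCongrHom (finSumFinEquiv (m := a) (n := b))).injective h)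

theorem sign_F (a b : ℕ) (x : Perm (Fin a) × Perm (Fin b)) :
    sign (F a b x) = sign x.1 * sign x.2 := by
  have h : F a b x = (finSumFinEquiv (m := a) (n := b)).permCongr (Equiv.Perm.sumCongr x.1 x.2) := rfl
  rw [h, sign_permCongr, sign_sumCongr]

/-- the embedding of `Alt b` in `Alt (a+b)` -/
noncomputable def emb (a b : ℕ) : alternatingGroup (Fin b) →* alternatingGroup (Fin (a + b)) :=
  ((F a b).comp ((MonoidHom.inr _ _).comp (alternatingGroup (Fin b)).subtype)).codRestrict _
    (fun τ => by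
      rw [mem_alternatingGroup, MonoidHom.comp_apply, sign_F]
      have := mem_alternatingGroup.mp τ.2
      simp [this])

theorem emb_inj (a b : ℕ) : Function.Injective (emb a b) := by
  intro x y h
  have h1 := congrArg Subtype.val h
  have h2 := F_inj a b h1
  exact Subtype.ext (congrArg Prod.snd h2)

theorem exists_elt (m p : ℕ) (s : Perm (Fin m)) (hs : sign s = 1) (hs1 : s ≠ 1) (hsp : s ^ p = 1) :
    ∃ (c : alternatingGroup (Fin (m + 5))) (j : alternatingGroup (Fin 5) →* alternatingGroup (Fin (m + 5))),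
      Function.Injective j ∧ c ≠ 1 ∧ c ^ p = 1 ∧ ∀ τ, c * j τ = j τ * c := by
  refine ⟨⟨F m 5 (s, 1), ?_⟩, emb m 5, emb_inj m 5, ?_, ?_, ?_⟩
  · rw [mem_alternatingGroup, sign_F]; simp [hs]
  · intro h
    have h1 : F m 5 (s, 1) = F m 5 1 := by
      rw [map_one]; exact congrArg Subtype.val h
    have h2 := F_inj m 5 h1
    exact hs1 (congrArg Prod.fst h2)
  · apply Subtype.ext
    show (F m 5 (s, 1)) ^ p = 1
    rw [← map_pow, Prod.pow_mk, hsp, one_pow]
    exact map_one _
  · intro τ
    apply Subtype.ext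
    show F m 5 (s, 1) * F m 5 (1, (τ : Perm (Fin 5))) = F m 5 (1, (τ : Perm (Fin 5))) * F m 5 (s, 1)
    rw [← map_mul, ← map_mul, Prod.mk_mul_mk, Prod.mk_mul_mk, one_mul, mul_one, one_mul, mul_one]

theorem exists_odd (p : ℕ) (hp : Odd p) (hp3 : 2 ≤ p) :
    ∃ (c : alternatingGroup (Fin (p + 5))) (j : alternatingGroup (Fin 5) →* alternatingGroup (Fin (p + 5))),
      Function.Injective j ∧ c ≠ 1 ∧ c ^ p = 1 ∧ ∀ τ, c * j τ = j τ * c := by
  apply exists_elt p p (finRotate p)
  · rw [sign_finRotate]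
    have : Even (p - 1) := by
      rcases hp with ⟨k, hk⟩
      exact ⟨k, by omega⟩
    exact this.neg_one_pow
  · exact (isCycle_finRotate_of_le hp3).ne_one
  · have h1 := (isCycle_finRotate_of_le hp3).orderOf
    rw [support_finRotate_of_le hp3, Finset.card_univ, Fintype.card_fin] at h1
    rw [← orderOf_dvd_iff_pow_eq_one, h1]

theorem exists_two :
    ∃ (c : alternatingGroup (Fin (4 + 5))) (j : alternatingGroup (Fin 5) →* alternatingGroup (Fin (4 + 5))),
      Function.Injective j ∧ c ≠ 1 ∧ c ^ 2 = 1 ∧ ∀ τ, c * j τ = j τ * c := by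
  apply exists_elt 4 2 (swap 0 1 * swap 2 3)
  · decide
  · decide
  · decide

theorem alt5_not_solvable : ¬ Group.IsSolvable (alternatingGroup (Fin 5)) := by
  intro h
  have : IsSimpleGroup (alternatingGroup (Fin 5)) := alternatingGroup.isSimpleGroup (by simp)
  have h1 := IsSimpleGroup.comm_iff_isSolvable.mpr h
  have h2 := alternatingGroup.center_eq_bot (α := Fin 5) (by simp)
  have h3 : (⊤ : Subgroup (alternatingGroup (Fin 5))) = ⊥ := by
    rw [← h2, eq_comm, eq_top_iff]
    intro x _
    rw [Subgroup.mem_center_iff]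
    intro y
    exact h1 y x
  exact top_ne_bot h3

end H73.SAR
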