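import Mathlib
import Cfsg.Agent.Lib.H1.Coprime
import Cfsg.Agent.Lib.H1.Cores
import Cfsg.Agent.Lib.H66.SADef
import Cfsg.Agent.Lib.H73.SAR1

/-! S4100, piece R: general tools. -/

set_option autoImplicit false

open Subgroup

universe u

namespace H73.SAR

theorem mem_centralizer_one {G : Type*} [Group G] {x g : G} :
    g ∈ centralizer ({x} : Set G) ↔ g * x = x * g := by
  rw [mem_centralizer_singleton_iff]

section
variable {G : Type u} [Group G] [Finite G]

theorem exists_lift {R : Subgroup G} [hR : R.Normal] (B : Subgroup (G ⧸ R))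
    (hcop : (Nat.card R).Coprime (Nat.card B)) :
    ∃ B' : Subgroup G, B'.map (QuotientGroup.mk' R) = B ∧ B' ⊓ R = ⊥ ∧ Nat.card B' = Nat.card B := by
  set K := B.comap (QuotientGroup.mk' R) with hK
  have hRK : R ≤ K := by
    intro x hx
    rw [hK, Subgroup.mem_comap]
    have : QuotientGroup.mk' R x = 1 := by
      rw [QuotientGroup.mk'_apply, QuotientGroup.eq_one_iff]; exact hx
    rw [this]; exact B.one_mem
  have hKc : Nat.card K = Nat.card R * Nat.card B := H1.Cores.card_comap_mk' R B
  let N := R.subgroupOf K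
  have hNc : Nat.card N = Nat.card R := Nat.card_congr (Subgroup.subgroupOfEquivOfLe hRK).toEquiv
  have hNi : N.index = Nat.card B := by
    have h1 := Subgroup.card_mul_index N
    rw [hNc, hKc] at h1
    exact Nat.eq_of_mul_eq_mul_left Nat.card_pos h1
  obtain ⟨H, hH⟩ := Subgroup.exists_right_complement'_of_coprime (N := N) (by rw [hNc, hNi]; exact hcop)
  have hcard : Nat.card (H.map K.subtype) = Nat.card B := by
    rw [Subgroup.card_map_of_injective Subtype.val_injective]
    have h1 := hH.card_mul_card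
    rw [hNc, hKc] at h1
    exact Nat.eq_of_mul_eq_mul_left Nat.card_pos h1
  have hinf : H.map K.subtype ⊓ R = ⊥ := by
    rw [Subgroup.eq_bot_iff_forall]
    rintro x ⟨⟨y, hy, rfl⟩, hx⟩
    have h1 : y ∈ N ⊓ H := ⟨hx, hy⟩
    rw [hH.disjoint.eq_bot, Subgroup.mem_bot] at h1
    rw [h1]; rfl
  refine ⟨H.map K.subtype, ?_, hinf, hcard⟩
  apply Subgroup.eq_of_le_of_card_ge
  · rw [Subgroup.map_map]
    rintro _ ⟨y, hy, rfl⟩
    exact y.2
  · rw [← hcard]
    apply le_of_eq
    have hinj : Function.Injective ((QuotientGroup.mk' R).comp (H.map K.subtype).subtype) := by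
      rw [injective_iff_map_eq_one]
      rintro ⟨x, hx⟩ h1
      have h2 : x ∈ R := (QuotientGroup.eq_one_iff x).mp h1
      have h3 : x ∈ H.map K.subtype ⊓ R := ⟨hx, h2⟩
      rw [hinf, Subgroup.mem_bot] at h3
      exact Subtype.ext h3
    have h1 := Nat.card_congr (MonoidHom.ofInjective hinj).toEquiv
    rw [h1]
    congr 1
    have h2 : ((QuotientGroup.mk' R).comp (H.map K.subtype).subtype).range =
        (H.map K.subtype).map (QuotientGroup.mk' R) := by
      rw [MonoidHom.range_comp, Subgroup.range_subtype]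
    rw [h2]

theorem map_centralizer (A N : Subgroup G) [N.Normal]
    (hcop : (Nat.card A).Coprime (Nat.card N)) (hsolv : Group.IsSolvable A ∨ Group.IsSolvable N) :
    centralizer ((A.map (QuotientGroup.mk' N) : Subgroup _) : Set _) =
      (centralizer (A : Set G)).map (QuotientGroup.mk' N) := by
  have h := H1.Coprime.map_inf_centralizer A ⊤ N
    (by rw [Subgroup.normalizer_eq_top]; exact le_top) hcop hsolv le_top
  rw [Subgroup.map_top_of_surjective _ (QuotientGroup.mk'_surjective N), top_inf_eq, top_inf_eq] at h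
  exact h

/-- a subgroup is solvable if the centralizer containing it is -/
theorem solv_mono {A B : Subgroup G} (h : A ≤ B) (hB : Group.IsSolvable B) : Group.IsSolvable A :=
  Group.isSolvable_of_isSolvable_injective (f := Subgroup.inclusion h) (Subgroup.inclusion_injective h)

theorem solv_of_map {X : Type*} [Group X] (f : G →* X) (A : Subgroup G) (B : Subgroup X)
    (hAB : B ≤ A.map f) (hA : Group.IsSolvable A) : Group.IsSolvable B := by
  have h1 : Group.IsSolvable (A.map f) := by
    have hs : Function.Surjective (f.subgroupMap A) := MonoidHom.subgroupMap_surjective f A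
    exact Group.isSolvable_of_surjective hs
  exact Group.isSolvable_of_isSolvable_injective (f := Subgroup.inclusion hAB)
    (Subgroup.inclusion_injective hAB)

/-- the conclusion -/
def Good (p : ℕ) (H : Type u) [Group H] : Prop :=
  ∃ x : H, (∃ k : ℕ, orderOf x = p ^ k) ∧ x ∉ center H ∧
    ¬ Group.IsSolvable (centralizer ({x} : Set H))

theorem good_of_subgroup {p : ℕ} (H1 : Subgroup G) (h : Good p H1) : Good p G := by
  obtain ⟨x, ⟨k, hk⟩, hxc, hs⟩ := h
  refine ⟨(x : G), ⟨k, by rw [Subgroup.orderOf_coe, hk]⟩, ?_, ?_⟩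
  · intro hc
    apply hxc
    rw [mem_center_iff] at hc ⊢
    intro g
    exact Subtype.ext (hc g)
  · intro hc
    apply hs
    let f : centralizer ({x} : Set H1) →* centralizer ({(x : G)} : Set G) :=
      (H1.subtype.comp (centralizer ({x} : Set H1)).subtype).codRestrict _ (by
        rintro ⟨y, hy⟩
        rw [mem_centralizer_one] at hy ⊢
        exact congrArg Subtype.val hy)
    have hf : Function.Injective f := by
      intro a b hab
      have h1 := congrArg Subtype.val hab
      exact Subtype.ext (Subtype.ext h1)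
    exact Group.isSolvable_of_isSolvable_injective hf

/-- coprime lifting -/
theorem good_of_coprime {p r : ℕ} (hp : p.Prime) (hr : r.Prime) (hpr : r ≠ p)
    (R : Subgroup G) [R.Normal] (hR : IsPGroup r R) (h : Good p (G ⧸ R)) : Good p G := by
  have _ := Fact.mk hr
  obtain ⟨x, ⟨k, hk⟩, hxc, hs⟩ := h
  have hcopx : (Nat.card R).Coprime (Nat.card (zpowers x)) := by
    obtain ⟨n, hn⟩ := hR.exists_card_eq
    rw [hn, Nat.card_zpowers, hk]
    exact ((Nat.coprime_primes hr hp).mpr hpr).pow _ _
  obtain ⟨B, hB, -, hBc⟩ := exists_lift (R := R) (zpowers x) hcopx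
  have hx : x ∈ B.map (QuotientGroup.mk' R) := by rw [hB]; exact mem_zpowers x
  obtain ⟨y, hyB, hyx⟩ := hx
  have hyo : orderOf y ∣ p ^ k := by
    have h1 : orderOf (⟨y, hyB⟩ : B) ∣ Nat.card B := orderOf_dvd_natCard _
    rw [hBc, Nat.card_zpowers, hk, Subgroup.orderOf_mk] at h1
    exact h1
  obtain ⟨l, -, hl⟩ := (Nat.dvd_prime_pow hp).mp hyo
  refine ⟨y, ⟨l, hl⟩, ?_, ?_⟩
  · intro hc
    apply hxc
    rw [mem_center_iff] at hc ⊢
    intro g
    obtain ⟨g', rfl⟩ := QuotientGroup.mk'_surjective R g
    rw [← hyx, ← map_mul, ← map_mul, hc g']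
  · intro hc
    apply hs
    have hz : Nat.card (zpowers y) = p ^ l := by rw [Nat.card_zpowers, hl]
    have hcop : (Nat.card (zpowers y)).Coprime (Nat.card R) := by
      obtain ⟨n, hn⟩ := hR.exists_card_eq
      rw [hn, hz]
      exact ((Nat.coprime_primes hp hr).mpr (Ne.symm hpr)).pow _ _
    have h1 := map_centralizer (zpowers y) R hcop (Or.inl inferInstance)
    refine solv_of_map (QuotientGroup.mk' R) (centralizer ({y} : Set G)) _ ?_ hc
    intro g hg
    have h2 : g ∈ centralizer (((zpowers y).map (QuotientGroup.mk' R) : Subgroup (G ⧸ R)) : Set (G ⧸ R)) := by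
      rw [MonoidHom.map_zpowers, hyx, mem_centralizer_iff]
      rintro z ⟨m, rfl⟩
      rw [mem_centralizer_one] at hg
      have : Commute g x := hg
      exact ((this.zpow_right m).eq).symm
    rw [h1] at h2
    obtain ⟨w, hw, rfl⟩ := h2
    refine ⟨w, ?_, rfl⟩
    have hw' := mem_centralizer_iff.mp hw y (mem_zpowers y)
    exact mem_centralizer_one.mpr hw'.symm

/-- central lifting -/
theorem good_of_central {p : ℕ} (hp : p.Prime) (Z : Subgroup G) [Z.Normal] (hZ : IsPGroup p Z)
    (hZc : Z ≤ center G) (h : Good p (G ⧸ Z)) : Good p G := by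
  obtain ⟨x, ⟨k, hk⟩, hxc, hs⟩ := h
  obtain ⟨y, hyx⟩ := QuotientGroup.mk'_surjective Z x
  have hyo : ∃ l, orderOf y = p ^ l := by
    have h1 : y ^ (p ^ k) ∈ Z := by
      rw [← QuotientGroup.eq_one_iff]
      have : (QuotientGroup.mk' Z) (y ^ p ^ k) = 1 := by
        rw [map_pow, hyx, ← hk, pow_orderOf_eq_one]
      exact this
    obtain ⟨j, hj⟩ := hZ ⟨y ^ (p ^ k), h1⟩
    have h2 : y ^ (p ^ (k + j)) = 1 := by
      have := congrArg Subtype.val hj
      rw [pow_add, pow_mul]
      exact this
    obtain ⟨l, -, hl⟩ := (Nat.dvd_prime_pow hp).mp (orderOf_dvd_of_pow_eq_one h2)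
    exact ⟨l, hl⟩
  refine ⟨y, hyo, ?_, ?_⟩
  · intro hc
    apply hxc
    rw [mem_center_iff] at hc ⊢
    intro g
    obtain ⟨g', rfl⟩ := QuotientGroup.mk'_surjective Z g
    rw [← hyx, ← map_mul, ← map_mul, hc g']
  · intro hc
    apply hs
    set C : Subgroup G := (centralizer ({x} : Set (G ⧸ Z))).comap (QuotientGroup.mk' Z) with hC
    have hCm : ∀ g ∈ C, g * y * g⁻¹ * y⁻¹ ∈ Z := by
      intro g hg
      rw [hC, mem_comap, mem_centralizer_one] at hg
      rw [← QuotientGroup.eq_one_iff]
      have h1 : (QuotientGroup.mk' Z) (g * y * g⁻¹ * y⁻¹) = 1 := by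
        rw [map_mul, map_mul, map_mul, map_inv, map_inv, hyx, hg]
        group
      exact h1
    let φ : C →* center G :=
      { toFun := fun g => ⟨g * y * (g : G)⁻¹ * y⁻¹, hZc (hCm g g.2)⟩
        map_one' := by apply Subtype.ext; simp
        map_mul' := by
          rintro ⟨a, ha⟩ ⟨b, hb⟩
          apply Subtype.ext
          show a * b * y * (a * b)⁻¹ * y⁻¹ = a * y * a⁻¹ * y⁻¹ * (b * y * b⁻¹ * y⁻¹)
          have h1 := mem_center_iff.mp (hZc (hCm b hb)) a
          have h2 := mem_center_iff.mp (hZc (hCm b hb)) (a * y * a⁻¹ * y⁻¹)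
          rw [h2]
          have h3 : a * b * y * (a * b)⁻¹ * y⁻¹ =
              (a * (b * y * b⁻¹ * y⁻¹)) * (y * a⁻¹ * y⁻¹) := by group
          rw [h3, h1]
          group }
    have hCs : Group.IsSolvable C := by
      have hle : centralizer ({y} : Set G) ≤ C := by
        intro g hg
        rw [hC, mem_comap, mem_centralizer_one, ← hyx, ← map_mul, ← map_mul]
        rw [mem_centralizer_one] at hg
        rw [hg]
      have hcen : Group.IsSolvable (center G) :=
        Group.isSolvable_of_comm (fun a b => Subtype.ext ((mem_center_iff.mp b.2 a)))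
      apply Group.isSolvable_of_ker_le_range (Subgroup.inclusion hle) φ
      rintro ⟨g, hg⟩ hk'
      have h1 : g * y * g⁻¹ * y⁻¹ = 1 := congrArg Subtype.val hk'
      have h2 : g ∈ centralizer ({y} : Set G) := by
        rw [mem_centralizer_one]
        rw [mul_inv_eq_one, mul_inv_eq_iff_eq_mul] at h1
        exact h1
      exact ⟨⟨g, h2⟩, rfl⟩
    refine solv_of_map (QuotientGroup.mk' Z) C _ ?_ hCs
    rw [hC, Subgroup.map_comap_eq_self_of_surjective (QuotientGroup.mk'_surjective Z)]

end

end H73.SAR
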