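import Mathlib
import Cfsg.Agent.Lib.H73.SAR2

/-! S4100, piece R: the module case and the coprime case. -/

set_option autoImplicit false

open Subgroup

universe u

namespace H73.SAR

section
variable {H : Type u} [Group H] [Finite H] {n : ℕ}

/-- elements of exponent `p` of the centre of the normal subgroup `N` -/
def V0 (p : ℕ) (N : Subgroup H) : Subgroup H where
  carrier := {v | v ∈ N ∧ (∀ n ∈ N, n * v = v * n) ∧ v ^ p = 1}
  one_mem' := ⟨N.one_mem, fun n _ => by simp, one_pow p⟩
  mul_mem' := by
    rintro a b ⟨ha, hac, hap⟩ ⟨hb, hbc, hbp⟩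
    refine ⟨N.mul_mem ha hb, fun n hn => ?_, ?_⟩
    · rw [← mul_assoc, hac n hn, mul_assoc, hbc n hn, mul_assoc]
    · have : Commute a b := hbc a ha
      rw [this.mul_pow, hap, hbp, one_mul]
  inv_mem' := by
    rintro a ⟨ha, hac, hap⟩
    refine ⟨N.inv_mem ha, fun n hn => ?_, ?_⟩
    · have : Commute n a := hac n hn
      exact this.inv_right.eq
    · rw [inv_pow, hap, inv_one]

instance V0_normal (p : ℕ) (N : Subgroup H) [hN : N.Normal] : (V0 p N).Normal := by
  constructor
  rintro v ⟨hv, hvc, hvp⟩ g
  refine ⟨hN.conj_mem v hv g, fun n hn => ?_, ?_⟩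
  · have h1 := hvc (g⁻¹ * n * g) (by simpa using hN.conj_mem n hn g⁻¹)
    have h2 : n * (g * v * g⁻¹) = g * ((g⁻¹ * n * g) * v) * g⁻¹ := by group
    rw [h2, h1]; group
  · rw [conj_pow, hvp]; group

theorem V0_ne_bot (p : ℕ) [hp : Fact p.Prime] (N : Subgroup H) (hNp : IsPGroup p N) (hN : N ≠ ⊥) :
    V0 p N ≠ ⊥ := by
  have hnt : Nontrivial N := (Subgroup.nontrivial_iff_ne_bot N).mpr hN
  have hc : Nontrivial (center N) := hNp.center_nontrivial
  have hpd : p ∣ Nat.card (center N) := by
    obtain ⟨k, hk⟩ := (hNp.to_subgroup (center N)).exists_card_eq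
    rw [hk]
    apply dvd_pow_self
    rintro rfl
    rw [pow_zero] at hk
    have := Finite.one_lt_card (α := center N)
    omega
  obtain ⟨z, hz⟩ := exists_prime_orderOf_dvd_card' p hpd
  intro hb
  have h1 : ((z : N) : H) ∈ V0 p N := by
    refine ⟨(z : N).2, fun n hn => ?_, ?_⟩
    · have := mem_center_iff.mp z.2 ⟨n, hn⟩
      exact congrArg Subtype.val this
    · have : z ^ p = 1 := by rw [← hz, pow_orderOf_eq_one]
      have := congrArg (fun w : center N => ((w : N) : H)) this
      simpa using this
  rw [hb, mem_bot] at h1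
  have h2 : z = 1 := by
    apply Subtype.ext; apply Subtype.ext; exact h1
  rw [h2, orderOf_one] at hz
  exact hp.out.one_lt.ne hz

theorem noncentral (hn : 4 ≤ n) {π : H →* alternatingGroup (Fin n)} (hπ : Function.Surjective π)
    {x : H} (hx : π x ≠ 1) : x ∉ center H := by
  intro hc
  have h2 := alternatingGroup.center_eq_bot (α := Fin n) (by simpa using hn)
  have h3 : π x ∈ center (alternatingGroup (Fin n)) := by
    rw [mem_center_iff]
    intro g
    obtain ⟨g', rfl⟩ := hπ g
    rw [← map_mul, ← map_mul, mem_center_iff.mp hc g']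
  rw [h2, mem_bot] at h3
  exact hx h3

/-- the module case -/
theorem module_case (p : ℕ) [hp : Fact p.Prime] (hstar : H66.SA.Star.{u} p n)
    (π : H →* alternatingGroup (Fin n)) (hπ : Function.Surjective π)
    (hNp : IsPGroup p π.ker) (hN : π.ker ≠ ⊥) (hNc : π.ker ⊓ center H = ⊥) : Good p H := by
  classical
  let V := V0 p π.ker
  have hVcomm : ∀ a b : V, a * b = b * a := by
    rintro ⟨a, ha⟩ ⟨b, hb⟩
    exact Subtype.ext (hb.2.1 a ha.1)
  letI : CommGroup V := { (inferInstance : Group V) with mul_comm := hVcomm }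
  have hle : π.ker ≤ (MulAut.conjNormal : H →* MulAut V).ker := by
    intro g hg
    rw [MonoidHom.mem_ker]
    ext ⟨v, hv⟩
    rw [MulAut.conjNormal_apply]
    have h1 := hv.2.1 g hg
    simp [h1]
  let L : alternatingGroup (Fin n) →* MulAut V :=
    (QuotientGroup.lift π.ker (MulAut.conjNormal : H →* MulAut V) hle).comp
      (QuotientGroup.quotientKerEquivOfSurjective π hπ).symm.toMonoidHom
  have hL : ∀ g : H, L (π g) = MulAut.conjNormal g := by
    intro g
    have h1 : (QuotientGroup.quotientKerEquivOfSurjective π hπ).symm (π g) = QuotientGroup.mk g := by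
      rw [MulEquiv.symm_apply_eq]; rfl
    show (QuotientGroup.lift π.ker (MulAut.conjNormal : H →* MulAut V) hle)
      ((QuotientGroup.quotientKerEquivOfSurjective π hπ).symm (π g)) = _
    rw [h1]; rfl
  letI act : DistribMulAction (alternatingGroup (Fin n)) (Additive V) :=
    { smul := fun a v => Additive.ofMul (L a (Additive.toMul v))
      one_smul := fun v => by
        show Additive.ofMul (L 1 (Additive.toMul v)) = v
        rw [map_one]; rfl
      mul_smul := fun a b v => by
        show Additive.ofMul (L (a * b) (Additive.toMul v)) = Additive.ofMul (L a (L b (Additive.toMul v)))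
        rw [map_mul]; rfl
      smul_zero := fun a => by
        show Additive.ofMul (L a 1) = 0
        rw [map_one]; rfl
      smul_add := fun a v w => by
        show Additive.ofMul (L a (Additive.toMul v * Additive.toMul w)) =
          Additive.ofMul (L a (Additive.toMul v) * L a (Additive.toMul w))
        rw [map_mul] }
  have hsm : ∀ (a : alternatingGroup (Fin n)) (v : Additive V),
      a • v = Additive.ofMul (L a (Additive.toMul v)) := fun _ _ => rfl
  have hnt : Nontrivial (Additive V) := by
    have : Nontrivial V := (Subgroup.nontrivial_iff_ne_bot _).mpr (V0_ne_bot p _ hNp hN)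
    exact (inferInstance : Nontrivial (Additive V))
  obtain ⟨v, hv0, hvs⟩ := hstar (Additive V) (by
    intro v
    have h1 : (Additive.toMul v) ^ p = 1 := Subtype.ext (Additive.toMul v).2.2.2
    exact congrArg Additive.ofMul h1)
  set x : V := Additive.toMul v with hx
  have hx1 : (x : H) ≠ 1 := by
    intro h
    apply hv0
    have : x = 1 := Subtype.ext h
    exact congrArg Additive.ofMul this
  have hxp : (x : H) ^ p = 1 := x.2.2.2
  refine ⟨(x : H), ?_, ?_, ?_⟩
  · have h1 : orderOf (x : H) ∣ p ^ 1 := by rw [pow_one]; exact orderOf_dvd_of_pow_eq_one hxp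
    obtain ⟨l, -, hl⟩ := (Nat.dvd_prime_pow hp.out).mp h1
    exact ⟨l, hl⟩
  · intro hc
    have : (x : H) ∈ π.ker ⊓ center H := ⟨x.2.1, hc⟩
    rw [hNc, mem_bot] at this
    exact hx1 this
  · intro hc
    apply hvs
    refine solv_of_map π (centralizer ({(x : H)} : Set H)) _ ?_ hc
    intro a ha
    obtain ⟨g, rfl⟩ := hπ a
    refine ⟨g, ?_, rfl⟩
    rw [MulAction.mem_stabilizer_iff, hsm, hL] at ha
    have h1 : MulAut.conjNormal g x = x := Additive.ofMul.injective ha
    have h2 := congrArg Subtype.val h1
    rw [MulAut.conjNormal_apply] at h2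
    show g ∈ centralizer ({(x : H)} : Set H)
    rw [mem_centralizer_one]
    rw [mul_inv_eq_iff_eq_mul] at h2
    exact h2

/-- the coprime case -/
theorem coprime_case (p : ℕ) [hp : Fact p.Prime] (hn : 4 ≤ n)
    (π : H →* alternatingGroup (Fin n)) (hπ : Function.Surjective π)
    (hNp : IsPGroup p π.ker) (hcop : (Nat.card π.ker).Coprime 60)
    (c : alternatingGroup (Fin n)) (j : alternatingGroup (Fin 5) →* alternatingGroup (Fin n))
    (hj : Function.Injective j) (hc1 : c ≠ 1) (hcp : c ^ p = 1) (hcj : ∀ τ, c * j τ = j τ * c) :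
    Good p H := by
  set e := QuotientGroup.quotientKerEquivOfSurjective π hπ with he
  have hemk : ∀ g : H, e (QuotientGroup.mk' π.ker g) = π g := fun g => rfl
  set B : Subgroup (H ⧸ π.ker) := (e.symm.toMonoidHom.comp j).range with hB
  have hinj : Function.Injective (e.symm.toMonoidHom.comp j) := e.symm.injective.comp hj
  have hBc : Nat.card B = 60 := by
    rw [hB, ← Nat.card_congr (MonoidHom.ofInjective hinj).toEquiv, Nat.card_eq_fintype_card]
    rw [card_alternatingGroup]
    simp; decide
  have hBs : ¬ Group.IsSolvable B := by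
    intro h
    apply alt5_not_solvable
    exact Group.isSolvable_of_isSolvable_injective (f := (MonoidHom.ofInjective hinj).toMonoidHom)
      (MonoidHom.ofInjective hinj).injective
  obtain ⟨A, hA, -, hAc⟩ := exists_lift (R := π.ker) B (by rw [hBc]; exact hcop)
  have hAs : ¬ Group.IsSolvable A := by
    intro h
    exact hBs (solv_of_map (QuotientGroup.mk' π.ker) A B hA.ge h)
  have h1 := map_centralizer A π.ker (by rw [hAc, hBc]; exact hcop.symm)
    (Or.inr (by
      have := hNp.isNilpotent
      exact inferInstance))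
  have h2 : e.symm c ∈ centralizer ((A.map (QuotientGroup.mk' π.ker) : Subgroup _) : Set (H ⧸ π.ker)) := by
    rw [hA, mem_centralizer_iff]
    rintro _ ⟨τ, rfl⟩
    show e.symm (j τ) * e.symm c = e.symm c * e.symm (j τ)
    rw [← map_mul, ← map_mul, hcj]
  rw [h1] at h2
  obtain ⟨x, hx, hxc⟩ := h2
  have hπx : π x = c := by
    rw [← hemk, hxc, MulEquiv.apply_symm_apply]
  refine ⟨x, ?_, noncentral hn hπ (by rw [hπx]; exact hc1), ?_⟩
  · have h3 : x ^ p ∈ π.ker := by rw [MonoidHom.mem_ker, map_pow, hπx, hcp]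
    obtain ⟨k, hk⟩ := hNp ⟨x ^ p, h3⟩
    have h4 : x ^ (p ^ (k + 1)) = 1 := by
      have := congrArg Subtype.val hk
      rw [pow_succ', pow_mul]
      exact this
    obtain ⟨l, -, hl⟩ := (Nat.dvd_prime_pow hp.out).mp (orderOf_dvd_of_pow_eq_one h4)
    exact ⟨l, hl⟩
  · intro hs
    apply hAs
    refine solv_mono ?_ hs
    intro a ha
    rw [mem_centralizer_one]
    exact mem_centralizer_iff.mp hx a ha

end

end H73.SAR
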