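import Mathlib
import Cfsg.Agent.Lib.H73.SAR3
import Cfsg.Prelude.Def_LocalEven

/-! S4100, piece R: the induction and the reduction. -/

set_option autoImplicit false

open Subgroup

universe u

namespace H73.SAR

/-- the data on `Alt n` -/
def Dat (p n : ℕ) : Prop :=
  ∃ (c : alternatingGroup (Fin n)) (j : alternatingGroup (Fin 5) →* alternatingGroup (Fin n)),
      Function.Injective j ∧ c ≠ 1 ∧ c ^ p = 1 ∧ ∀ τ, c * j τ = j τ * c

theorem lemR1 (p n : ℕ) [hp : Fact p.Prime] (hn : 4 ≤ n) (hD : Dat p n)
    (hstar : p < 7 → H66.SA.Star.{u} p n) :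
    ∀ (k : ℕ) (H : Type u) [Group H] [Finite H], Nat.card H = k →
      ∀ π : H →* alternatingGroup (Fin n), Function.Surjective π → Good p H := by
  intro k
  induction k using Nat.strong_induction_on with
  | _ k ih =>
    intro H _ _ hk π hπ
    -- (a)
    by_cases ha : ∃ H1 : Subgroup H, H1 ≠ ⊤ ∧ H1.map π = ⊤
    · obtain ⟨H1, hH1, hm⟩ := ha
      apply good_of_subgroup H1
      have hlt : Nat.card H1 < k := by
        rw [← hk]
        have h1 := Subgroup.card_le_card_group H1
        refine lt_of_le_of_ne h1 (fun h => hH1 (Subgroup.card_eq_iff_eq_top H1 |>.mp h))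
      refine ih _ hlt H1 rfl (π.comp H1.subtype) ?_
      rw [← MonoidHom.range_eq_top, MonoidHom.range_comp, Subgroup.range_subtype]
      exact hm
    push_neg at ha
    -- (b)
    have hb : ∀ (r : ℕ) [Fact r.Prime] (R : Sylow r π.ker),
        ((R : Subgroup π.ker).map π.ker.subtype).Normal := by
      intro r _ R
      have h1 := Sylow.normalizer_sup_eq_top R
      rw [← Subgroup.normalizer_eq_top_iff]
      by_contra h2
      apply ha _ h2
      have h3 := congrArg (Subgroup.map π) h1
      rw [Subgroup.map_sup, Subgroup.map_top_of_surjective π hπ] at h3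
      have h4 : Subgroup.map π π.ker = ⊥ := by
        rw [Subgroup.map_eq_bot_iff]
      rw [h4, sup_bot_eq] at h3
      exact h3
    -- (c)
    by_cases hN : π.ker = ⊥
    · have hNp : IsPGroup p π.ker := by rw [hN]; exact IsPGroup.of_bot
      obtain ⟨c, j, hj, hc1, hcp, hcj⟩ := hD
      refine coprime_case p hn π hπ hNp ?_ c j hj hc1 hcp hcj
      rw [hN, Subgroup.card_bot]; exact Nat.coprime_one_left 60
    -- (d)
    by_cases hd : ∃ r : ℕ, r.Prime ∧ r ≠ p ∧ r ∣ Nat.card π.ker
    · obtain ⟨r, hr, hrp, hrd⟩ := hd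
      have _ := Fact.mk hr
      let R : Sylow r π.ker := default
      have hRn := hb r R
      set R' := (R : Subgroup π.ker).map π.ker.subtype with hR'
      have hR1 : (R : Subgroup π.ker) ≠ ⊥ := R.ne_bot_of_dvd_card hrd
      have hR'p : IsPGroup r R' := R.isPGroup'.map _
      have hR'le : R' ≤ π.ker := by
        rw [hR']; rintro _ ⟨y, -, rfl⟩; exact y.2
      have hR'1 : R' ≠ ⊥ := by
        intro h
        apply hR1
        rw [hR', Subgroup.map_eq_bot_iff_of_injective _ Subtype.val_injective] at h
        exact h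
      apply good_of_coprime hp.out hr hrp R' hR'p
      have hlt : Nat.card (H ⧸ R') < k := by
        rw [← hk, Subgroup.card_eq_card_quotient_mul_card_subgroup R']
        have h1 : 1 < Nat.card R' := by
          have := (Subgroup.nontrivial_iff_ne_bot R').mpr hR'1
          exact Finite.one_lt_card
        have h2 : 0 < Nat.card (H ⧸ R') := Nat.card_pos
        nlinarith
      refine ih _ hlt (H ⧸ R') rfl (QuotientGroup.lift R' π hR'le) ?_
      intro a
      obtain ⟨g, rfl⟩ := hπ a
      exact ⟨QuotientGroup.mk g, rfl⟩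
    push_neg at hd
    have hNp : IsPGroup p π.ker := by
      have h1 := Nat.eq_prime_pow_of_unique_prime_dvd (n := Nat.card π.ker) (p := p)
        Nat.card_pos.ne' (by
          intro d hd1 hd2
          by_contra h3
          exact hd d hd1 h3 hd2)
      exact IsPGroup.of_card h1
    -- (e)
    by_cases he : π.ker ⊓ center H = ⊥
    swap
    · have hZp : IsPGroup p (π.ker ⊓ center H : Subgroup H) := hNp.to_le inf_le_left
      apply good_of_central hp.out (π.ker ⊓ center H) hZp inf_le_right
      have hlt : Nat.card (H ⧸ (π.ker ⊓ center H)) < k := by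
        rw [← hk, Subgroup.card_eq_card_quotient_mul_card_subgroup (π.ker ⊓ center H)]
        have h1 : 1 < Nat.card (π.ker ⊓ center H : Subgroup H) := by
          have := (Subgroup.nontrivial_iff_ne_bot (π.ker ⊓ center H)).mpr he
          exact Finite.one_lt_card
        have h2 : 0 < Nat.card (H ⧸ (π.ker ⊓ center H)) := Nat.card_pos
        nlinarith
      refine ih _ hlt (H ⧸ (π.ker ⊓ center H)) rfl (QuotientGroup.lift _ π inf_le_left) ?_
      intro a
      obtain ⟨g, rfl⟩ := hπ a
      exact ⟨QuotientGroup.mk g, rfl⟩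
    by_cases hp7 : p < 7
    · exact module_case p (hstar hp7) π hπ hNp hN he
    · obtain ⟨c, j, hj, hc1, hcp, hcj⟩ := hD
      refine coprime_case p hn π hπ hNp ?_ c j hj hc1 hcp hcj
      obtain ⟨m, hm⟩ := hNp.exists_card_eq
      rw [hm]
      apply Nat.Coprime.pow_left
      rw [hp.out.coprime_iff_not_dvd]
      intro h60
      have h1 : p ∣ 2 ^ 2 * 3 * 5 := by norm_num; exact h60
      rcases (Nat.Prime.dvd_mul hp.out).mp h1 with h1 | h1
      · rcases (Nat.Prime.dvd_mul hp.out).mp h1 with h1 | h1
        · have := Nat.le_of_dvd (by norm_num) (hp.out.dvd_of_dvd_pow h1); omega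
        · have := Nat.le_of_dvd (by norm_num) h1; omega
      · have := Nat.le_of_dvd (by norm_num) h1; omega

/-- the reduction: `S4100` from the two module statements -/
theorem main (h5 : H66.SA.Star.{u} 5 10) (h2 : H66.SA.Star.{u} 2 9)
    {G : Type u} [Group G] [Finite G] (p : ℕ) [hp : Fact p.Prime] (hp3 : p ≠ 3)
    (h : ∀ x : G, x ∉ Subgroup.center G → (∃ k : ℕ, orderOf x = p ^ k) →
      Group.IsSolvable (Subgroup.centralizer ({x} : Set G)))
    (d : ℕ) (hd : 5 ≤ d) (hinv : Cfsg.Involves (alternatingGroup (Fin d)) G) :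
    d ≤ p + 4 + (if p = 2 then 2 else 0) := by
  by_contra hlt
  -- the degree `n`
  have hn : ∃ n : ℕ, 4 ≤ n ∧ n ≤ d ∧ Dat p n ∧ (p < 7 → H66.SA.Star.{u} p n) := by
    by_cases hp2 : p = 2
    · subst hp2
      refine ⟨9, by norm_num, by simp at hlt; omega, exists_two, fun _ => h2⟩
    · have hodd : Odd p := hp.out.odd_of_ne_two hp2
      rw [if_neg hp2] at hlt
      refine ⟨p + 5, by omega, by omega, exists_odd p hodd hp.out.two_le, fun h7 => ?_⟩
      have h5p : p = 5 := by
        have h2le := hp.out.two_le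
        interval_cases p
        · exact absurd rfl hp2
        · exact absurd rfl hp3
        · exact absurd hp.out (by norm_num)
        · rfl
        · exact absurd hp.out (by norm_num)
      subst h5p
      exact h5
  obtain ⟨n, hn4, hnd, hD, hst⟩ := hn
  obtain ⟨m, rfl⟩ := Nat.exists_eq_add_of_le' hnd
  obtain ⟨K, R, hRn, ⟨e⟩⟩ := hinv
  let q : K →* alternatingGroup (Fin (m + n)) := e.toMonoidHom.comp (QuotientGroup.mk' (R.subgroupOf K))
  have hq : Function.Surjective q := e.surjective.comp (QuotientGroup.mk'_surjective _)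
  let H0 : Subgroup K := (emb m n).range.comap q
  let ei := MonoidHom.ofInjective (emb_inj m n)
  let π : H0 →* alternatingGroup (Fin n) := ei.symm.toMonoidHom.comp
    ((q.comp H0.subtype).codRestrict (emb m n).range (fun x => x.2))
  have hπ : Function.Surjective π := by
    intro a
    obtain ⟨k, hk⟩ := hq (emb m n a)
    refine ⟨⟨k, ⟨a, hk.symm⟩⟩, ?_⟩
    show ei.symm _ = a
    rw [MulEquiv.symm_apply_eq]
    apply Subtype.ext
    exact hk
  have hgood := lemR1 p n hn4 hD hst _ H0 rfl π hπ
  obtain ⟨x, hx1, hx2, hx3⟩ := good_of_subgroup K (good_of_subgroup H0 hgood)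
  exact hx3 (h x hx2 hx1)

end H73.SAR
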