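import Mathlib
import Cfsg.Agent.Lib.H69.SubgroupCount
import Cfsg.Agent.Lib.H72.JordanCycle
import Cfsg.Agent.Lib.H3.OmegaRankTwo

/-!
# Permutation groups of degree 35 with a Sylow 17-subgroup fixing one point (H73.Syl35)
-/

set_option autoImplicit false

namespace H73.Syl35

open MulAction
open scoped Pointwise

instance fact17 : Fact (Nat.Prime 17) := ⟨by norm_num⟩

section Cent

variable {Γ Ω : Type*} [Group Γ] [Finite Γ] [MulAction Γ Ω] [Finite Ω]

/-- number of fixed points of a `17`-group -/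
theorem fix_modEq {T : Subgroup Γ} (hT : IsPGroup 17 T) : Nat.card Ω ≡ (fixedPoints T Ω).ncard [MOD 17] := by
  have := hT.card_modEq_card_fixedPoints Ω
  rwa [← Nat.card_coe_set_eq]

theorem orbit_card {T : Subgroup Γ} (hT : IsPGroup 17 T) (hΩ : Nat.card Ω = 35) {x : Ω} (hx : ∃ t ∈ T, t • x ≠ x) :
    (orbit T x).ncard = 17 := by
  rw [← index_stabilizer]
  obtain ⟨j, hj⟩ := hT.index (stabilizer T x)
  have h1 : (stabilizer T x).index ≤ 35 := by
    rw [index_stabilizer, ← hΩ, ← Set.ncard_univ]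
    exact Set.ncard_le_ncard (Set.subset_univ _)
  rw [hj] at h1 ⊢
  have hj0 : j ≠ 0 := by
    rintro rfl
    rw [pow_zero, Subgroup.index_eq_one] at hj
    obtain ⟨t, ht, htx⟩ := hx
    apply htx
    have : (⟨t, ht⟩ : T) ∈ stabilizer T x := by rw [hj]; exact Subgroup.mem_top _
    exact this
  have hj2 : j < 2 := by
    by_contra h
    have : 17 ^ 2 ≤ 17 ^ j := Nat.pow_le_pow_right (by norm_num) (by lia)
    lia
  have : j = 1 := by lia
  rw [this, pow_one]

end Cent

section Prim

variable {Γ Ω : Type*} [Group Γ] [Finite Γ] [MulAction Γ Ω] [Finite Ω]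

theorem isPreprimitive (hΩ : Nat.card Ω = 35) [IsPretransitive Γ Ω] (P : Subgroup Γ) (hP : IsPGroup 17 P) (o : Ω)
    (hfix : ∀ x : Ω, (∀ g ∈ P, g • x = x) ↔ x = o) : IsPreprimitive Γ Ω := by
  classical
  refine IsPreprimitive.of_isTrivialBlock_base o ?_
  intro B ho hB
  have hdvd := hB.ncard_dvd_card ⟨o, ho⟩
  rw [hΩ] at hdvd
  have hPB : ∀ g ∈ P, ∀ x ∈ B, g • x ∈ B := by
    intro g hg x hx
    have h1 : g • o = o := (hfix o).2 rfl g hg
    have h2 : g • B = B := hB.smul_eq_of_mem ho (by rw [h1]; exact ho)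
    rw [← h2]
    exact Set.smul_mem_smul_set hx
  let S : SubMulAction P Ω := { carrier := B, smul_mem' := fun g x hx => hPB g g.2 x hx }
  have h1 := hP.card_modEq_card_fixedPoints S
  have h2 : Nat.card (fixedPoints P S) = 1 := by
    rw [Nat.card_eq_one_iff_unique]
    refine ⟨⟨?_⟩, ⟨⟨⟨o, ho⟩, fun g => Subtype.ext ((hfix o).2 rfl g g.2)⟩⟩⟩
    have key : ∀ y : fixedPoints P S, ((y : S) : Ω) = o := by
      intro y
      rw [← hfix]
      intro g hg
      exact congrArg Subtype.val (y.2 ⟨g, hg⟩)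
    intro y z
    exact Subtype.ext (Subtype.ext ((key y).trans (key z).symm))
  have h3 : Nat.card S = B.ncard := rfl
  rw [h2, h3] at h1
  have h4 : B.ncard ≤ 35 := Nat.le_of_dvd (by norm_num) hdvd
  have h5 : B.ncard = 1 ∨ B.ncard = 35 := by
    unfold Nat.ModEq at h1
    generalize B.ncard = m at *
    interval_cases m <;> simp_all
  rcases h5 with h5 | h5
  · left
    obtain ⟨a, ha⟩ := Set.ncard_eq_one.1 h5
    rw [ha]
    exact Set.subsingleton_singleton
  · right
    rw [Set.eq_univ_iff_ncard, h5, hΩ]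

end Prim

section Big

variable {Ω : Type*} [Fintype Ω] [DecidableEq Ω]

/-- The case `17 ^ 2 ∣ |P|`. -/
theorem big_case (hΩ : Fintype.card Ω = 35) (Γ : Subgroup (Equiv.Perm Ω)) (hprim : IsPreprimitive Γ Ω)
    (P : Subgroup Γ) (hP : IsPGroup 17 P) (o : Ω) (hfix : ∀ x : Ω, (∀ g ∈ P, g • x = x) ↔ x = o)
    (hstab : stabilizer Γ o ≤ Subgroup.normalizer (P : Set Γ)) (hbig : 17 ^ 2 ∣ Nat.card P) : False := by
  classical
  have hΩ' : Nat.card Ω = 35 := by rw [Nat.card_eq_fintype_card, hΩ]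
  -- a moved point
  obtain ⟨x, hx⟩ : ∃ x : Ω, x ≠ o := by
    have : Nontrivial Ω := Fintype.one_lt_card_iff_nontrivial.1 (by rw [hΩ]; norm_num)
    exact exists_ne o
  have hxm : ∃ t ∈ P, t • x ≠ x := by
    by_contra hcon
    push Not at hcon
    exact hx ((hfix x).1 hcon)
  have horb := orbit_card hP hΩ' hxm
  -- the stabilizer of `x` in `P`
  have hidx : (stabilizer P x).index = 17 := by rw [index_stabilizer, horb]
  have hnil : Group.IsNilpotent P := hP.isNilpotent
  have hcoat : IsCoatom (stabilizer P x) := by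
    constructor
    · intro h
      rw [h, Subgroup.index_top] at hidx
      exact absurd hidx (by norm_num)
    · intro K hK
      have h1 : K.index ∣ 17 := by rw [← hidx]; exact Subgroup.index_dvd_of_le hK.le
      rcases (Nat.dvd_prime (by norm_num)).1 h1 with h2 | h2
      · exact Subgroup.index_eq_one.1 h2
      · exfalso
        have h3 := Subgroup.relIndex_mul_index hK.le
        rw [h2, hidx] at h3
        have h4 : (stabilizer P x).relIndex K = 1 := by lia
        exact hK.not_ge (Subgroup.relIndex_eq_one.1 h4)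
  have hn : (stabilizer P x).Normal :=
    Subgroup.NormalizerCondition.normal_of_coatom _ Group.normalizerCondition_of_isNilpotent hcoat
  have hcard : 17 ∣ Nat.card (stabilizer P x) := by
    have h1 := Subgroup.card_mul_index (stabilizer P x)
    rw [hidx] at h1
    rw [← h1] at hbig
    exact Nat.dvd_of_mul_dvd_mul_right (by norm_num : 0 < 17) (by simpa [pow_two] using hbig)
  obtain ⟨⟨g, hg⟩, hgo⟩ := exists_prime_orderOf_dvd_card' 17 hcard
  have hgo' : orderOf (g : Γ) = 17 := by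
    rw [Subgroup.orderOf_coe]
    rw [← Subgroup.orderOf_coe] at hgo
    exact hgo
  have hgo2 : orderOf ((g : Γ) : Equiv.Perm Ω) = 17 := by rw [Subgroup.orderOf_coe]; exact hgo'
  -- `g` fixes `o` and the orbit of `x`
  have hfixo : (g : Γ) • o = o := (hfix o).2 rfl g g.2
  have hfixx : ∀ y ∈ orbit P x, (g : Γ) • y = y := by
    rintro _ ⟨t, rfl⟩
    have h1 : t⁻¹ * g * t⁻¹⁻¹ ∈ stabilizer P x := hn.conj_mem g hg t⁻¹
    rw [mem_stabilizer_iff, inv_inv, mul_smul, mul_smul] at h1
    have h2 : g • t • x = t • x := by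
      rw [inv_smul_eq_iff] at h1
      exact h1
    exact h2
  have hsupp : ((g : Γ) : Equiv.Perm Ω).support.card ≤ 17 := by
    have h1 : (insert o (orbit P x)).ncard = 18 := by
      rw [Set.ncard_insert_of_notMem, horb]
      intro h
      obtain ⟨t, ht⟩ := h
      have h3 : (t : Γ) • x = o := ht
      have h4 : (t : Γ) • o = o := (hfix o).2 rfl t t.2
      exact hx (MulAction.injective (t : Γ) (h3.trans h4.symm))
    have h2 : (((g : Γ) : Equiv.Perm Ω).support : Set Ω) ⊆ (insert o (orbit P x))ᶜ := by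
      intro y hy hy2
      rw [Finset.mem_coe, Equiv.Perm.mem_support] at hy
      rcases hy2 with rfl | hy2
      · exact hy hfixo
      · exact hy (hfixx y hy2)
    have h3 := Set.ncard_le_ncard h2
    rw [Set.ncard_compl, h1, hΩ', Set.ncard_coe_finset] at h3
    exact h3
  have hcyc : ((g : Γ) : Equiv.Perm Ω).IsCycle :=
    Equiv.Perm.isCycle_of_prime_order (by rw [hgo2]; norm_num) (by rw [hgo2]; lia)
  have hsc : ((g : Γ) : Equiv.Perm Ω).support.card = 17 := by rw [← hcyc.orderOf, hgo2]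
  have halt := H72.JordanCycle.jordan_cycle hprim ((g : Γ) : Equiv.Perm Ω) hcyc (by rw [hsc]; norm_num)
    (by rw [hsc, hΩ]; norm_num) (g : Γ).2
  -- a 3-cycle fixing `o`
  have hg1 : ((g : Γ) : Equiv.Perm Ω) ≠ 1 := by
    intro h
    rw [h, orderOf_one] at hgo2
    exact absurd hgo2 (by norm_num)
  obtain ⟨y, hy⟩ : ∃ y, ((g : Γ) : Equiv.Perm Ω) y ≠ y := by
    by_contra hcon
    push Not at hcon
    exact hg1 (Equiv.ext hcon)
  obtain ⟨γ, hγ⟩ : ∃ γ : Equiv.Perm Ω, γ = ((g : Γ) : Equiv.Perm Ω) := ⟨_, rfl⟩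
  rw [← hγ] at hy
  have hyo : y ≠ o := by
    rintro rfl
    exact hy (by rw [hγ]; exact hfixo)
  have hcompl : 2 ≤ (({y, γ y, o} : Finset Ω)ᶜ).card := by
    rw [Finset.card_compl, hΩ]
    have := Finset.card_le_three (a := y) (b := γ y) (c := o)
    lia
  obtain ⟨a, ha, b, hb, hab⟩ := Finset.one_lt_card.1 hcompl
  simp only [Finset.mem_compl, Finset.mem_insert, Finset.mem_singleton, not_or] at ha hb
  obtain ⟨ha1, ha2, ha3⟩ := ha
  obtain ⟨hb1, hb2, hb3⟩ := hb
  obtain ⟨σ, hσ⟩ : ∃ σ : Equiv.Perm Ω, σ = Equiv.swap y a * Equiv.swap y b := ⟨_, rfl⟩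
  have hσ3 : σ.IsThreeCycle := by
    rw [hσ]; exact Equiv.Perm.isThreeCycle_swap_mul_swap_same (Ne.symm ha1) (Ne.symm hb1) hab
  have hσA : σ ∈ Γ := halt hσ3.mem_alternatingGroup
  have hσo : σ o = o := by
    rw [hσ, Equiv.Perm.mul_apply, Equiv.swap_apply_of_ne_of_ne hyo.symm (Ne.symm hb3),
      Equiv.swap_apply_of_ne_of_ne hyo.symm (Ne.symm ha3)]
  have hσγ : σ (γ y) = γ y := by
    rw [hσ, Equiv.Perm.mul_apply, Equiv.swap_apply_of_ne_of_ne hy (Ne.symm hb2), Equiv.swap_apply_of_ne_of_ne hy (Ne.symm ha2)]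
  have hσy : σ y = b := by
    rw [hσ, Equiv.Perm.mul_apply, Equiv.swap_apply_left, Equiv.swap_apply_of_ne_of_ne hb1 (Ne.symm hab)]
  have hσN : (⟨σ, hσA⟩ : Γ) ∈ Subgroup.normalizer (P : Set Γ) := hstab hσo
  -- the commutator is in `P`
  obtain ⟨h, hh⟩ : ∃ h : Γ, h = (g : Γ)⁻¹ * (⟨σ, hσA⟩ * (g : Γ) * ⟨σ, hσA⟩⁻¹) := ⟨_, rfl⟩
  have hhP : h ∈ P := by
    rw [hh]
    exact P.mul_mem (P.inv_mem g.2) ((Subgroup.mem_normalizer_iff.1 hσN _).1 g.2)
  -- `h` moves at most 6 points
  have hhval : (h : Equiv.Perm Ω) = γ⁻¹ * (σ * γ * σ⁻¹) := by rw [hh, hγ]; rfl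
  have hhs : (h : Equiv.Perm Ω).support.card ≤ 6 := by
    have h1 : (h : Equiv.Perm Ω) = (γ⁻¹ * σ * γ) * σ⁻¹ := by rw [hhval]; group
    have h2 := Finset.card_le_card (Equiv.Perm.support_mul_le (γ⁻¹ * σ * γ) σ⁻¹)
    have h3 : (γ⁻¹ * σ * γ).support.card = 3 := by
      have h4 : γ⁻¹ * σ * γ = γ⁻¹ * σ * γ⁻¹⁻¹ := by rw [inv_inv]
      rw [h4, Equiv.Perm.card_support_conj, hσ3.card_support]
    have h5 : (σ⁻¹).support.card = 3 := by rw [Equiv.Perm.support_inv, hσ3.card_support]
    rw [← h1] at h2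
    calc (h : Equiv.Perm Ω).support.card ≤ _ := h2
      _ ≤ (γ⁻¹ * σ * γ).support.card + (σ⁻¹).support.card := Finset.card_union_le _ _
      _ = 6 := by rw [h3, h5]
  have hh1 : h = 1 := by
    have h1 : IsPGroup 17 (Subgroup.zpowers h) := hP.to_le (by rwa [Subgroup.zpowers_le])
    have h2 := fix_modEq (Ω := Ω) h1
    have h3 : (fixedPoints (Subgroup.zpowers h) Ω) = (((h : Equiv.Perm Ω).support : Set Ω))ᶜ := by
      ext z
      rw [Set.mem_compl_iff, Finset.mem_coe, Equiv.Perm.notMem_support]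
      constructor
      · intro hz
        exact hz ⟨h, Subgroup.mem_zpowers h⟩
      · rintro hz ⟨_, i, rfl⟩
        show (h ^ i) • z = z
        have h4 : h ∈ stabilizer Γ z := hz
        exact (stabilizer Γ z).zpow_mem h4 i
    rw [h3, Set.ncard_compl, Set.ncard_coe_finset, hΩ'] at h2
    have h4 : (h : Equiv.Perm Ω).support.card = 0 := by
      unfold Nat.ModEq at h2
      lia
    rw [Finset.card_eq_zero, Equiv.Perm.support_eq_empty_iff] at h4
    exact Subtype.ext h4
  have hcomm : σ * γ = γ * σ := by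
    have h1 : γ⁻¹ * (σ * γ * σ⁻¹) = 1 := by rw [← hhval, hh1]; rfl
    rw [inv_mul_eq_one] at h1
    calc σ * γ = (σ * γ * σ⁻¹) * σ := by group
      _ = γ * σ := by rw [← h1]
  have h1 : σ (γ y) = γ (σ y) := by
    have := congrArg (fun f : Equiv.Perm Ω => f y) hcomm
    exact this
  rw [hσγ, hσy] at h1
  exact hb1 (γ.injective h1).symm

end Big

section Small

variable {Γ Ω : Type*} [Group Γ] [Finite Γ] [MulAction Γ Ω] [Finite Ω] [FaithfulSMul Γ Ω]

/-- the centralizer acts semiregularly outside `o` -/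
theorem cent_free (hΩ : Nat.card Ω = 35) (P : Sylow 17 Γ) (hPc : Nat.card P = 17) (o : Ω)
    (hfix : ∀ x : Ω, (∀ g ∈ (P : Subgroup Γ), g • x = x) ↔ x = o) {c : Γ}
    (hc : c ∈ Subgroup.centralizer ((P : Subgroup Γ) : Set Γ)) {x : Ω} (hx : x ≠ o) (hcx : c • x = x) : c = 1 := by
  classical
  have hcomm : ∀ g ∈ (P : Subgroup Γ), g * c = c * g := fun g hg => Subgroup.mem_centralizer_iff.1 hc g hg
  have hco : c • o = o := by
    rw [← hfix]
    intro g hg
    rw [← mul_smul, hcomm g hg, mul_smul, (hfix o).2 rfl g hg]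
  have hmoved : ∀ y : Ω, y ≠ o → ∃ t ∈ (P : Subgroup Γ), t • y ≠ y := by
    intro y hy
    by_contra hcon
    push Not at hcon
    exact hy ((hfix y).1 hcon)
  have horb : ∀ y : Ω, y ≠ o → (orbit (P : Subgroup Γ) y).ncard = 17 := fun y hy => orbit_card P.2 hΩ (hmoved y hy)
  have hono : ∀ y : Ω, y ≠ o → o ∉ orbit (P : Subgroup Γ) y := by
    rintro y hy ⟨t, ht⟩
    apply hy
    have h1 : (t : Γ) • y = o := ht
    have h2 : (t : Γ) • o = o := (hfix o).2 rfl t t.2
    exact MulAction.injective (t : Γ) (h1.trans h2.symm)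
  have key : ∀ y : Ω, c ^ 17 • y = y := by
    intro y
    have hpowfix : ∀ z : Ω, c • z = z → ∀ n : ℕ, c ^ n • z = z := by
      intro z hz n
      induction n with
      | zero => simp
      | succ n ih => rw [pow_succ, mul_smul, hz, ih]
    by_cases hyo : y = o
    · rw [hyo]; exact hpowfix o hco 17
    by_cases hyx : y ∈ orbit (P : Subgroup Γ) x
    · obtain ⟨t, rfl⟩ := hyx
      apply hpowfix
      show c • (t : Γ) • x = (t : Γ) • x
      rw [← mul_smul, ← hcomm t t.2, mul_smul, hcx]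
    -- the other orbit
    have hcy : c • y ≠ o := fun h => hyo (MulAction.injective c (h.trans hco.symm))
    have hcyx : c • y ∉ orbit (P : Subgroup Γ) x := by
      rintro ⟨t, ht⟩
      apply hyx
      refine ⟨t, ?_⟩
      apply MulAction.injective c
      show c • (t : Γ) • x = c • y
      rw [← mul_smul, ← hcomm t t.2, mul_smul, hcx]
      exact ht
    have hin : c • y ∈ orbit (P : Subgroup Γ) y := by
      by_contra hnot
      -- four disjoint sets
      have hd1 : Disjoint (orbit (P : Subgroup Γ) x) (orbit (P : Subgroup Γ) y) := by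
        rw [Set.disjoint_left]
        intro z hz1 hz2
        apply hyx
        rw [← orbit_eq_iff] at hz1 hz2 ⊢
        rw [← hz2, hz1]
      have hd2 : Disjoint (orbit (P : Subgroup Γ) x) (orbit (P : Subgroup Γ) (c • y)) := by
        rw [Set.disjoint_left]
        intro z hz1 hz2
        apply hcyx
        rw [← orbit_eq_iff] at hz1 hz2 ⊢
        rw [← hz2, hz1]
      have hd3 : Disjoint (orbit (P : Subgroup Γ) y) (orbit (P : Subgroup Γ) (c • y)) := by
        rw [Set.disjoint_left]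
        intro z hz1 hz2
        apply hnot
        rw [← orbit_eq_iff] at hz1 hz2 ⊢
        rw [← hz2, hz1]
      have h1 : (orbit (P : Subgroup Γ) x ∪ orbit (P : Subgroup Γ) y ∪ orbit (P : Subgroup Γ) (c • y)).ncard = 51 := by
        rw [Set.ncard_union_eq, Set.ncard_union_eq hd1, horb x hx, horb y hyo, horb _ hcy]
        rw [Set.disjoint_union_left]
        exact ⟨hd2, hd3⟩
      have h2 := Set.ncard_le_ncard (Set.subset_univ (orbit (P : Subgroup Γ) x ∪ orbit (P : Subgroup Γ) y ∪ orbit (P : Subgroup Γ) (c • y)))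
      rw [Set.ncard_univ, hΩ, h1] at h2
      exact absurd h2 (by norm_num)
    obtain ⟨t, ht⟩ := hin
    have ht' : (t : Γ) • y = c • y := ht
    have hpow : ∀ n : ℕ, c ^ n • y = (t : Γ) ^ n • y := by
      intro n
      induction n with
      | zero => simp
      | succ n ih =>
        have h1 : c ^ n * (t : Γ) = (t : Γ) * c ^ n := (Commute.pow_left (show Commute c (t : Γ) from (hcomm t t.2).symm) n).eq
        rw [pow_succ, mul_smul, ← ht', ← mul_smul, h1, mul_smul, ih, ← mul_smul, ← pow_succ']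
    rw [hpow]
    have h1 : (t : (P : Subgroup Γ)) ^ Nat.card (P : Subgroup Γ) = 1 := pow_card_eq_one'
    have h2 : (t : Γ) ^ 17 = 1 := by
      rw [show Nat.card (P : Subgroup Γ) = 17 from hPc] at h1
      exact congrArg Subtype.val h1
    rw [h2, one_smul]
  have hc17 : c ^ 17 = 1 := FaithfulSMul.eq_of_smul_eq_smul (α := Ω) (fun y => by rw [key y, one_smul])
  -- so `c ∈ P`
  have hzp : IsPGroup 17 (Subgroup.zpowers c) := by
    rw [IsPGroup.iff_card]
    have h1 : orderOf c ∣ 17 := orderOf_dvd_of_pow_eq_one hc17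
    rcases (Nat.dvd_prime (by norm_num)).1 h1 with h2 | h2
    · exact ⟨0, by rw [Nat.card_zpowers, h2, pow_zero]⟩
    · exact ⟨1, by rw [Nat.card_zpowers, h2, pow_one]⟩
  have hcP : c ∈ (P : Subgroup Γ) := by
    have h1 : Subgroup.zpowers c ≤ Subgroup.normalizer ((P : Subgroup Γ) : Set Γ) := by
      rw [Subgroup.zpowers_le]
      exact Subgroup.centralizer_le_normalizer _ hc
    have h2 : IsPGroup 17 ((P : Subgroup Γ) ⊔ Subgroup.zpowers c : Subgroup Γ) := by
      rw [sup_comm]
      exact hzp.to_sup_of_normal_right' P.2 h1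
    have h3 := P.3 h2 le_sup_left
    rw [← h3]
    exact Subgroup.mem_sup_right (Subgroup.mem_zpowers c)
  by_contra hc1
  have hgen : Subgroup.zpowers c = (P : Subgroup Γ) := by
    apply Subgroup.eq_of_le_of_card_ge
    · rwa [Subgroup.zpowers_le]
    · have h1 : orderOf c = 17 := orderOf_eq_prime hc17 hc1
      rw [Nat.card_zpowers, h1]
      exact hPc.le
  apply hx
  rw [← hfix]
  intro g hg
  rw [← hgen] at hg
  obtain ⟨i, rfl⟩ := hg
  have h4 : c ∈ stabilizer Γ x := hcx
  exact (stabilizer Γ x).zpow_mem h4 i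

/-- an element of odd order prime to `3` normalizing an abelian `2`-group with at most `4` elements of order dividing `2`
centralizes it -/
theorem cent_of_odd {Q : Subgroup Γ} (hQ : IsPGroup 2 Q) (hcomm : ∀ a ∈ Q, ∀ b ∈ Q, a * b = b * a)
    (W : Subgroup Γ) (hW : ∀ w, w ∈ W ↔ w ∈ Q ∧ w ^ 2 = 1) (hWc : Nat.card W ≤ 4) {β : Γ}
    (hβ : β ∈ Subgroup.normalizer (Q : Set Γ)) (hord : (orderOf β).Coprime 24) : ∀ q ∈ Q, β * q * β⁻¹ = q := by
  classical
  -- trivial on `W`
  have hβW : β ∈ Subgroup.normalizer (W : Set Γ) := by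
    rw [Subgroup.mem_normalizer_iff]
    intro w
    rw [hW, hW, ← Subgroup.mem_normalizer_iff.1 hβ w, conj_pow]
    constructor
    · rintro ⟨h1, h2⟩
      exact ⟨h1, by rw [h2]; group⟩
    · rintro ⟨h1, h2⟩
      refine ⟨h1, ?_⟩
      rw [mul_inv_eq_one] at h2
      exact mul_eq_left.1 h2
  have hWfix : ∀ w ∈ W, β * w * β⁻¹ = w := by
    have : Finite (Equiv.Perm W) := inferInstance
    let ψ : Subgroup.normalizer (W : Set Γ) →* Equiv.Perm W := (MulAut.toPerm W).comp W.normalizerMonoidHom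
    have h1 : orderOf (ψ ⟨β, hβW⟩) ∣ orderOf β := by
      have := orderOf_map_dvd ψ ⟨β, hβW⟩
      rwa [← Subgroup.orderOf_coe] at this
    have h2 : orderOf (ψ ⟨β, hβW⟩) ∣ 24 := by
      have h3 := orderOf_dvd_natCard (ψ ⟨β, hβW⟩)
      rw [Nat.card_perm] at h3
      refine h3.trans ?_
      have h4 : (Nat.card W).factorial ∣ (4 : ℕ).factorial := Nat.factorial_dvd_factorial hWc
      exact h4
    have h3 : ψ ⟨β, hβW⟩ = 1 := by
      rw [← orderOf_eq_one_iff]
      exact Nat.eq_one_of_dvd_coprimes hord h1 h2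
    intro w hw
    have h4 : ψ ⟨β, hβW⟩ ⟨w, hw⟩ = ⟨w, hw⟩ := by rw [h3]; rfl
    exact congrArg Subtype.val h4
  have hβodd : (orderOf β).Coprime 2 := Nat.Coprime.coprime_dvd_right (by norm_num) hord
  have key : ∀ k : ℕ, ∀ q ∈ Q, q ^ 2 ^ k = 1 → β * q * β⁻¹ = q := by
    intro k
    induction k with
    | zero =>
      intro q _ hq
      rw [pow_zero, pow_one] at hq
      rw [hq]; group
    | succ k ih =>
      intro q hq hqk
      have hq2 : β * q ^ 2 * β⁻¹ = q ^ 2 := ih (q ^ 2) (Q.pow_mem hq 2) (by rw [← pow_mul, ← pow_succ']; exact hqk)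
      have hβq : β * q * β⁻¹ ∈ Q := (Subgroup.mem_normalizer_iff.1 hβ q).1 hq
      obtain ⟨w, hw⟩ : ∃ w, w = q⁻¹ * (β * q * β⁻¹) := ⟨_, rfl⟩
      have hwQ : w ∈ Q := by rw [hw]; exact Q.mul_mem (Q.inv_mem hq) hβq
      have hw2 : w ^ 2 = 1 := by
        have h1 : Commute q⁻¹ (β * q * β⁻¹) := hcomm _ (Q.inv_mem hq) _ hβq
        rw [hw, h1.mul_pow, conj_pow, hq2, inv_pow, inv_mul_cancel]
      have hwW : w ∈ W := (hW w).2 ⟨hwQ, hw2⟩
      have hβw := hWfix w hwW
      have hqw : β * q * β⁻¹ = q * w := by rw [hw, mul_inv_cancel_left]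
      have hpow : ∀ i : ℕ, β ^ i * q * (β ^ i)⁻¹ = q * w ^ i := by
        intro i
        induction i with
        | zero => simp
        | succ i ihi =>
          have h1 : β ^ (i + 1) * q * (β ^ (i + 1))⁻¹ = β * (β ^ i * q * (β ^ i)⁻¹) * β⁻¹ := by
            rw [pow_succ']; group
          have h2 : β * (q * w ^ i) * β⁻¹ = (β * q * β⁻¹) * (β * w * β⁻¹) ^ i := by
            rw [conj_pow]; group
          rw [h1, ihi, h2, hβw, hqw, mul_assoc, ← pow_succ']
      have h3 := hpow (orderOf β)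
      rw [pow_orderOf_eq_one, one_mul, inv_one, mul_one] at h3
      have h4 : w ^ orderOf β = 1 := left_eq_mul.1 h3
      have h5 : w = 1 := by
        rw [← orderOf_eq_one_iff]
        exact Nat.eq_one_of_dvd_coprimes hβodd (orderOf_dvd_of_pow_eq_one h4) (orderOf_dvd_of_pow_eq_one hw2)
      rw [hqw, h5, mul_one]
  intro q hq
  obtain ⟨k, hk⟩ := hQ ⟨q, hq⟩
  exact key k q hq (congrArg Subtype.val hk)

/-- the case `|P| = 17` -/
theorem small_case (hΩ : Nat.card Ω = 35) (hprim : IsPreprimitive Γ Ω) (P : Sylow 17 Γ) (hPc : Nat.card P = 17) (o : Ω)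
    (hfix : ∀ x : Ω, (∀ g ∈ (P : Subgroup Γ), g • x = x) ↔ x = o)
    (hstab : stabilizer Γ o ≤ Subgroup.normalizer ((P : Subgroup Γ) : Set Γ)) : False := by
  classical
  have h2p : Fact (Nat.Prime 2) := ⟨Nat.prime_two⟩
  have h5p : Fact (Nat.Prime 5) := ⟨by norm_num⟩
  have htr : IsPretransitive Γ Ω := inferInstance
  obtain ⟨C, hC⟩ : ∃ C, C = Subgroup.centralizer ((P : Subgroup Γ) : Set Γ) := ⟨_, rfl⟩
  obtain ⟨H, hH⟩ : ∃ H, H = stabilizer Γ o := ⟨_, rfl⟩
  rw [← hH] at hstab
  have hCo : ∀ c ∈ C, c • o = o := by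
    intro c hc
    rw [hC] at hc
    rw [← hfix]
    intro g hg
    rw [← mul_smul, Subgroup.mem_centralizer_iff.1 hc g hg, mul_smul, (hfix o).2 rfl g hg]
  have hCH : C ≤ H := by rw [hH]; exact fun c hc => hCo c hc
  -- `|C| ∣ 34`
  have hC34 : Nat.card C ∣ 34 := by
    have h1 := H69.SubgroupCount.dvd_ncard_of_orbits (G := C) (X := Ω) (Nat.card C) {x | x ≠ o} (by
      intro x hx c h
      apply hx
      have h3 : (c : Γ) • x = o := h
      exact MulAction.injective (c : Γ) (h3.trans (hCo c c.2).symm)) (by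
      intro x hx
      rw [← index_stabilizer]
      have h3 : stabilizer C x = ⊥ := by
        rw [Subgroup.eq_bot_iff_forall]
        intro c hc
        have h4 : (c : Γ) • x = x := hc
        exact Subtype.ext (cent_free hΩ P hPc o hfix (by rw [← hC]; exact c.2) hx h4)
      rw [h3, Subgroup.index_bot])
    have h3 : {x : Ω | x ≠ o}.ncard = 34 := by
      have h4 : {x : Ω | x ≠ o} = {o}ᶜ := rfl
      rw [h4, Set.ncard_compl, Set.ncard_singleton, hΩ]
    rwa [h3] at h1
  -- the automizer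
  have hcycP : IsCyclic (P : Subgroup Γ) := isCyclic_of_prime_card (p := 17) hPc
  have hcycA : IsCyclic (MulAut (P : Subgroup Γ)) := by
    let e := IsCyclic.mulAutMulEquiv (P : Subgroup Γ)
    have hP' : Nat.card (P : Subgroup Γ) = 17 := hPc
    have h1 : IsCyclic (ZMod (Nat.card (P : Subgroup Γ)))ˣ := by
      rw [hP']
      infer_instance
    exact isCyclic_of_surjective e.symm e.symm.surjective
  have hcardA : Nat.card (MulAut (P : Subgroup Γ)) = 16 := by
    rw [IsCyclic.card_mulAut, show Nat.card (P : Subgroup Γ) = 17 from hPc]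
    decide
  let f : H →* MulAut (P : Subgroup Γ) := (P : Subgroup Γ).normalizerMonoidHom.comp (Subgroup.inclusion hstab)
  have hfker : f.ker = C.subgroupOf H := by
    ext h
    rw [MonoidHom.mem_ker, Subgroup.mem_subgroupOf, hC]
    have h1 : Subgroup.inclusion hstab h ∈ (P : Subgroup Γ).normalizerMonoidHom.ker ↔ (h : Γ) ∈ Subgroup.centralizer ((P : Subgroup Γ) : Set Γ) := by
      rw [Subgroup.normalizerMonoidHom_ker]
      rfl
    rw [← h1]
    rfl
  have hHcard : Nat.card H ∣ 544 := by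
    have h1 := Subgroup.card_mul_index f.ker
    have h3 : f.ker.index ∣ 16 := by
      rw [Subgroup.index_ker, ← hcardA]
      exact Subgroup.card_subgroup_dvd_card _
    have h4 : Nat.card f.ker ∣ 34 := by
      rw [hfker, Nat.card_congr (Subgroup.subgroupOfEquivOfLe hCH).toEquiv]
      exact hC34
    rw [← h1]
    exact mul_dvd_mul h4 h3
  have hΓ : Nat.card Γ = 35 * Nat.card H := by
    have h1 := Subgroup.card_mul_index H
    have h3 : H.index = 35 := by
      rw [hH, index_stabilizer, orbit_eq_univ, Set.ncard_univ, hΩ]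
    rw [h3] at h1
    rw [← h1, mul_comm]
  -- a Sylow 2-subgroup of `H`
  obtain ⟨Q0⟩ : Nonempty (Sylow 2 H) := inferInstance
  obtain ⟨Q', hQ'⟩ : ∃ Q' : Subgroup Γ, Q' = (Q0 : Subgroup H).map H.subtype := ⟨_, rfl⟩
  have hQ'H : Q' ≤ H := by rw [hQ']; exact Subgroup.map_subtype_le _
  have hQ'p : IsPGroup 2 Q' := by rw [hQ']; exact Q0.2.map _
  have hQ'c : Nat.card Q' = Nat.card Q0 := by rw [hQ']; exact Subgroup.card_map_of_injective H.subtype_injective
  have hQ'i : ¬ 2 ∣ Q'.index := by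
    intro h
    have h1 : Q'.index = 35 * (Q0 : Subgroup H).index := by
      have h3 := Subgroup.card_mul_index Q'
      have h4 := Subgroup.card_mul_index (Q0 : Subgroup H)
      rw [hQ'c, hΓ, ← h4] at h3
      have h5 : 0 < Nat.card Q0 := Nat.card_pos
      have h6 : Nat.card Q0 * Q'.index = Nat.card Q0 * (35 * (Q0 : Subgroup H).index) := by rw [h3]; ring
      exact Nat.eq_of_mul_eq_mul_left h5 h6
    rw [h1, Nat.Prime.dvd_mul Nat.prime_two] at h
    rcases h with h | h
    · norm_num at h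
    · exact Q0.not_dvd_index h
  let Q : Sylow 2 Γ := hQ'p.toSylow hQ'i
  have hQQ' : (Q : Subgroup Γ) = Q' := rfl
  -- `Q` is abelian
  let fQ : Q' →* MulAut (P : Subgroup Γ) := f.comp (Subgroup.inclusion hQ'H)
  have hfQker : fQ.ker = C.subgroupOf Q' := by
    ext q
    have h1 : Subgroup.inclusion hQ'H q ∈ f.ker ↔ (q : Γ) ∈ C := by rw [hfker]; rfl
    rw [Subgroup.mem_subgroupOf, ← h1]
    rfl
  have hkc : Nat.card fQ.ker ≤ 2 := by
    have h1 : Nat.card fQ.ker ∣ 34 := by
      have h3 : Nat.card (fQ.ker.map Q'.subtype) = Nat.card fQ.ker := Subgroup.card_map_of_injective Q'.subtype_injective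
      rw [← h3]
      refine (Subgroup.card_dvd_of_le (K := C) ?_).trans hC34
      rw [hfQker]
      rintro _ ⟨q, hq, rfl⟩
      exact hq
    have h3 : IsPGroup 2 fQ.ker := hQ'p.to_subgroup _
    obtain ⟨j, hj⟩ := IsPGroup.iff_card.1 h3
    rw [hj] at h1 ⊢
    have h4 : j ≤ 1 := by
      by_contra hlt
      have h5 : 2 ^ 2 ∣ 2 ^ j := pow_dvd_pow 2 (by lia)
      have h6 := h5.trans h1
      norm_num at h6
    calc 2 ^ j ≤ 2 ^ 1 := Nat.pow_le_pow_right two_pos h4
      _ = 2 := by norm_num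
  have hker_center : fQ.ker ≤ Subgroup.center Q' := H3.OmegaRankTwo.le_center_of_card_le hQ'p _ hkc
  have hQcomm : ∀ a ∈ Q', ∀ b ∈ Q', a * b = b * a := by
    intro a ha b hb
    have h1 := (MonoidHom.isMulCommutative_of_isCyclic_of_ker_le_center fQ hker_center).is_comm.comm ⟨a, ha⟩ ⟨b, hb⟩
    exact congrArg Subtype.val h1
  -- elements of order dividing `2`
  let W : Subgroup Γ :=
    { carrier := {w | w ∈ Q' ∧ w ^ 2 = 1}
      one_mem' := ⟨Q'.one_mem, one_pow 2⟩
      mul_mem' := by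
        rintro a b ⟨ha, ha2⟩ ⟨hb, hb2⟩
        refine ⟨Q'.mul_mem ha hb, ?_⟩
        rw [(show Commute a b from hQcomm a ha b hb).mul_pow, ha2, hb2, one_mul]
      inv_mem' := by
        rintro a ⟨ha, ha2⟩
        exact ⟨Q'.inv_mem ha, by rw [inv_pow, ha2, inv_one]⟩ }
  have hWmem : ∀ w, w ∈ W ↔ w ∈ Q' ∧ w ^ 2 = 1 := fun w => Iff.rfl
  have hWle : W ≤ Q' := fun w hw => hw.1
  have hWcard : Nat.card W ≤ 4 := by
    obtain ⟨W', hW'⟩ : ∃ W' : Subgroup Q', W' = W.subgroupOf Q' := ⟨_, rfl⟩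
    have h1 : Nat.card W' = Nat.card W := by
      rw [hW']; exact Nat.card_congr (Subgroup.subgroupOfEquivOfLe hWle).toEquiv
    rw [← h1]
    have h3 := Subgroup.card_mul_index ((fQ.ker).subgroupOf W')
    have h4 : ((fQ.ker).subgroupOf W').index = Nat.card (W'.map fQ) := Subgroup.relIndex_ker (K := W') fQ
    have h5 : Nat.card ((fQ.ker).subgroupOf W') ≤ 2 := by
      refine le_trans ?_ hkc
      rw [← Subgroup.card_map_of_injective W'.subtype_injective]
      apply Subgroup.card_le_of_le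
      rw [Subgroup.subgroupOf_map_subtype]
      exact inf_le_left
    have h6 : Nat.card (W'.map fQ) ≤ 2 := by
      have h7 : Nat.card (W'.map fQ) ∣ 2 := by
        rw [← IsCyclic.exponent_eq_card]
        apply Monoid.exponent_dvd_of_forall_pow_eq_one
        rintro ⟨_, w, hw, rfl⟩
        apply Subtype.ext
        show (fQ w) ^ 2 = 1
        rw [← map_pow]
        have : w ^ 2 = 1 := by
          rw [hW'] at hw
          exact Subtype.ext hw.2
        rw [this, map_one]
      exact Nat.le_of_dvd two_pos h7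
    rw [h4] at h3
    rw [← h3]
    exact Nat.mul_le_mul h5 h6
  -- Burnside's transfer
  have hNC : Subgroup.normalizer ((Q : Subgroup Γ) : Set Γ) ≤ Subgroup.centralizer ((Q : Subgroup Γ) : Set Γ) := by
    intro α hα
    have hrel : (Subgroup.centralizer ((Q : Subgroup Γ) : Set Γ)).relIndex (Subgroup.normalizer ((Q : Subgroup Γ) : Set Γ)) ∣ (Q : Subgroup Γ).index := by
      have h1 : (Q : Subgroup Γ) ≤ Subgroup.centralizer ((Q : Subgroup Γ) : Set Γ) := by
        intro a ha
        rw [Subgroup.mem_centralizer_iff]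
        intro b hb
        exact hQcomm b hb a ha
      exact (Subgroup.relIndex_dvd_of_le_left _ h1).trans (Subgroup.relIndex_dvd_index_of_le Subgroup.le_normalizer)
    have hodd : ¬ 2 ∣ (Subgroup.centralizer ((Q : Subgroup Γ) : Set Γ)).relIndex (Subgroup.normalizer ((Q : Subgroup Γ) : Set Γ)) :=
      fun h => Q.not_dvd_index (h.trans hrel)
    obtain ⟨n, hn⟩ : ∃ n, n = (Subgroup.centralizer ((Q : Subgroup Γ) : Set Γ)).relIndex (Subgroup.normalizer ((Q : Subgroup Γ) : Set Γ)) := ⟨_, rfl⟩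
    rw [← hn] at hodd
    have hαn : α ^ n ∈ Subgroup.centralizer ((Q : Subgroup Γ) : Set Γ) := by
      have hnorm : ((Subgroup.centralizer ((Q : Subgroup Γ) : Set Γ)).subgroupOf (Subgroup.normalizer ((Q : Subgroup Γ) : Set Γ))).Normal := by
        rw [← Subgroup.normalizerMonoidHom_ker]
        infer_instance
      have := Subgroup.pow_index_mem ((Subgroup.centralizer ((Q : Subgroup Γ) : Set Γ)).subgroupOf (Subgroup.normalizer ((Q : Subgroup Γ) : Set Γ))) ⟨α, hα⟩
      rw [hn]
      exact this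
    -- the odd part
    obtain ⟨a, m, hm2, hm⟩ := Nat.exists_eq_pow_mul_and_not_dvd (orderOf_pos α).ne' 2 (by norm_num)
    have hβ : α ^ 2 ^ a ∈ Subgroup.centralizer ((Q : Subgroup Γ) : Set Γ) := by
      have hordβ : orderOf (α ^ 2 ^ a) = m := by
        rw [orderOf_pow_of_dvd (pow_ne_zero _ two_ne_zero) (by rw [hm]; exact dvd_mul_right _ _), hm,
          Nat.mul_div_cancel_left _ (pow_pos two_pos a)]
      have hm3 : m.Coprime 24 := by
        have h1 : m ∣ Nat.card Γ := by rw [← hordβ]; exact orderOf_dvd_natCard _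
        have h3 : m ∣ 35 * 544 := h1.trans (by rw [hΓ]; exact mul_dvd_mul_left _ hHcard)
        have h4 : ¬ 3 ∣ m := fun h => by
          have := h.trans h3
          norm_num at this
        rw [show (24 : ℕ) = 2 ^ 3 * 3 by norm_num]
        apply Nat.Coprime.mul_right
        · apply Nat.Coprime.pow_right
          rw [Nat.coprime_comm]
          exact (Nat.Prime.coprime_iff_not_dvd Nat.prime_two).2 hm2
        · rw [Nat.coprime_comm]
          exact (Nat.Prime.coprime_iff_not_dvd Nat.prime_three).2 h4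
      have h1 := cent_of_odd hQ'p hQcomm W hWmem hWcard (β := α ^ 2 ^ a)
        (Subgroup.pow_mem _ hα _) (by rw [hordβ]; exact hm3)
      rw [Subgroup.mem_centralizer_iff]
      intro q hq
      have h3 := h1 q hq
      rw [mul_inv_eq_iff_eq_mul] at h3
      exact h3.symm
    have hcop : Nat.Coprime n (2 ^ a) := by
      apply Nat.Coprime.pow_right
      rw [Nat.coprime_comm]
      exact (Nat.Prime.coprime_iff_not_dvd Nat.prime_two).2 hodd
    have hgcd : α ^ (Nat.gcd n (2 ^ a)) ∈ Subgroup.centralizer ((Q : Subgroup Γ) : Set Γ) := by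
      have h1 : α ^ ((Nat.gcd n (2 ^ a) : ℕ) : ℤ) = (α ^ n) ^ (Nat.gcdA n (2 ^ a)) * (α ^ 2 ^ a) ^ (Nat.gcdB n (2 ^ a)) := by
        rw [Nat.gcd_eq_gcd_ab, zpow_add, zpow_mul, zpow_mul, zpow_natCast, zpow_natCast]
      rw [zpow_natCast] at h1
      rw [h1]
      exact Subgroup.mul_mem _ (Subgroup.zpow_mem _ hαn _) (Subgroup.zpow_mem _ hβ _)
    rw [hcop.gcd_eq_one, pow_one] at hgcd
    exact hgcd
  -- the normal 2-complement
  obtain ⟨K, hK⟩ : ∃ K, K = (MonoidHom.transferSylow Q hNC).ker := ⟨_, rfl⟩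
  have hKn : K.Normal := by rw [hK]; infer_instance
  have hcompl := MonoidHom.ker_transferSylow_isComplement' Q hNC
  rw [← hK] at hcompl
  have hKodd := MonoidHom.not_dvd_card_ker_transferSylow Q hNC
  rw [← hK] at hKodd
  have hKcard : Nat.card K * Nat.card Q = Nat.card Γ := hcompl.card_mul_card
  have hQpow : ∃ j, Nat.card Q = 2 ^ j := IsPGroup.iff_card.1 Q.2
  obtain ⟨j, hj⟩ := hQpow
  have hcopK : (Nat.card K).Coprime (2 ^ 5) := by
    apply Nat.Coprime.pow_right
    rw [Nat.coprime_comm]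
    exact (Nat.Prime.coprime_iff_not_dvd Nat.prime_two).2 hKodd
  have hK595 : Nat.card K ∣ 595 := by
    have h1 : Nat.card K ∣ 595 * 2 ^ 5 := by
      have h3 : Nat.card K ∣ 35 * 544 := by
        rw [← Nat.card_congr (Equiv.refl K)]
        refine (Dvd.intro _ hKcard).trans ?_
        rw [hΓ]
        exact mul_dvd_mul_left _ hHcard
      norm_num at h3 ⊢
      exact h3
    exact hcopK.dvd_of_dvd_mul_right h1
  have hK35 : 35 ∣ Nat.card K := by
    have h1 : 35 ∣ Nat.card K * 2 ^ j := by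
      rw [← hj, hKcard, hΓ]
      exact dvd_mul_right _ _
    apply Nat.Coprime.dvd_of_dvd_mul_right _ h1
    apply Nat.Coprime.pow_right
    norm_num
  -- Sylow 5-subgroup of `K`
  obtain ⟨F⟩ : Nonempty (Sylow 5 K) := inferInstance
  have hFc : Nat.card F = 5 := by
    obtain ⟨i, hi⟩ := IsPGroup.iff_card.1 F.2
    have h1 : 5 ^ i ∣ 595 := by
      rw [← hi]
      exact (Subgroup.card_subgroup_dvd_card (F : Subgroup K)).trans hK595
    have h3 : 5 ∣ Nat.card F := by
      apply Sylow.dvd_card_of_dvd_card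
      exact (by norm_num : 5 ∣ 35).trans hK35
    have hi2 : i < 2 := by
      by_contra h
      have h4 : 5 ^ 2 ∣ 5 ^ i := pow_dvd_pow 5 (by lia)
      have := h4.trans h1
      norm_num at this
    have hi' : Nat.card F = 5 ^ i := hi
    interval_cases i
    · rw [hi'] at h3; norm_num at h3
    · rw [hi']; norm_num
  have hFn : (F : Subgroup K).Normal := by
    have h1 := card_sylow_modEq_one 5 K
    have h3 : Nat.card (Sylow 5 K) ∣ 119 := by
      have h4 := F.card_dvd_index
      have h5 := Subgroup.card_mul_index (F : Subgroup K)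
      have h6 : Nat.card (F : Subgroup K) = 5 := hFc
      rw [h6] at h5
      have h7 : (F : Subgroup K).index ∣ 119 := by
        have h8 : 5 * (F : Subgroup K).index ∣ 5 * 119 := by
          rw [h5]
          exact hK595
        exact Nat.dvd_of_mul_dvd_mul_left (by norm_num) h8
      exact h4.trans h7
    have h4 : Nat.card (Sylow 5 K) = 1 := by
      have h5 : Nat.card (Sylow 5 K) ∈ Nat.divisors 119 := Nat.mem_divisors.2 ⟨h3, by norm_num⟩
      have h6 : Nat.divisors 119 = {1, 7, 17, 119} := by decide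
      rw [h6] at h5
      simp only [Finset.mem_insert, Finset.mem_singleton] at h5
      rcases h5 with h5 | h5 | h5 | h5
      · exact h5
      · rw [h5] at h1; exact absurd h1 (by decide)
      · rw [h5] at h1; exact absurd h1 (by decide)
      · rw [h5] at h1; exact absurd h1 (by decide)
    have : Subsingleton (Sylow 5 K) := (Nat.card_eq_one_iff_unique.1 h4).1
    exact Sylow.normal_of_subsingleton F
  have hchar : (F : Subgroup K).Characteristic := Sylow.characteristic_of_normal F hFn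
  have hNn : ((F : Subgroup K).map K.subtype).Normal := ConjAct.normal_of_characteristic_of_normal
  obtain ⟨N, hN⟩ : ∃ N, N = (F : Subgroup K).map K.subtype := ⟨_, rfl⟩
  rw [← hN] at hNn
  have hNc : Nat.card N = 5 := by
    rw [hN, Subgroup.card_map_of_injective K.subtype_injective]
    exact hFc
  have hfixN : fixedPoints N Ω ≠ Set.univ := by
    intro h
    have : N = ⊥ := by
      rw [Subgroup.eq_bot_iff_forall]
      intro n hn
      apply FaithfulSMul.eq_of_smul_eq_smul (α := Ω)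
      intro y
      have h1 : y ∈ fixedPoints N Ω := by rw [h]; exact Set.mem_univ y
      rw [one_smul]
      exact h1 ⟨n, hn⟩
    rw [this, Subgroup.card_bot] at hNc
    exact absurd hNc (by norm_num)
  have hNtr : IsPretransitive N Ω := IsQuasiPreprimitive.isPretransitive_of_normal hfixN
  have h1 : (stabilizer N o).index = 35 := by
    rw [index_stabilizer, orbit_eq_univ, Set.ncard_univ, hΩ]
  have h3 := (stabilizer N o).index_dvd_card
  rw [h1, hNc] at h3
  exact absurd h3 (by norm_num)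

end Small

end H73.Syl35
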