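import Mathlib
import Cfsg.Agent.Lib.H69.SubgroupCount
import Cfsg.Agent.Lib.H73.Enum
import Cfsg.Agent.Lib.H73.Kulakoff
import Cfsg.Agent.Lib.H52.Syl

/-!
# The number of subgroups of order `p^a` of `G` and of a Sylow subgroup agree modulo `p^2` (H73.SylowSq)
-/

set_option autoImplicit false

open scoped Pointwise

namespace H73.SylowSq

variable {G : Type*} [Group G] [Finite G] {p : ℕ} [hp : Fact p.Prime]

/-- orbits of a `p`-group: `∑` over an invariant set of a function divisible by `p` and constant on nontrivial orbits -/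
theorem sq_dvd_sum {K X : Type*} [Group K] [Finite K] [MulAction K X] (hK : IsPGroup p K)
    (s : Finset X) (hs : ∀ k : K, ∀ x ∈ s, k • x ∈ s) (f : X → ℕ) (hf : ∀ k : K, ∀ x, f (k • x) = f x)
    (hp1 : ∀ x ∈ s, p ∣ f x) (hfix : ∀ x ∈ s, ∃ k : K, k • x ≠ x) : p ^ 2 ∣ ∑ x ∈ s, f x := by
  classical
  let q : X → MulAction.orbitRel.Quotient K X := fun x => Quotient.mk _ x
  rw [← Finset.sum_fiberwise_of_maps_to (s := s) (t := s.image q) (g := q)
    (fun x hx => Finset.mem_image_of_mem q hx)]
  apply Finset.dvd_sum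
  intro ω hω
  obtain ⟨x, hx, rfl⟩ := Finset.mem_image.1 hω
  have hq : ∀ y, q y = q x ↔ y ∈ MulAction.orbit K x := by
    intro y
    constructor
    · intro h
      rw [← MulAction.orbitRel_apply]
      exact Quotient.exact h
    · intro h
      exact Quotient.sound h
  have h1 : ∀ y ∈ s.filter (fun y => q y = q x), f y = f x := by
    intro y hy
    obtain ⟨k, rfl⟩ := (hq y).1 (Finset.mem_filter.1 hy).2
    exact hf k x
  rw [Finset.sum_congr rfl h1, Finset.sum_const, smul_eq_mul, pow_two]
  apply mul_dvd_mul _ (hp1 x hx)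
  have h2 : (s.filter (fun y => q y = q x)).card = (MulAction.stabilizer K x).index := by
    rw [MulAction.index_stabilizer, ← Set.ncard_coe_finset]
    congr 1
    ext y
    rw [Finset.mem_coe, Finset.mem_filter, hq]
    constructor
    · exact fun h => h.2
    · rintro ⟨k, rfl⟩
      exact ⟨hs k x hx, k, rfl⟩
  rw [h2]
  obtain ⟨j, hj⟩ := hK.index (MulAction.stabilizer K x)
  have hj0 : j ≠ 0 := by
    rintro rfl
    rw [pow_zero, Subgroup.index_eq_one] at hj
    obtain ⟨k, hk⟩ := hfix x hx
    apply hk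
    have : k ∈ MulAction.stabilizer K x := by rw [hj]; exact Subgroup.mem_top k
    exact this
  rw [hj]
  exact dvd_pow_self p hj0

/-! ### the conjugation action on subgroups -/

open H52.Syl

/-- conjugation action on subgroups -/
@[instance_reducible] noncomputable def act (K : Subgroup G) : MulAction K (Subgroup G) where
  smul k H := cj (k : G) H
  one_smul H := cj_one H
  mul_smul k l H := (cj_cj (k : G) (l : G) H).symm

attribute [local instance] act

theorem act_def (K : Subgroup G) (k : K) (H : Subgroup G) : k • H = cj (k : G) H := rfl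

theorem stab_map (K H : Subgroup G) :
    (MulAction.stabilizer K H).map K.subtype = K ⊓ Subgroup.normalizer (H : Set G) := by
  ext x
  constructor
  · rintro ⟨k, hk, rfl⟩
    refine ⟨k.2, ?_⟩
    exact mem_normalizer_of_cj_eq hk
  · rintro ⟨h1, h2⟩
    exact ⟨⟨x, h1⟩, cj_eq_of_mem_normalizer h2, rfl⟩

theorem stab_card (K H : Subgroup G) :
    Nat.card (K ⊓ Subgroup.normalizer (H : Set G) : Subgroup G) * (MulAction.stabilizer K H).index = Nat.card K := by
  rw [← stab_map, Subgroup.card_map_of_injective K.subtype_injective, Subgroup.card_mul_index]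

/-- a `p`-subgroup containing a Sylow subgroup -/
theorem sup_le_sylow (P : Sylow p G) {H : Subgroup G} (hH : IsPGroup p H)
    (hn : (P : Subgroup G) ≤ Subgroup.normalizer (H : Set G)) : H ≤ P := by
  have h1 : IsPGroup p ((P : Subgroup G) ⊔ H : Subgroup G) := P.2.to_sup_of_normal_right' hH hn
  have h2 := P.3 h1 le_sup_left
  rw [← h2]
  exact le_sup_right

theorem card_le_sylow (P : Sylow p G) {H : Subgroup G} (hH : IsPGroup p H) : Nat.card H ≤ Nat.card P := by
  obtain ⟨Q, hQ⟩ := hH.exists_le_sylow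
  rw [Nat.card_congr (Sylow.equiv P Q).toEquiv]
  exact Subgroup.card_le_of_le hQ

/-- the number of subgroups of order `p^a` contained in `K` and not contained in `L ≤ K` -/
theorem dvd_diff {a : ℕ} {K L : Subgroup G} (hLK : L ≤ K) (hK : p ^ a ∣ Nat.card K) (hL : p ^ a ∣ Nat.card L) :
    p ∣ Nat.card {H : Subgroup G // ¬ H ≤ L ∧ Nat.card H = p ^ a ∧ H ≤ K} := by
  classical
  have : Fintype (Subgroup G) := Fintype.ofFinite _
  have h1 := H69.SubgroupCount.card_modEq_one (G := K) p a hp.out hK
  have h2 := H69.SubgroupCount.card_modEq_one (G := L) p a hp.out hL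
  rw [H73.Enum.card_sub] at h1 h2
  have h3 : Nat.card {H : Subgroup G // H ≤ K ∧ Nat.card H = p ^ a} =
      Nat.card {H : Subgroup G // ¬ H ≤ L ∧ Nat.card H = p ^ a ∧ H ≤ K} +
        Nat.card {H : Subgroup G // H ≤ L ∧ Nat.card H = p ^ a} := by
    rw [Nat.card_eq_fintype_card, Nat.card_eq_fintype_card, Nat.card_eq_fintype_card, Fintype.card_subtype,
      Fintype.card_subtype, Fintype.card_subtype, ← Finset.card_union_of_disjoint]
    · congr 1
      ext H
      simp only [Finset.mem_filter, Finset.mem_univ, true_and, Finset.mem_union]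
      constructor
      · rintro ⟨h3, h4⟩
        by_cases h5 : H ≤ L
        · exact Or.inr ⟨h5, h4⟩
        · exact Or.inl ⟨h5, h4, h3⟩
      · rintro (⟨-, h4, h3⟩ | ⟨h5, h4⟩)
        · exact ⟨h3, h4⟩
        · exact ⟨h5.trans hLK, h4⟩
    · rw [Finset.disjoint_left]
      intro H h4 h5
      simp only [Finset.mem_filter, Finset.mem_univ, true_and] at h4 h5
      exact h4.1 h5.1
  rw [h3] at h1
  have h4 : Nat.card {H : Subgroup G // ¬ H ≤ L ∧ Nat.card H = p ^ a ∧ H ≤ K} + 1 ≡ 0 + 1 [MOD p] := by
    rw [zero_add]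
    exact (Nat.ModEq.add_left _ h2.symm).trans h1
  exact (Nat.modEq_zero_iff_dvd).1 (Nat.ModEq.add_right_cancel' 1 h4)

/-- normal subgroups of order `p^a` of a `p`-subgroup `R`, not contained in `L` -/
theorem dvd_normal {a : ℕ} {R L : Subgroup G} (hR : IsPGroup p R) (hLR : L ≤ R)
    (hn : R ≤ Subgroup.normalizer (L : Set G)) (hK : p ^ a ∣ Nat.card R) (hL : p ^ a ∣ Nat.card L) :
    p ∣ Nat.card {H : Subgroup G // ¬ H ≤ L ∧ Nat.card H = p ^ a ∧ H ≤ R ∧ R ≤ Subgroup.normalizer (H : Set G)} := by
  classical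
  have h1 := dvd_diff hLR hK hL
  let W := {H : Subgroup G // ¬ H ≤ L ∧ Nat.card H = p ^ a ∧ H ≤ R}
  let inst : MulAction R W :=
    { smul := fun k H => ⟨cj (k : G) H.1, by
        refine ⟨?_, ?_, ?_⟩
        · intro h
          apply H.2.1
          rw [cj_le_iff] at h
          rwa [cj_eq_of_mem_normalizer (Subgroup.inv_mem _ (hn k.2))] at h
        · rw [card_cj]; exact H.2.2.1
        · rw [cj_le_iff, cj_of_mem (R.inv_mem k.2)]
          exact H.2.2.2⟩
      one_smul := fun H => Subtype.ext (cj_one H.1)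
      mul_smul := fun k l H => Subtype.ext (cj_cj (k : G) (l : G) H.1).symm }
  have h2 := hR.card_modEq_card_fixedPoints W
  have h3 : Nat.card (MulAction.fixedPoints R W) =
      Nat.card {H : Subgroup G // ¬ H ≤ L ∧ Nat.card H = p ^ a ∧ H ≤ R ∧ R ≤ Subgroup.normalizer (H : Set G)} := by
    apply Nat.card_congr
    refine
      { toFun := fun H => ⟨H.1.1, H.1.2.1, H.1.2.2.1, H.1.2.2.2, fun x hx => ?_⟩
        invFun := fun H => ⟨⟨H.1, H.2.1, H.2.2.1, H.2.2.2.1⟩, fun x => ?_⟩
        left_inv := fun H => rfl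
        right_inv := fun H => rfl }
    · have h4 := H.2 ⟨x, hx⟩
      exact mem_normalizer_of_cj_eq (congrArg Subtype.val h4)
    · exact Subtype.ext (cj_eq_of_mem_normalizer (H.2.2.2.2 x.2))
  rw [h3] at h2
  exact (Nat.modEq_zero_iff_dvd).1 (h2.symm.trans ((Nat.modEq_zero_iff_dvd).2 h1))

/-- the number of subgroups of order `p^a` outside a Sylow subgroup is divisible by `p^2` -/
theorem card_outside (P : Sylow p G) {a n : ℕ} (hn : Nat.card P = p ^ n) (ha : a + 1 ≤ n) :
    p ^ 2 ∣ Nat.card {H : Subgroup G // ¬ H ≤ (P : Subgroup G) ∧ Nat.card H = p ^ a} := by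
  classical
  have : Fintype (Subgroup G) := Fintype.ofFinite _
  have hp1 := hp.out.one_lt
  have hcardpos : 0 < Nat.card P := Nat.card_pos
  obtain ⟨Y, hY⟩ : ∃ Y : Finset (Subgroup G), Y = Finset.univ.filter (fun H => ¬ H ≤ (P : Subgroup G) ∧ Nat.card H = p ^ a) := ⟨_, rfl⟩
  have hYmem : ∀ H, H ∈ Y ↔ ¬ H ≤ (P : Subgroup G) ∧ Nat.card H = p ^ a := by
    intro H; rw [hY, Finset.mem_filter]; simp
  have hYcard : Nat.card {H : Subgroup G // ¬ H ≤ (P : Subgroup G) ∧ Nat.card H = p ^ a} = Y.card := by
    rw [Nat.card_eq_fintype_card, Fintype.card_subtype, hY]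
  have hYinv : ∀ k : (P : Subgroup G), ∀ H ∈ Y, cj (k : G) H ∈ Y := by
    intro k H hH
    rw [hYmem] at hH ⊢
    refine ⟨fun h => hH.1 ?_, by rw [card_cj]; exact hH.2⟩
    rw [cj_le_iff, cj_of_mem ((P : Subgroup G).inv_mem k.2)] at h
    exact h
  have hYp : ∀ H ∈ Y, IsPGroup p H := fun H hH => IsPGroup.iff_card.2 ⟨a, ((hYmem H).1 hH).2⟩
  have hYne : ∀ H ∈ Y, ¬ (P : Subgroup G) ≤ Subgroup.normalizer (H : Set G) :=
    fun H hH h => ((hYmem H).1 hH).1 (sup_le_sylow P (hYp H hH) h)
  have hidx : ∀ H ∈ Y, ∃ j, 1 ≤ j ∧ (MulAction.stabilizer (P : Subgroup G) H).index = p ^ j := by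
    intro H hH
    obtain ⟨j, hj⟩ := P.2.index (MulAction.stabilizer (P : Subgroup G) H)
    refine ⟨j, ?_, hj⟩
    by_contra hlt
    have hj0 : j = 0 := by lia
    rw [hj0, pow_zero] at hj
    have h1 := stab_card (P : Subgroup G) H
    rw [hj, mul_one] at h1
    have h2 : (P : Subgroup G) ⊓ Subgroup.normalizer (H : Set G) = P :=
      Subgroup.eq_of_le_of_card_ge inf_le_left h1.ge
    exact hYne H hH (inf_eq_left.1 h2)
  rw [hYcard, ← Finset.card_filter_add_card_filter_not (s := Y) (fun H => (MulAction.stabilizer (P : Subgroup G) H).index = p)]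
  apply dvd_add
  · -- the set `Y₁`
    obtain ⟨R, hR⟩ : ∃ R : Finset (Subgroup G), R = Finset.univ.filter (fun K : Subgroup G => Nat.card K = Nat.card P ∧
      Nat.card ((P : Subgroup G) ⊓ K : Subgroup G) * p = Nat.card P) := ⟨_, rfl⟩
    have hRmem : ∀ K, K ∈ R ↔ Nat.card K = Nat.card P ∧ Nat.card ((P : Subgroup G) ⊓ K : Subgroup G) * p = Nat.card P := by
      intro K; rw [hR, Finset.mem_filter]; simp
    have hRp : ∀ K ∈ R, IsPGroup p K := fun K hK => IsPGroup.iff_card.2 ⟨n, by rw [((hRmem K).1 hK).1, hn]⟩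
    -- `p`-groups containing a subgroup properly
    have hbig : ∀ M K : Subgroup G, IsPGroup p K → M ≤ K → ¬ K ≤ M → Nat.card M * p ≤ Nat.card K := by
      intro M K hK hMK hne
      have h1 := H73.Kulakoff.card_mul_relIndex_of_le (P := G) hMK
      have hK' : IsPGroup p K := hK
      obtain ⟨j, hj⟩ := hK'.index (M.subgroupOf K)
      have hj' : M.relIndex K = p ^ j := hj
      have hj0 : j ≠ 0 := by
        rintro rfl
        rw [pow_zero] at hj'
        exact hne (Subgroup.relIndex_eq_one.1 hj')
      rw [← h1, hj']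
      apply Nat.mul_le_mul_left
      calc p = p ^ 1 := (pow_one p).symm
        _ ≤ p ^ j := Nat.pow_le_pow_right hp.out.pos (by lia)
    have hpart : ∀ H ∈ Y, (MulAction.stabilizer (P : Subgroup G) H).index = p →
        ((P : Subgroup G) ⊓ Subgroup.normalizer (H : Set G)) ⊔ H ∈ R ∧
          (P : Subgroup G) ⊓ (((P : Subgroup G) ⊓ Subgroup.normalizer (H : Set G)) ⊔ H) =
            (P : Subgroup G) ⊓ Subgroup.normalizer (H : Set G) := by
      intro H hH hi
      obtain ⟨M, hM⟩ : ∃ M, M = (P : Subgroup G) ⊓ Subgroup.normalizer (H : Set G) := ⟨_, rfl⟩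
      have hMc := stab_card (P : Subgroup G) H
      rw [hi, ← hM] at hMc
      rw [← hM]
      have hMp : IsPGroup p M := P.2.to_le (by rw [hM]; exact inf_le_left)
      have hMP : M ≤ P := by rw [hM]; exact inf_le_left
      have hKp : IsPGroup p (M ⊔ H : Subgroup G) := hMp.to_sup_of_normal_right' (hYp H hH) (by rw [hM]; exact inf_le_right)
      have hHM : ¬ H ≤ M := fun h => ((hYmem H).1 hH).1 (h.trans hMP)
      have h1 := hbig M (M ⊔ H) hKp le_sup_left (fun h => hHM (le_sup_right.trans h))
      have h2 := card_le_sylow P hKp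
      have hKc : Nat.card (M ⊔ H : Subgroup G) = Nat.card P := le_antisymm h2 (by rw [← hMc]; exact h1)
      have hPK : ¬ (P : Subgroup G) ≤ M ⊔ H := by
        intro h
        have h3 : (P : Subgroup G) = M ⊔ H := Subgroup.eq_of_le_of_card_ge h hKc.le
        apply ((hYmem H).1 hH).1
        rw [h3]; exact le_sup_right
      have hint : (P : Subgroup G) ⊓ (M ⊔ H) = M := by
        have h3 := hbig ((P : Subgroup G) ⊓ (M ⊔ H)) P P.2 inf_le_left (fun h => hPK (h.trans inf_le_right))
        symm
        apply Subgroup.eq_of_le_of_card_ge (le_inf hMP le_sup_left)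
        have h4 : Nat.card ((P : Subgroup G) ⊓ (M ⊔ H) : Subgroup G) * p ≤ Nat.card M * p := by
          rw [hMc]; exact h3
        exact Nat.le_of_mul_le_mul_right h4 hp.out.pos
      refine ⟨(hRmem _).2 ⟨hKc, by rw [hint, hMc]⟩, hint⟩
    rw [Finset.card_eq_sum_card_fiberwise (f := fun H : Subgroup G => ((P : Subgroup G) ⊓ Subgroup.normalizer (H : Set G)) ⊔ H)
      (t := R) (by
        intro H hH
        rw [Finset.mem_coe, Finset.mem_filter] at hH
        exact (hpart H hH.1 hH.2).1)]
    have hF : ∀ K ∈ R, ((Y.filter (fun H => (MulAction.stabilizer (P : Subgroup G) H).index = p)).filter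
        (fun H : Subgroup G => ((P : Subgroup G) ⊓ Subgroup.normalizer (H : Set G)) ⊔ H = K)).card =
        Nat.card {H : Subgroup G // ¬ H ≤ (P : Subgroup G) ∧ Nat.card H = p ^ a ∧ H ≤ K ∧ K ≤ Subgroup.normalizer (H : Set G)} := by
      intro K hK
      rw [Nat.card_eq_fintype_card, Fintype.card_subtype]
      congr 1
      ext H
      rw [Finset.mem_filter, Finset.mem_filter, Finset.mem_filter, hYmem]
      have hKR := (hRmem K).1 hK
      constructor
      · rintro ⟨⟨⟨h1, h2⟩, h3⟩, rfl⟩
        refine ⟨Finset.mem_univ _, h1, h2, le_sup_right, sup_le inf_le_right Subgroup.le_normalizer⟩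
      · rintro ⟨-, h1, h2, h3, h4⟩
        have hHY : H ∈ Y := (hYmem H).2 ⟨h1, h2⟩
        have h5 : (P : Subgroup G) ⊓ K ≤ (P : Subgroup G) ⊓ Subgroup.normalizer (H : Set G) := inf_le_inf_left _ h4
        have h6 := hbig ((P : Subgroup G) ⊓ Subgroup.normalizer (H : Set G)) P P.2 inf_le_left
          (fun h => hYne H hHY (h.trans inf_le_right))
        have h7 : (P : Subgroup G) ⊓ K = (P : Subgroup G) ⊓ Subgroup.normalizer (H : Set G) := by
          apply Subgroup.eq_of_le_of_card_ge h5
          have h8 : Nat.card ((P : Subgroup G) ⊓ Subgroup.normalizer (H : Set G) : Subgroup G) * p ≤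
              Nat.card ((P : Subgroup G) ⊓ K : Subgroup G) * p := by
            rw [hKR.2]; exact h6
          exact Nat.le_of_mul_le_mul_right h8 hp.out.pos
        have h9 := stab_card (P : Subgroup G) H
        rw [← h7] at h9
        have h10 : (MulAction.stabilizer (P : Subgroup G) H).index = p := by
          have h12 : 0 < Nat.card ((P : Subgroup G) ⊓ K : Subgroup G) := Nat.card_pos
          apply Nat.eq_of_mul_eq_mul_left h12
          rw [h9, hKR.2]
        refine ⟨⟨⟨h1, h2⟩, h10⟩, ?_⟩
        have h11 := (hRmem _).1 (hpart H hHY h10).1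
        apply Subgroup.eq_of_le_of_card_ge
        · rw [← h7]
          exact sup_le inf_le_right h3
        · rw [h11.1, hKR.1]
    rw [Finset.sum_congr rfl hF]
    apply sq_dvd_sum (K := (P : Subgroup G)) P.2 R
    · intro k K hK
      rw [hRmem] at hK ⊢
      rw [act_def]
      refine ⟨by rw [card_cj]; exact hK.1, ?_⟩
      have h1 : (P : Subgroup G) ⊓ cj (k : G) K = cj (k : G) ((P : Subgroup G) ⊓ K) := by
        rw [cj_inf, cj_of_mem k.2]
      rw [h1, card_cj]
      exact hK.2
    · intro k K
      rw [act_def]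
      apply Nat.card_congr
      have hkP : cj (k : G) (P : Subgroup G) = P := cj_of_mem k.2
      have hkP' : cj (k : G)⁻¹ (P : Subgroup G) = P := cj_of_mem ((P : Subgroup G).inv_mem k.2)
      refine
        { toFun := fun H => ⟨cj (k : G)⁻¹ H.1, ?_, ?_, ?_, ?_⟩
          invFun := fun H => ⟨cj (k : G) H.1, ?_, ?_, ?_, ?_⟩
          left_inv := fun H => Subtype.ext (cj_cj_inv _ _)
          right_inv := fun H => Subtype.ext (cj_inv_cj _ _) }
      · intro h
        apply H.2.1
        rw [cj_le_iff, inv_inv, hkP] at h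
        exact h
      · rw [card_cj]; exact H.2.2.1
      · rw [cj_le_iff, inv_inv]; exact H.2.2.2.1
      · have h1 := cj_mono (g := (k : G)⁻¹) H.2.2.2.2
        rw [cj_inv_cj, cj_normalizer] at h1
        exact h1
      · intro h
        apply H.2.1
        rw [cj_le_iff, hkP'] at h
        exact h
      · rw [card_cj]; exact H.2.2.1
      · exact cj_mono H.2.2.2.1
      · have h1 := cj_mono (g := (k : G)) H.2.2.2.2
        rw [cj_normalizer] at h1
        exact h1
    · intro K hK
      have hKR := (hRmem K).1 hK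
      have h1 : ∀ H : Subgroup G, (¬ H ≤ (P : Subgroup G) ∧ Nat.card H = p ^ a ∧ H ≤ K ∧ K ≤ Subgroup.normalizer (H : Set G)) ↔
          (¬ H ≤ (P : Subgroup G) ⊓ K ∧ Nat.card H = p ^ a ∧ H ≤ K ∧ K ≤ Subgroup.normalizer (H : Set G)) := by
        intro H
        constructor
        · rintro ⟨h1, h2, h3, h4⟩
          exact ⟨fun h => h1 (h.trans inf_le_left), h2, h3, h4⟩
        · rintro ⟨h1, h2, h3, h4⟩
          exact ⟨fun h => h1 (le_inf h h3), h2, h3, h4⟩
      rw [Nat.card_congr (Equiv.subtypeEquivRight h1)]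
      have hpn : p ^ n = p ^ (n - 1) * p := by rw [← pow_succ, Nat.sub_add_cancel (by lia)]
      have hMc : Nat.card ((P : Subgroup G) ⊓ K : Subgroup G) = p ^ (n - 1) := by
        have h2 := hKR.2
        rw [hn, hpn] at h2
        exact Nat.eq_of_mul_eq_mul_right hp.out.pos h2
      apply dvd_normal (hRp K hK) inf_le_right
      · -- index `p` subgroups are normal
        have h2 := H73.Kulakoff.card_mul_relIndex_of_le (P := G) (inf_le_right : (P : Subgroup G) ⊓ K ≤ K)
        rw [hMc, hKR.1, hn, hpn] at h2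
        have h3 : (((P : Subgroup G) ⊓ K).subgroupOf K).index = p := Nat.eq_of_mul_eq_mul_left (pow_pos hp.out.pos _) h2
        have h4 : Group.IsNilpotent K := (hRp K hK).isNilpotent
        have h5 : (((P : Subgroup G) ⊓ K).subgroupOf K).Normal :=
          H1.Frat.normal_of_isCoatom (H73.Enum.isCoatom_of_index h3)
        exact (Subgroup.normal_subgroupOf_iff_le_normalizer inf_le_right).1 h5
      · rw [hKR.1, hn]
        exact pow_dvd_pow p (by lia)
      · rw [hMc]
        exact pow_dvd_pow p (by lia)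
    · intro K hK
      by_contra hcon
      push Not at hcon
      have hKR := (hRmem K).1 hK
      have h1 : (P : Subgroup G) ≤ Subgroup.normalizer (K : Set G) := fun x hx =>
        mem_normalizer_of_cj_eq (hcon ⟨x, hx⟩)
      have h2 := sup_le_sylow P (hRp K hK) h1
      have h3 := hKR.2
      rw [inf_eq_right.2 h2, hKR.1] at h3
      nlinarith
  · -- the set `Y₂`
    have h1 := H69.SubgroupCount.dvd_ncard_of_orbits (G := (P : Subgroup G)) (X := Subgroup G) (p ^ 2)
      (((Y.filter (fun H => ¬ (MulAction.stabilizer (P : Subgroup G) H).index = p) : Finset (Subgroup G)) : Set (Subgroup G))) (by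
        intro H hH k
        rw [Finset.mem_coe, Finset.mem_filter] at hH ⊢
        refine ⟨hYinv k H hH.1, ?_⟩
        have h2 : (MulAction.stabilizer (P : Subgroup G) (k • H)).index = (MulAction.stabilizer (P : Subgroup G) H).index := by
          rw [MulAction.index_stabilizer, MulAction.index_stabilizer, MulAction.orbit_smul]
        rw [h2]
        exact hH.2) (by
        intro H hH
        rw [Finset.mem_coe, Finset.mem_filter] at hH
        rw [← MulAction.index_stabilizer]
        obtain ⟨j, hj1, hj⟩ := hidx H hH.1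
        have hj2 : j ≠ 1 := by
          rintro rfl
          exact hH.2 (by rw [hj, pow_one])
        rw [hj]
        exact pow_dvd_pow p (by lia))
    rwa [Set.ncard_coe_finset] at h1

/-- the counts for `G` and for a Sylow subgroup agree modulo `p^2` -/
theorem card_modEq (P : Sylow p G) {a n : ℕ} (hn : Nat.card P = p ^ n) (ha : a + 1 ≤ n) :
    Nat.card {H : Subgroup G // Nat.card H = p ^ a} ≡ Nat.card {H : Subgroup P // Nat.card H = p ^ a} [MOD p ^ 2] := by
  classical
  have : Fintype (Subgroup G) := Fintype.ofFinite _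
  have h1 := card_outside P hn ha
  have h2 : Nat.card {H : Subgroup P // Nat.card H = p ^ a} = Nat.card {H : Subgroup G // H ≤ (P : Subgroup G) ∧ Nat.card H = p ^ a} :=
    H73.Enum.card_sub (P : Subgroup G) (p ^ a)
  have h3 : Nat.card {H : Subgroup G // Nat.card H = p ^ a} =
      Nat.card {H : Subgroup G // H ≤ (P : Subgroup G) ∧ Nat.card H = p ^ a} +
        Nat.card {H : Subgroup G // ¬ H ≤ (P : Subgroup G) ∧ Nat.card H = p ^ a} := by
    rw [Nat.card_eq_fintype_card, Nat.card_eq_fintype_card, Nat.card_eq_fintype_card, Fintype.card_subtype,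
      Fintype.card_subtype, Fintype.card_subtype, ← Finset.card_union_of_disjoint]
    · congr 1
      ext H
      simp only [Finset.mem_filter, Finset.mem_univ, true_and, Finset.mem_union]
      tauto
    · rw [Finset.disjoint_left]
      intro H h4 h5
      simp only [Finset.mem_filter, Finset.mem_univ, true_and] at h4 h5
      exact h5.1 h4.1
  rw [h3, h2]
  exact Nat.ModEq.add_left _ ((Nat.modEq_zero_iff_dvd).2 h1)

end H73.SylowSq
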